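import Cfsg.Agent.F2C.Defs

set_option autoImplicit false
set_option linter.unusedSectionVars false

namespace Cfsg.Agent.F2C
open Subgroup

variable {G : Type*} [Group G] [Finite G]


theorem cj_one (Q : Subgroup G) : cj 1 Q = Q := by
  ext a; simp [mem_cj]

theorem cj_mul (g h : G) (Q : Subgroup G) : cj (g * h) Q = cj g (cj h Q) := by
  ext a; simp [mem_cj, mul_assoc]

theorem cj_inv_cj (g : G) (Q : Subgroup G) : cj g⁻¹ (cj g Q) = Q := by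
  rw [← cj_mul, inv_mul_cancel, cj_one]

theorem cj_cj_inv (g : G) (Q : Subgroup G) : cj g (cj g⁻¹ Q) = Q := by
  rw [← cj_mul, mul_inv_cancel, cj_one]

theorem cj_mono (g : G) {A B : Subgroup G} (h : A ≤ B) : cj g A ≤ cj g B :=
  Subgroup.map_mono h

theorem cj_le_cj {g : G} {A B : Subgroup G} : cj g A ≤ cj g B ↔ A ≤ B := by
  refine ⟨fun h => ?_, cj_mono g⟩
  have := cj_mono g⁻¹ h
  rwa [cj_inv_cj, cj_inv_cj] at this

theorem cj_eq_bot {g : G} {A : Subgroup G} : cj g A = ⊥ ↔ A = ⊥ :=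
  Subgroup.map_eq_bot_iff_of_injective A (MulAut.conj g).injective

theorem cj_eq_top {g : G} {A : Subgroup G} : cj g A = ⊤ ↔ A = ⊤ := by
  have ht : ∀ g : G, cj g (⊤ : Subgroup G) = ⊤ := fun g => by
    ext a; simp [mem_cj]
  constructor
  · intro h
    rw [← cj_inv_cj g A, h, ht]
  · rintro rfl
    exact ht g

theorem mem_cj_conj {g a : G} {A : Subgroup G} : g * a * g⁻¹ ∈ cj g A ↔ a ∈ A := by
  simp [mem_cj, mul_assoc]

theorem cj_sup (g : G) (A B : Subgroup G) : cj g (A ⊔ B) = cj g A ⊔ cj g B :=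
  Subgroup.map_sup A B _

theorem cj_inf (g : G) (A B : Subgroup G) : cj g (A ⊓ B) = cj g A ⊓ cj g B := by
  ext a; simp [mem_cj]

theorem cj_comm (g : G) (A B : Subgroup G) : cj g ⁅A, B⁆ = ⁅cj g A, cj g B⁆ :=
  Subgroup.map_commutator A B _

theorem cj_zpowers (g a : G) : cj g (zpowers a) = zpowers (g * a * g⁻¹) := by
  unfold cj
  rw [MonoidHom.map_zpowers]
  rfl

theorem cj_gen (g a b : G) : cj g (gen a b) = gen (g * a * g⁻¹) (g * b * g⁻¹) := by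
  unfold cj gen
  rw [MonoidHom.map_closure, Set.image_pair]
  rfl

theorem cj_Nm (g : G) (A : Subgroup G) : cj g (Nm A) = Nm (cj g A) := by
  ext a
  rw [mem_cj, mem_Nm_iff_cj, mem_Nm_iff_cj, cj_mul, cj_mul]
  constructor
  · intro h
    have := congrArg (cj g) h
    rwa [cj_cj_inv] at this
  · intro h
    rw [h, cj_inv_cj]

theorem cj_Ce (g : G) (A : Subgroup G) : cj g (Ce A) = Ce (cj g A) := by
  ext a
  rw [mem_cj, mem_centralizer_iff, mem_centralizer_iff]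
  constructor
  · intro h b hb
    have := h _ (mem_cj.mp hb)
    calc b * a = g * (g⁻¹ * b * g * (g⁻¹ * a * g)) * g⁻¹ := by group
      _ = g * (g⁻¹ * a * g * (g⁻¹ * b * g)) * g⁻¹ := by rw [this]
      _ = a * b := by group
  · intro h b hb
    have := h _ (mem_cj_conj (g := g).mpr hb)
    calc b * (g⁻¹ * a * g) = g⁻¹ * (g * b * g⁻¹ * a) * g := by group
      _ = g⁻¹ * (a * (g * b * g⁻¹)) * g := by rw [this]
      _ = g⁻¹ * a * g * b := by group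

theorem Ce_zpowers (a : G) : Ce (zpowers a) = Cx a := by
  ext b
  rw [mem_Cx, mem_centralizer_iff]
  constructor
  · intro h
    exact (h a (mem_zpowers a)).symm
  · rintro h _ ⟨k, rfl⟩
    exact ((Commute.zpow_right (show Commute b a from h) k).eq).symm

theorem cj_Cx (g a : G) : cj g (Cx a) = Cx (g * a * g⁻¹) := by
  rw [← Ce_zpowers, cj_Ce, cj_zpowers, Ce_zpowers]

theorem cj_eq_of_mem {g : G} {A : Subgroup G} (h : g ∈ A) : cj g A = A :=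
  mem_Nm_iff_cj.mp (le_normalizer h)

theorem card_cj (g : G) (A : Subgroup G) : Nat.card (cj g A) = Nat.card A :=
  Subgroup.card_map_of_injective (MulAut.conj g).injective

theorem pg_cj {q : ℕ} {A : Subgroup G} (h : IsPGroup q A) (g : G) : IsPGroup q (cj g A) :=
  h.map _

theorem mem_Nm_of_cj_le {g : G} {A : Subgroup G} (h : cj g A ≤ A) : g ∈ Nm A :=
  mem_Nm_iff_cj.mpr (Subgroup.eq_of_le_of_card_ge h (card_cj g A).ge)

theorem Nm_inf_Nm_le_comm (A B : Subgroup G) : Nm A ⊓ Nm B ≤ Nm ⁅A, B⁆ := by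
  rintro g ⟨h1, h2⟩
  rw [mem_Nm_iff_cj, cj_comm, mem_Nm_iff_cj.mp h1, mem_Nm_iff_cj.mp h2]

theorem Nm_inf_Nm_le_inf (A B : Subgroup G) : Nm A ⊓ Nm B ≤ Nm (A ⊓ B) := by
  rintro g ⟨h1, h2⟩
  rw [mem_Nm_iff_cj, cj_inf, mem_Nm_iff_cj.mp h1, mem_Nm_iff_cj.mp h2]

theorem Nm_inf_Nm_le_sup (A B : Subgroup G) : Nm A ⊓ Nm B ≤ Nm (A ⊔ B) := by
  rintro g ⟨h1, h2⟩
  rw [mem_Nm_iff_cj, cj_sup, mem_Nm_iff_cj.mp h1, mem_Nm_iff_cj.mp h2]

theorem Nm_le_Nm_Ce (A : Subgroup G) : Nm A ≤ Nm (Ce A) := by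
  intro g h
  rw [mem_Nm_iff_cj, cj_Ce, mem_Nm_iff_cj.mp h]

theorem Ce_le_Nm (A : Subgroup G) : Ce A ≤ Nm A := by
  intro g h
  apply mem_Nm_of_cj_le
  rintro _ ⟨u, hu, rfl⟩
  have := mem_centralizer_iff.mp h u hu
  have e : (MulAut.conj g).toMonoidHom u = u := by
    change g * u * g⁻¹ = u
    rw [← this]; group
  rwa [e]

theorem Cx_le_Nm_zpowers (a : G) : Cx a ≤ Nm (zpowers a) := by
  rw [← Ce_zpowers]; exact Ce_le_Nm _

theorem Cx_le_Nm_Cx (a : G) : Cx a ≤ Nm (Cx a) := le_normalizer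

theorem le_Ce_comm {A B : Subgroup G} (h : A ≤ Ce B) : B ≤ Ce A :=
  fun b hb => mem_centralizer_iff.mpr fun _ ha => (mem_centralizer_iff.mp (h ha) b hb).symm

theorem QQ.cnj {q : ℕ} {b : G} {D : Subgroup G} (h : QQ q b D) (g : G) :
    QQ q (g * b * g⁻¹) (cj g D) := by
  refine ⟨pg_cj h.1 g, ?_, ?_⟩
  · rw [← cj_Nm]; exact mem_cj_conj.mpr h.2.1
  · rw [← cj_zpowers, ← cj_comm, h.2.2]

theorem QQ.cnj_inv {q : ℕ} {b g : G} {D : Subgroup G} (h : QQ q (g * b * g⁻¹) D) :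
    QQ q b (cj g⁻¹ D) := by
  have := h.cnj g⁻¹
  rwa [show g⁻¹ * (g * b * g⁻¹) * g⁻¹⁻¹ = b by group] at this

theorem MQ.cnj {q : ℕ} {b : G} {D : Subgroup G} (h : MQ q b D) (g : G) :
    MQ q (g * b * g⁻¹) (cj g D) := by
  refine ⟨h.1.cnj g, fun E hE hle => ?_⟩
  have h1 := cj_mono g⁻¹ hle
  rw [cj_inv_cj] at h1
  rw [← h.2 _ hE.cnj_inv h1, cj_cj_inv]

theorem UQ.cnj {q : ℕ} {b : G} {D : Subgroup G} (h : UQ q b D) (g : G) :
    UQ q (g * b * g⁻¹) (cj g D) := by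
  refine ⟨h.1.cnj g, fun E hE => ?_⟩
  have h1 := cj_mono g (h.2 _ hE.cnj_inv)
  rwa [cj_cj_inv] at h1

theorem UQ.mq {q : ℕ} {b : G} {D : Subgroup G} (h : UQ q b D) : MQ q b D :=
  ⟨h.1, fun E hE hle => le_antisymm (h.2 E hE) hle⟩

theorem UQ.Cx_le {q : ℕ} {b : G} {D : Subgroup G} (h : UQ q b D) : Cx b ≤ Nm D := by
  intro g hg
  apply mem_Nm_of_cj_le
  have := h.1.cnj g
  rw [mem_Cx.mp hg, mul_inv_cancel_right] at this
  exact h.2 _ this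

theorem LL_cj (p : ℕ) (g x : G) : LL p (g * x * g⁻¹) = cj g (LL p x) := by
  ext a
  rw [mem_cj, mem_LL, mem_LL]
  constructor
  · intro h q Q hq hqp hQ
    have := h q _ hq hqp (hQ.cnj g)
    rwa [← cj_Nm, mem_cj] at this
  · intro h q Q hq hqp hQ
    have h1 := hQ.cnj g⁻¹
    rw [show g⁻¹ * (g * x * g⁻¹) * g⁻¹⁻¹ = x by group] at h1
    have := h q _ hq hqp h1
    rw [← cj_Nm, mem_cj] at this
    rwa [show g⁻¹⁻¹ * (g⁻¹ * a * g) * g⁻¹ = a by group] at this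

theorem self_mem_LL (p : ℕ) (x : G) : x ∈ LL p x :=
  mem_LL.mpr fun _ _ _ _ hQ => hQ.1.2.1

theorem Gam.cnj {p : ℕ} {x : G} (h : Gam p x) (g : G) : Gam p (g * x * g⁻¹) := by
  obtain ⟨q, D, hq, hqp, hD, hne, h1, h2⟩ := h
  refine ⟨q, cj g D, hq, hqp, hD.cnj g, fun h => hne (cj_eq_bot.mp h), fun D' hD' => ?_,
    fun s D' hs hsp hsq hD' => ?_⟩
  · have := pg_cj (h1 _ hD'.cnj_inv) g
    rwa [cj_sup, cj_cj_inv] at this
  · have := cj_mono g (h2 s _ hs hsp hsq hD'.cnj_inv)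
    rwa [cj_cj_inv, cj_Ce] at this

theorem Del.cnj {p : ℕ} {x : G} (h : Del p x) (g : G) : Del p (g * x * g⁻¹) := by
  intro a ha
  rw [LL_cj, mem_cj]
  apply h
  have := pg_cj ha g⁻¹
  rw [cj_gen] at this
  rwa [show g⁻¹ * (g * x * g⁻¹) * g⁻¹⁻¹ = x by group,
    show g⁻¹ * (a * (g * x * g⁻¹) * a⁻¹) * g⁻¹⁻¹ = g⁻¹ * a * g * x * (g⁻¹ * a * g)⁻¹ by group]
    at this

theorem Ctx.cnj {p : ℕ} {x : G} (h : Ctx p x) (g : G) : Ctx p (g * x * g⁻¹) := by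
  have hc : IsConj x (g * x * g⁻¹) := isConj_iff.mpr ⟨g, rfl⟩
  refine ⟨h.hp, ?_, h.fit, ?_, fun y hy => ?_, fun H hH => ?_⟩
  · rw [← h.ord]
    exact (MulAut.conj g).orderOf_eq x
  · rw [eq_top_iff, ← h.ncl]
    apply normalClosure_le_normal
    intro z hz
    rw [Set.mem_singleton_iff.mp hz]
    have h1 : g * x * g⁻¹ ∈ normalClosure ({g * x * g⁻¹} : Set G) :=
      subset_normalClosure rfl
    have h2 := (normalClosure_normal (s := ({g * x * g⁻¹} : Set G))).conj_mem _ h1 g⁻¹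
    rwa [show g⁻¹ * (g * x * g⁻¹) * g⁻¹⁻¹ = x by group] at h2
  · apply h.two (g⁻¹ * y * g)
    rw [← cj_eq_top (g := g), cj_gen, show g * (g⁻¹ * y * g) * g⁻¹ = y by group]
    exact hy
  · obtain ⟨W, N, hF, hb⟩ := h.good H hH
    exact ⟨W, N, hF, fun b hbH hb' => hb b hbH (hc.trans hb')⟩

end Cfsg.Agent.F2C
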