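import Cfsg.Agent.F2C.Defs
import Cfsg.Agent.S0199
import Cfsg.Agent.H22.Core

set_option autoImplicit false
set_option linter.unusedSectionVars false
set_option linter.unusedVariables false

namespace Cfsg.Agent.F2C
open Subgroup

variable {G : Type*} [Group G] [Finite G]


theorem Oq_le (q : ℕ) (H : Subgroup G) : Oq q H ≤ H := map_subtype_le _

namespace OqX

theorem pg (q : ℕ) (H : Subgroup G) : IsPGroup q (Oq q H) := H22.isPGroup_pCore.map _

theorem conj_mem {H : Subgroup G} {g a : G} (hg : g ∈ Nm H) (ha : a ∈ H) : g * a * g⁻¹ ∈ H :=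
  (mem_normalizer_iff.1 hg a).1 ha

theorem mem_Nm {H K : Subgroup G} (h : ∀ g ∈ K, ∀ a ∈ H, g * a * g⁻¹ ∈ H) : K ≤ Nm H := fun g hg =>
  mem_normalizer_iff.2 fun a => ⟨h g hg a, fun ha => by
    simpa [mul_assoc] using h _ (inv_mem hg) _ ha⟩

theorem le_Nm (q : ℕ) (H : Subgroup G) : H ≤ Nm (Oq q H) := mem_Nm fun g hg a ha => by
  obtain ⟨b, hb, rfl⟩ := ha
  exact ⟨_, (inferInstance : (Cfsg.pCore q H).Normal).conj_mem b hb ⟨g, hg⟩, rfl⟩

theorem cj_le (q : ℕ) (g : G) (H : Subgroup G) : cj g (Oq q H) ≤ Oq q (cj g H) := by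
  refine H22.le_map_pCore (map_mono (Oq_le q H)) (mem_Nm fun k hk a ha => ?_) ((pg q H).map _)
  rw [mem_cj] at hk ha ⊢
  have := conj_mem (le_Nm q H hk) ha
  convert this using 1
  group

theorem cj_cj_inv (g : G) (H : Subgroup G) : cj g⁻¹ (cj g H) = H := by
  ext a
  rw [mem_cj, mem_cj]
  simp [mul_assoc]

end OqX

open OqX

theorem Oq_pgroup {q : ℕ} (hq : q.Prime) (H : Subgroup G) : IsPGroup q (Oq q H) := pg q H

theorem cj_Oq (q : ℕ) (g : G) (H : Subgroup G) : cj g (Oq q H) = Oq q (cj g H) := by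
  refine le_antisymm (cj_le q g H) fun a ha => ?_
  have := cj_le q g⁻¹ (cj g H)
  rw [cj_cj_inv] at this
  exact mem_cj.2 (this (mem_cj.2 (by simpa [mul_assoc] using ha)))

theorem Nm_le_Nm_Oq (q : ℕ) (H : Subgroup G) : Nm H ≤ Nm (Oq q H) := fun g hg =>
  mem_Nm_iff_cj.2 (by rw [cj_Oq, mem_Nm_iff_cj.1 hg])

theorem le_Nm_Oq (q : ℕ) (H : Subgroup G) : H ≤ Nm (Oq q H) := le_Nm q H

theorem le_Oq {q : ℕ} {U H : Subgroup G} (hU : IsPGroup q U) (hle : U ≤ H) (hn : H ≤ Nm U) :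
    U ≤ Oq q H := H22.le_map_pCore hle hn hU

theorem Oq_comm {q r : ℕ} (hq : q.Prime) (hr : r.Prime) (hqr : q ≠ r) (H : Subgroup G) :
    Oq q H ≤ Ce (Oq r H) := by
  have := Fact.mk hq
  have := Fact.mk hr
  intro a ha
  rw [mem_centralizer_iff]
  intro b hb
  have d := IsPGroup.disjoint_of_ne q r hqr _ _ (pg q H) (pg r H)
  have h1 : a * b * a⁻¹ * b⁻¹ ∈ Oq r H := mul_mem (conj_mem (le_Nm r H (Oq_le q H ha)) hb) (inv_mem hb)
  have h2 : a * b * a⁻¹ * b⁻¹ ∈ Oq q H := by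
    have := mul_mem ha (conj_mem (le_Nm q H (Oq_le r H hb)) (inv_mem ha))
    simpa only [mul_assoc] using this
  have e : a * b * a⁻¹ * b⁻¹ = 1 := disjoint_def.1 d h2 h1
  calc b * a = a * b * a⁻¹ * b⁻¹ * (b * a) := by rw [e, one_mul]
    _ = a * b := by group

theorem Oq_inf_le {q : ℕ} (hq : q.Prime) {K H : Subgroup G} (h : K ≤ H) : Oq q H ⊓ K ≤ Oq q K :=
  le_Oq (pg q H).to_inf_left inf_le_right (mem_Nm fun g hg a ha =>
    ⟨conj_mem (le_Nm q H (h hg)) ha.1, K.mul_mem (K.mul_mem hg ha.2) (K.inv_mem hg)⟩)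

theorem Oq_le_of_Nm {q : ℕ} (hq : q.Prime) {K H : Subgroup G} (h : K ≤ H) (hn : H ≤ Nm K) :
    Oq q K ≤ Oq q H := le_Oq (pg q K) ((Oq_le q K).trans h) (hn.trans (Nm_le_Nm_Oq q K))

theorem pg_sup {q : ℕ} (hq : q.Prime) {A B : Subgroup G} (hA : IsPGroup q A) (hB : IsPGroup q B)
    (h : A ≤ Nm B) : IsPGroup q ↥(A ⊔ B) := hA.to_sup_of_normal_right' hB h

namespace OqX

theorem syl_le {q : ℕ} [Fact q.Prime] {W : Subgroup G} (hW : Group.IsNilpotent W) (P : Sylow q W) :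
    (P : Subgroup W) ≤ Cfsg.pCore q W :=
  H22.le_pCore (Sylow.normal_of_normalizerCondition Group.normalizerCondition_of_isNilpotent P) P.isPGroup'

end OqX

theorem nil_le_Oq {q : ℕ} (hq : q.Prime) {W U : Subgroup G} (hW : Group.IsNilpotent W)
    (hU : IsPGroup q U) (h : U ≤ W) : U ≤ Oq q W := by
  have := Fact.mk hq
  obtain ⟨P, hP⟩ := (hU.comap_subtype (K := W)).exists_le_sylow
  exact fun a ha => ⟨⟨a, h ha⟩, syl_le hW P (hP ha), rfl⟩

theorem nil_le {W K : Subgroup G} (hW : Group.IsNilpotent W)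
    (h : ∀ s : ℕ, s.Prime → s ∣ Nat.card W → Oq s W ≤ K) : W ≤ K := by
  rw [← subgroupOf_eq_top, ← index_eq_one]
  by_contra hne
  obtain ⟨s, hs, hd⟩ := Nat.exists_prime_and_dvd hne
  have := Fact.mk hs
  obtain ⟨P⟩ : Nonempty (Sylow s W) := inferInstance
  have hP : (P : Subgroup W) ≤ K.subgroupOf W := fun a ha =>
    h s hs (hd.trans (index_dvd_card _)) ⟨a, syl_le hW P ha, rfl⟩
  exact P.not_dvd_index (hd.trans (index_dvd_of_le hP))

theorem Fr.q_le {p q : ℕ} (hp : p.Prime) (hq : q.Prime) (hqp : q ≠ p) {H W N U : Subgroup G}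
    (h : Fr p H W N) (hU : IsPGroup q U) (hle : U ≤ N) : U ≤ W ∧ U ≤ Oq q H := by
  have h1 : U ≤ W := fun g hg => by
    obtain ⟨k, hk⟩ := h.pw g (hle hg)
    obtain ⟨m, hm⟩ := hU ⟨g, hg⟩
    have e : g ^ q ^ m = 1 := congrArg Subtype.val hm
    have c : Nat.Coprime (p ^ k) (orderOf g) :=
      Nat.Coprime.coprime_dvd_right (orderOf_dvd_of_pow_eq_one e)
        (Nat.Coprime.pow _ _ ((Nat.coprime_primes hp hq).2 hqp.symm))
    obtain ⟨j, hj⟩ := exists_pow_eq_self_of_coprime c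
    exact hj ▸ pow_mem hk j
  exact ⟨h1, (nil_le_Oq hq h.nil hU h1).trans (Oq_le_of_Nm hq (h.wn.trans h.nh) h.nw)⟩

theorem bs {q : ℕ} (hq : q.Prime) {H : Subgroup G} {t : G} (ht : t ∈ H)
    (h : ∀ c ∈ H, IsPGroup q (gen t (c * t * c⁻¹))) : t ∈ Oq q H := by
  have := Fact.mk hq
  have k : ∀ c : H, IsPGroup q ↥(zpowers (⟨t, ht⟩ : H) ⊔
      (zpowers (⟨t, ht⟩ : H)).map (MulAut.conj c).toMonoidHom) := fun c => by
    refine ((h c c.2).comap_subtype (K := H)).to_le (sup_le ?_ ?_)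
    · rw [zpowers_le]
      exact subset_closure (by simp)
    · rw [MonoidHom.map_zpowers, zpowers_le]
      exact subset_closure (by simp)
  obtain ⟨N, hN, pN, hle⟩ := S0199.result (zpowers (⟨t, ht⟩ : H)) ((k 1).to_le le_sup_left) k
  exact ⟨⟨t, ht⟩, H22.le_pCore hN pN (hle (mem_zpowers _)), rfl⟩

end Cfsg.Agent.F2C
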