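import Cfsg.Agent.F2C.Defs
import Cfsg.Agent.F2C.Oq
import Cfsg.Agent.F2C.Cj
import Cfsg.Agent.S0026
import Cfsg.Agent.S0027
import Cfsg.Agent.S0055
import Cfsg.Agent.S0012

set_option autoImplicit false
set_option linter.unusedSectionVars false

namespace Cfsg.Agent.F2C
open Subgroup
open scoped commutatorElement

variable {G : Type*} [Group G] [Finite G]

theorem comm_le_left {U A : Subgroup G} (h : A ≤ Nm U) : ⁅U, A⁆ ≤ U :=
  commutator_le.2 fun u hu a ha => by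
    have := mul_mem hu ((mem_normalizer_iff.1 (h ha) _).1 (inv_mem hu))
    simpa only [commutatorElement_def, mul_assoc] using this

theorem le_Nm_comm (U A : Subgroup G) : U ≤ Nm ⁅U, A⁆ := normalizer_commutator_ge_left U A

theorem cop_of_pg {p q : ℕ} (hp : p.Prime) (hq : q.Prime) (hqp : q ≠ p) {U : Subgroup G}
    (hU : IsPGroup q U) : (Nat.card U).Coprime p := by
  have := Fact.mk hq
  obtain ⟨k, hk⟩ := IsPGroup.iff_card.1 hU
  rw [hk]
  exact Nat.Coprime.pow_left k ((Nat.coprime_primes hq hp).2 hqp)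

namespace Cop

theorem cop {p : ℕ} (hp : p.Prime) {A U : Subgroup G} (hA : IsPGroup p A)
    (hU : (Nat.card U).Coprime p) : (Nat.card A).Coprime (Nat.card U) := by
  have := Fact.mk hp
  obtain ⟨k, hk⟩ := IsPGroup.iff_card.1 hA
  rw [hk]
  exact Nat.Coprime.pow_left k hU.symm

theorem sol {p : ℕ} (hp : p.Prime) {A : Subgroup G} (hA : IsPGroup p A) : Group.IsSolvable A := by
  have := Fact.mk hp
  have := hA.isNilpotent
  infer_instance

theorem pgz {p : ℕ} {b : G} (hb : orderOf b = p) : IsPGroup p (zpowers b) :=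
  IsPGroup.of_card (n := 1) (by rw [Nat.card_zpowers, hb, pow_one])

theorem cez (b : G) : Ce (zpowers b) = Cx b := by
  rw [zpowers_eq_closure, Ce, centralizer_closure]

end Cop

theorem decomp {p : ℕ} (hp : p.Prime) {A U : Subgroup G} (hA : IsPGroup p A)
    (hU : (Nat.card U).Coprime p) (h : A ≤ Nm U) {u : G} (hu : u ∈ U) :
    ∃ d ∈ ⁅U, A⁆, ∃ c ∈ U ⊓ Ce A, u = d * c := by
  have e := S0026.result A U h (Cop.cop hp hA hU) (Or.inl (Cop.sol hp hA))
  rw [← e, ← SetLike.mem_coe,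
    coe_mul_of_right_le_normalizer_left _ _ (inf_le_left.trans (le_Nm_comm U A))] at hu
  obtain ⟨d, hd, c, hc, e⟩ := hu
  exact ⟨d, hd, c, hc, e.symm⟩

theorem comm_comm {p : ℕ} (hp : p.Prime) {A U : Subgroup G} (hA : IsPGroup p A)
    (hU : (Nat.card U).Coprime p) (h : A ≤ Nm U) : ⁅⁅U, A⁆, A⁆ = ⁅U, A⁆ :=
  S0027.result A U h (Cop.cop hp hA hU) (Or.inl (Cop.sol hp hA))

theorem qq_comm {p q : ℕ} (hp : p.Prime) (hq : q.Prime) (hqp : q ≠ p) {b : G} (hb : orderOf b = p)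
    {U : Subgroup G} (hU : IsPGroup q U) (h : b ∈ Nm U) : QQ q b ⁅U, zpowers b⁆ :=
  ⟨hU.to_le (comm_le_left (zpowers_le.2 h)), normalizer_commutator_ge_right U _ (mem_zpowers b),
    comm_comm hp (Cop.pgz hb) (cop_of_pg hp hq hqp hU) (zpowers_le.2 h)⟩

theorem le_of_decomp {p : ℕ} (hp : p.Prime) {b : G} (hb : orderOf b = p) {U K : Subgroup G}
    (hU : (Nat.card U).Coprime p) (h : b ∈ Nm U) (h1 : ⁅U, zpowers b⁆ ≤ K) (h2 : U ⊓ Cx b ≤ K) :
    U ≤ K := fun u hu => by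
  obtain ⟨d, hd, c, hc, rfl⟩ := decomp hp (Cop.pgz hb) hU (zpowers_le.2 h) hu
  rw [Cop.cez] at hc
  exact mul_mem (h1 hd) (h2 hc)

theorem nil_decomp {p : ℕ} (hp : p.Prime) {b : G} (hb : orderOf b = p) {W K : Subgroup G}
    (hW : Group.IsNilpotent W) (hc : (Nat.card W).Coprime p) (h : b ∈ Nm W)
    (h1 : ∀ s : ℕ, s.Prime → s ≠ p → ⁅Oq s W, zpowers b⁆ ≤ K) (h2 : W ⊓ Cx b ≤ K) : W ≤ K :=
  nil_le hW fun s hs hd => by
    have hsp : s ≠ p := by
      rintro rfl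
      exact hs.one_lt.ne' (Nat.eq_one_of_dvd_coprimes hc hd dvd_rfl)
    exact le_of_decomp hp hb (cop_of_pg hp hs hsp (Oq_pgroup hs W)) (Nm_le_Nm_Oq s W h) (h1 s hs hsp)
      ((inf_le_inf_right _ (Oq_le s W)).trans h2)

theorem comm_eq_bot_iff {U : Subgroup G} {b : G} : ⁅U, zpowers b⁆ = ⊥ ↔ U ≤ Cx b := by
  rw [commutator_eq_bot_iff_le_centralizer, ← Cop.cez]

theorem Phi_le (Q : Subgroup G) : Phi Q ≤ Q := map_subtype_le _

theorem Nm_le_Nm_Phi (Q : Subgroup G) : Nm Q ≤ Nm (Phi Q) := fun g hg => by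
  have k : ∀ g ∈ Nm Q, ∀ a ∈ Phi Q, g * a * g⁻¹ ∈ Phi Q := by
    rintro g hg _ ⟨a, ha, rfl⟩
    have := (characteristic_iff_le_comap.1 (inferInstance : (frattini Q).Characteristic))
      (Q.normalizerMonoidHom ⟨g, hg⟩) ha
    exact ⟨_, this, rfl⟩
  refine mem_normalizer_iff.2 fun a => ⟨k g hg a, fun h => ?_⟩
  simpa [mul_assoc] using k g⁻¹ (inv_mem hg) _ h

theorem eq_of_sup_Phi {U Q : Subgroup G} (h : U ≤ Q) (h2 : Q ≤ U ⊔ Phi Q) : U = Q := by
  have e : U.subgroupOf Q ⊔ frattini Q = ⊤ := by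
    apply map_injective Q.subtype_injective
    rw [Subgroup.map_sup, subgroupOf_map_subtype, inf_eq_left.2 h, ← MonoidHom.range_eq_map, range_subtype]
    exact le_antisymm (sup_le h (Phi_le Q)) h2
  exact le_antisymm h (subgroupOf_eq_top.1 (frattini_nongenerating e))

theorem QQ.fix_le_Phi {p q : ℕ} (hp : p.Prime) (hq : q.Prime) (hqp : q ≠ p) {b : G}
    (hb : orderOf b = p) {Q : Subgroup G} (h : QQ q b Q) : Q ⊓ Cx b ≤ Phi Q := by
  obtain ⟨hQ, hn, hc⟩ := h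
  have := Fact.mk hq
  have hcomm := Subgroup.Normal.quotient_commutative_iff_commutator_le.2 (S0012.result q hQ).1
  let _ : CommGroup (Q ⧸ frattini Q) := { (inferInstance : Group _) with mul_comm := mul_comm' }
  obtain ⟨β, hβ⟩ : ∃ β : MulAut Q, ∀ (i : ℕ) (u : Q), ((β ^ i) u : G) = b ^ i * u * (b ^ i)⁻¹ :=
    ⟨Q.normalizerMonoidHom ⟨b, hn⟩, fun i u => by rw [← map_pow]; rfl⟩
  have hp1 : β ^ p = 1 := MulEquiv.ext fun u => Subtype.ext (by
    rw [hβ, ← hb, pow_orderOf_eq_one]; simp)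
  let π := QuotientGroup.mk' (frattini Q)
  let f : Q →* Q ⧸ frattini Q := ∏ i ∈ Finset.range p, π.comp (β ^ i).toMonoidHom
  have hf : ∀ u, f u = ∏ i ∈ Finset.range p, π ((β ^ i) u) := fun u => by
    simp only [f, MonoidHom.finsetProd_apply]; rfl
  have f1 : ∀ u, f (β u) = f u := fun u => by
    have e1 := Finset.prod_range_succ (fun i => π ((β ^ i) u)) p
    have e2 := Finset.prod_range_succ' (fun i => π ((β ^ i) u)) p
    rw [e1, hp1, pow_zero] at e2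
    rw [hf, hf, mul_right_cancel e2]
    rfl
  have f2 : ∀ (i : ℕ) u, f ((β ^ i) u) = f u := fun i => by
    induction i with
    | zero => intro u; rfl
    | succ i ih => intro u; rw [pow_succ', MulAut.mul_apply, f1, ih]
  have le : Q ≤ f.ker.map Q.subtype := by
    refine hc.ge.trans (commutator_le.2 fun u hu a ha => ?_)
    obtain ⟨i, rfl⟩ := (mem_powers_iff_mem_zpowers (x := b)).2 ha
    refine ⟨⟨u, hu⟩ * (β ^ i) ⟨u, hu⟩⁻¹, ?_, ?_⟩
    · change f _ = 1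
      rw [map_mul, f2, ← map_mul, mul_inv_cancel, map_one]
    · simp only [coe_subtype, coe_mul, hβ, commutatorElement_def, InvMemClass.coe_inv, mul_assoc]
  rintro u ⟨hu, hub⟩
  obtain ⟨v, hv, rfl⟩ := le hu
  refine ⟨v, ?_, rfl⟩
  have e1 : ∀ i : ℕ, (β ^ i) v = v := fun i => Subtype.ext (by
    have : Commute b (v : G) := (mem_Cx.1 hub).symm
    rw [hβ, (this.pow_left i).eq, mul_inv_cancel_right])
  have e2 : π v ^ p = 1 := by
    have : f v = 1 := hv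
    simpa only [hf, e1, Finset.prod_const, Finset.card_range] using this
  have e3 : π v ^ q = 1 := by
    rw [← map_pow]
    exact (QuotientGroup.eq_one_iff _).2 ((S0012.result q hQ).2 v)
  have e4 : π v = 1 := by
    rw [← orderOf_eq_one_iff]
    exact Nat.eq_one_of_dvd_coprimes ((Nat.coprime_primes hq hp).2 hqp) (orderOf_dvd_of_pow_eq_one e3)
      (orderOf_dvd_of_pow_eq_one e2)
  exact (QuotientGroup.eq_one_iff _).1 e4

theorem QQ.bot (q : ℕ) (b : G) : QQ q b (⊥ : Subgroup G) :=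
  ⟨IsPGroup.of_bot, mem_normalizer_iff.2 (by simp), commutator_bot_left _⟩

theorem QQ.le_comm {q : ℕ} {b : G} {D U : Subgroup G} (hD : QQ q b D) (h : D ≤ U) :
    D ≤ ⁅U, zpowers b⁆ := hD.2.2.ge.trans (commutator_mono h le_rfl)

theorem QQ.sup {q : ℕ} {b : G} {A B : Subgroup G} (hA : QQ q b A) (hB : QQ q b B)
    (h : IsPGroup q ↥(A ⊔ B)) : QQ q b (A ⊔ B) := by
  have n : b ∈ Nm (A ⊔ B) := Nm_inf_Nm_le_sup A B ⟨hA.2.1, hB.2.1⟩
  exact ⟨h, n, le_antisymm (comm_le_left (zpowers_le.2 n))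
    (sup_le (hA.le_comm le_sup_left) (hB.le_comm le_sup_right))⟩

theorem QQ.exists_MQ {q : ℕ} {b : G} {D : Subgroup G} (h : QQ q b D) : ∃ Q, MQ q b Q ∧ D ≤ Q := by
  obtain ⟨Q, hQ, hm⟩ := Finite.exists_le_maximal (p := QQ q b) h
  exact ⟨Q, ⟨hm.1, fun E hE le => le_antisymm (hm.2 hE le) le⟩, hQ⟩

theorem MQ.le_of_join {q : ℕ} {b : G} {Q D : Subgroup G} (hQ : MQ q b Q) (hD : QQ q b D)
    (h : IsPGroup q ↥(Q ⊔ D)) : D ≤ Q :=
  le_sup_right.trans (hQ.2 _ (hQ.1.sup hD h) le_sup_left).le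

end Cfsg.Agent.F2C
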