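import Cfsg.Agent.F2C.Defs
import Cfsg.Agent.F2C.Cj

set_option autoImplicit false
set_option linter.unusedSectionVars false

namespace Cfsg.Agent.F2C
open Subgroup

variable {G : Type*} [Group G] [Finite G]

namespace CovH

theorem dec {K : Type*} [Group K] [Finite K] {p : ℕ} [Fact p.Prime] {W : Subgroup K} [W.Normal]
    (hpw : ∀ g : K, ∃ k : ℕ, g ^ p ^ k ∈ W) (P : Sylow p K) (h : K) : ∃ a ∈ W, ∃ s ∈ P, h = a * s := by
  have hq : IsPGroup p (K ⧸ W) := by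
    intro g
    obtain ⟨g, rfl⟩ := QuotientGroup.mk_surjective g
    obtain ⟨k, hk⟩ := hpw g
    exact ⟨k, by rw [← QuotientGroup.mk_pow, QuotientGroup.eq_one_iff]; exact hk⟩
  have ht : (⊤ : Subgroup (K ⧸ W)) = (P : Subgroup K).map (QuotientGroup.mk' W) :=
    (P.mapSurjective (QuotientGroup.mk'_surjective W)).3 (hq.to_subgroup ⊤) le_top
  have hm : (QuotientGroup.mk' W h) ∈ (P : Subgroup K).map (QuotientGroup.mk' W) := ht ▸ mem_top _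
  obtain ⟨s, hs, he⟩ := hm
  refine ⟨h * s⁻¹, ?_, s, hs, by group⟩
  rw [← QuotientGroup.eq_one_iff, QuotientGroup.mk_mul, QuotientGroup.mk_inv, mul_inv_eq_one]
  exact he.symm

theorem core {K : Type*} [Group K] [Finite K] {p : ℕ} (hp : p.Prime) {W : Subgroup K} [W.Normal]
    (hpw : ∀ g : K, ∃ k : ℕ, g ^ p ^ k ∈ W) {S S' : Subgroup K} (pS : IsPGroup p S) (pS' : IsPGroup p S') :
    ∃ a ∈ W, ∃ P : Subgroup K, IsPGroup p P ∧ S ≤ P ∧ ∀ s ∈ S', a * s * a⁻¹ ∈ P := by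
  have := Fact.mk hp
  obtain ⟨P, hP⟩ := pS.exists_le_sylow
  obtain ⟨P', hP'⟩ := pS'.exists_le_sylow
  obtain ⟨h, hh⟩ := MulAction.exists_smul_eq K P' P
  obtain ⟨a, ha, t, ht, rfl⟩ := dec hpw P' h
  refine ⟨a, ha, P, P.2, hP, fun s hs => ?_⟩
  have h1 : t⁻¹ * s * t ∈ (P' : Subgroup K) := mul_mem (mul_mem (inv_mem ht) (hP' hs)) ht
  have h2 := Subgroup.smul_mem_pointwise_smul _ (MulAut.conj (a * t)) _ h1
  rw [← Sylow.coe_subgroup_smul, hh] at h2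
  simpa [mul_assoc] using h2

theorem amb {p : ℕ} (hp : p.Prime) {W H : Subgroup G} (hn : H ≤ Nm W)
    (hpw : ∀ g ∈ H, ∃ k : ℕ, g ^ p ^ k ∈ W) {S S' : Subgroup G} (hS : S ≤ H) (hS' : S' ≤ H)
    (pS : IsPGroup p S) (pS' : IsPGroup p S') :
    ∃ a ∈ W, a ∈ H ∧ ∃ P : Subgroup G, IsPGroup p P ∧ P ≤ H ∧ S ≤ P ∧ ∀ s ∈ S', a * s * a⁻¹ ∈ P := by
  have : (W.subgroupOf H).Normal :=
    ⟨fun n hn' g => by
      rw [mem_subgroupOf] at hn' ⊢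
      exact (mem_normalizer_iff.mp (hn g.2) n).1 hn'⟩
  obtain ⟨a, ha, P, hP, h1, h2⟩ := core hp (W := W.subgroupOf H) (fun g => hpw g g.2)
    (pS.comap_subtype (K := H)) (pS'.comap_subtype (K := H))
  refine ⟨a, ha, a.2, P.map H.subtype, hP.map _, map_subtype_le _, fun s hs => ⟨⟨s, hS hs⟩, h1 hs, rfl⟩,
    fun s hs => ⟨_, h2 ⟨s, hS' hs⟩ hs, rfl⟩⟩

omit [Finite G] in
theorem pg_zpowers {p : ℕ} {b : G} (pb : PE p b) : IsPGroup p (zpowers b) := by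
  obtain ⟨k, hk⟩ := pb
  rintro ⟨g, n, rfl⟩
  refine ⟨k, Subtype.ext ?_⟩
  change (b ^ n) ^ p ^ k = 1
  rw [← zpow_natCast, ← zpow_mul, mul_comm, zpow_mul, zpow_natCast, hk, one_zpow]

omit [Finite G] in
theorem pe_of_mem {p : ℕ} {T : Subgroup G} (hT : IsPGroup p T) {b : G} (hb : b ∈ T) : PE p b := by
  obtain ⟨k, hk⟩ := hT ⟨b, hb⟩
  exact ⟨k, congrArg Subtype.val hk⟩

omit [Finite G] in
theorem pe_conj {p : ℕ} {b : G} (pb : PE p b) (u : G) : PE p (u * b * u⁻¹) := by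
  obtain ⟨k, hk⟩ := pb
  exact ⟨k, by rw [conj_pow, hk, mul_one, mul_inv_cancel]⟩

omit [Finite G] in
theorem disj {p : ℕ} {W P : Subgroup G} (hc : (Nat.card W).Coprime p) (hP : IsPGroup p P) {g : G}
    (h1 : g ∈ P) (h2 : g ∈ W) : g = 1 := by
  obtain ⟨k, hk⟩ := pe_of_mem hP h1
  have h3 : orderOf g ∣ p ^ k := orderOf_dvd_of_pow_eq_one hk
  have h4 : orderOf g ∣ Nat.card W := orderOf_dvd_natCard W h2
  exact orderOf_eq_one_iff.1 (Nat.eq_one_of_dvd_coprimes (hc.pow_right k) h4 h3)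

omit [Finite G] in
theorem cen {p : ℕ} {W P : Subgroup G} (hc : (Nat.card W).Coprime p) (hP : IsPGroup p P) {b c : G}
    (hcW : c ∈ W) (hb : b ∈ Nm W) (h1 : b ∈ P) (h2 : c * b * c⁻¹ ∈ P) : c * b * c⁻¹ = b := by
  have h3 : c * b * c⁻¹ * b⁻¹ ∈ W := by
    have := mul_mem hcW ((mem_normalizer_iff.mp hb c⁻¹).1 (inv_mem hcW))
    simpa only [mul_assoc] using this
  exact mul_inv_eq_one.1 (disj hc hP (mul_mem h2 (inv_mem h1)) h3)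

omit [Finite G] in
theorem pow_mem {W : Subgroup G} {w t : G} (hw : w ∈ W) (ht : t ∈ Nm W) (n : ℕ) :
    (w * t) ^ n * (t ^ n)⁻¹ ∈ W := by
  induction n with
  | zero => simp
  | succ n ih =>
    have := mul_mem hw ((mem_normalizer_iff.mp ht _).1 ih)
    have e : (w * t) ^ (n + 1) * (t ^ (n + 1))⁻¹ = w * (t * ((w * t) ^ n * (t ^ n)⁻¹) * t⁻¹) := by
      rw [pow_succ' (w * t), pow_succ' t]; group
    rw [e]; exact this

omit [Finite G] in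
theorem pw_sup {p : ℕ} {T Q : Subgroup G} (hT : IsPGroup p T) (hn : T ≤ Nm Q) {g : G} (hg : g ∈ Q ⊔ T) :
    ∃ k : ℕ, g ^ p ^ k ∈ Q := by
  have h : g ∈ ((Q ⊔ T : Subgroup G) : Set G) := hg
  rw [coe_mul_of_right_le_normalizer_left Q T hn] at h
  obtain ⟨w, hw, t, ht, rfl⟩ := h
  obtain ⟨k, hk⟩ := pe_of_mem hT ht
  have := pow_mem hw (hn ht) (p ^ k)
  rw [hk, inv_one, mul_one] at this
  exact ⟨k, this⟩

omit [Finite G] in
theorem gen_le {x y : G} {H : Subgroup G} (hx : x ∈ H) (hy : y ∈ H) : gen x y ≤ H := by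
  rw [closure_le]
  rintro z (rfl | rfl)
  · exact hx
  · exact hy

omit [Finite G] in
theorem gl (x y : G) : x ∈ gen x y := subset_closure (Or.inl rfl)

omit [Finite G] in
theorem gr (x y : G) : y ∈ gen x y := subset_closure (Or.inr rfl)

/-- the two-step reduction: conjugation inside `K ⊓ Q` into a common `p`-group -/
theorem loc {p : ℕ} (hp : p.Prime) {T Q : Subgroup G} (hT : IsPGroup p T) (hn : T ≤ Nm Q) {x b u : G}
    (hx : x ∈ T) (hb : b ∈ T) (hu : u ∈ Q) :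
    ∃ a ∈ gen x (u * b * u⁻¹) ⊓ Q, ∃ P : Subgroup G, IsPGroup p P ∧ P ≤ Q ⊔ T ∧ x ∈ P ∧
      a * (u * b * u⁻¹) * a⁻¹ ∈ P := by
  have hK : gen x (u * b * u⁻¹) ≤ Q ⊔ T :=
    gen_le (mem_sup_right hx) (mul_mem (mul_mem (mem_sup_left hu) (mem_sup_right hb)) (inv_mem (mem_sup_left hu)))
  have hN : Q ⊔ T ≤ Nm Q := sup_le le_normalizer hn
  obtain ⟨a, ha, -, P, hP, h1, h2, h3⟩ := amb hp (W := gen x (u * b * u⁻¹) ⊓ Q) (H := gen x (u * b * u⁻¹))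
    (le_trans (le_inf le_normalizer (hK.trans hN)) inf_normalizer_le_normalizer_inf)
    (fun g hg => by
      obtain ⟨k, hk⟩ := pw_sup hT hn (hK hg)
      exact ⟨k, Subgroup.pow_mem _ hg _, hk⟩)
    (zpowers_le.2 (gl _ _)) (zpowers_le.2 (gr _ _)) (pg_zpowers (pe_of_mem hT hx))
    (pg_zpowers (pe_conj (pe_of_mem hT hb) u))
  exact ⟨a, ha, P, hP, h1.trans hK, h2 (mem_zpowers x), h3 _ (mem_zpowers _)⟩

end CovH

theorem cjP {p : ℕ} (hp : p.Prime) {W H : Subgroup G} (hc : (Nat.card W).Coprime p) (hle : W ≤ H)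
    (hn : H ≤ Nm W) (hpw : ∀ g ∈ H, ∃ k : ℕ, g ^ p ^ k ∈ W) {b b' : G} (hb : b ∈ H) (hb' : b' ∈ H)
    (pb : PE p b) (pb' : PE p b') : ∃ a ∈ W, IsPGroup p (gen b (a * b' * a⁻¹)) := by
  have _ := hc
  have _ := hle
  obtain ⟨a, ha, -, P, hP, -, h2, h3⟩ := CovH.amb hp hn hpw (zpowers_le.2 hb) (zpowers_le.2 hb')
    (CovH.pg_zpowers pb) (CovH.pg_zpowers pb')
  exact ⟨a, ha, hP.to_le (CovH.gen_le (h2 (mem_zpowers b)) (h3 _ (mem_zpowers b')))⟩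

theorem prep {p : ℕ} (hp : p.Prime) {W : Subgroup G} (hc : (Nat.card W).Coprime p) {b a : G}
    (hb : orderOf b = p) (hn : b ∈ Nm W) (ha : a ∈ W) :
    ∃ a' ∈ W, a' ∈ gen b (a * b * a⁻¹) ∧ a' * b * a'⁻¹ = a * b * a⁻¹ := by
  have pb : PE p b := ⟨1, by rw [pow_one, ← hb, pow_orderOf_eq_one]⟩
  obtain ⟨c, hc', P, hP, -, h1, h2⟩ := CovH.loc hp (CovH.pg_zpowers pb) (zpowers_le.2 hn)
    (mem_zpowers b) (mem_zpowers b) ha
  have e : c * (a * b * a⁻¹) * c⁻¹ = (c * a) * b * (c * a)⁻¹ := by group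
  rw [e] at h2
  have h3 := CovH.cen hc hP (mul_mem hc'.2 ha) hn h1 h2
  refine ⟨c⁻¹, inv_mem hc'.2, inv_mem hc'.1, ?_⟩
  conv_lhs => rw [← h3]
  group

theorem ctrick {b c d : G} (hc : c ∈ Cx b) (hd : d ∈ gen b (d * b * d⁻¹)) :
    d * b * d⁻¹ ∈ gen b (d * c) ∧ d ∈ gen b (d * c) ∧ c ∈ gen b (d * c) := by
  have h0 : c * b = b * c := mem_Cx.1 hc
  have h1 : d * b * d⁻¹ ∈ gen b (d * c) := by
    have e : d * b * d⁻¹ = (d * c) * b * (d * c)⁻¹ := by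
      rw [mul_assoc d c b, h0]; group
    rw [e]
    exact mul_mem (mul_mem (CovH.gr _ _) (CovH.gl _ _)) (inv_mem (CovH.gr _ _))
  have h2 : d ∈ gen b (d * c) := CovH.gen_le (CovH.gl _ _) h1 hd
  refine ⟨h1, h2, ?_⟩
  have := mul_mem (inv_mem h2) (CovH.gr b (d * c))
  rwa [inv_mul_cancel_left] at this

theorem cov {p : ℕ} (hp : p.Prime) {T Q : Subgroup G} (hT : IsPGroup p T)
    (hc : (Nat.card Q).Coprime p) (hn : T ≤ Nm Q) {x b u : G} (hx : x ∈ T) (hb : b ∈ T) (hu : u ∈ Q) :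
    ∃ k ∈ gen x (u * b * u⁻¹) ⊓ Q, ∃ v ∈ Q ⊓ Cx x, ∃ w ∈ Q ⊓ Cx b, u = k * v * w := by
  obtain ⟨a, ha, P, hP, h0, h1, h2⟩ := CovH.loc hp hT hn hx hb hu
  obtain ⟨v, hv, -, P2, hP2, -, h3, h4⟩ := CovH.amb hp (W := Q) (H := Q ⊔ T) (sup_le le_normalizer hn)
    (fun g hg => CovH.pw_sup hT hn hg) le_sup_right h0 hT hP
  have h5 := CovH.cen hc hP2 hv (hn hx) (h3 hx) (h4 x h1)
  have hw : v * a * u ∈ Q := mul_mem (mul_mem hv ha.2) hu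
  have h6 := h4 _ h2
  have e : v * (a * (u * b * u⁻¹) * a⁻¹) * v⁻¹ = (v * a * u) * b * (v * a * u)⁻¹ := by group
  rw [e] at h6
  have h7 := CovH.cen hc hP2 hw (hn hb) (h3 hb) h6
  refine ⟨a⁻¹, inv_mem ha, v⁻¹, inv_mem ⟨hv, mem_Cx.2 (mul_inv_eq_iff_eq_mul.1 h5)⟩, v * a * u,
    ⟨hw, mem_Cx.2 (mul_inv_eq_iff_eq_mul.1 h7)⟩, by group⟩

theorem cov' {p : ℕ} (hp : p.Prime) {T Q : Subgroup G} (hT : IsPGroup p T)
    (hc : (Nat.card Q).Coprime p) (hn : T ≤ Nm Q) {x b u : G} (hx : x ∈ T) (hb : b ∈ T) (hu : u ∈ Q)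
    (h : IsPGroup p (gen x (u * b * u⁻¹))) :
    ∃ v ∈ Q ⊓ Cx x, ∃ w ∈ Q ⊓ Cx b, u = v * w := by
  obtain ⟨k, hk, v, hv, w, hw, e⟩ := cov hp hT hc hn hx hb hu
  rw [CovH.disj hc h hk.1 hk.2, one_mul] at e
  exact ⟨v, hv, w, hw, e⟩

end Cfsg.Agent.F2C
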