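import Cfsg.Agent.F2C.Defs
import Cfsg.Agent.F2C.Cop
import Cfsg.Agent.F2C.Cov

set_option autoImplicit false

namespace Cfsg.Agent.F2C
open Subgroup

variable {G : Type*} [Group G] [Finite G]

theorem bary_fix {q : ℕ} (hq : q.Prime) {z : G} (hz : z ^ q = 1) {S : Set G} (hS : ¬ q ∣ S.ncard)
    (h : ∀ s ∈ S, z * s * z⁻¹ ∈ S) : ∃ s ∈ S, z * s * z⁻¹ = s := by
  classical
  haveI := Fact.mk hq
  haveI := Fintype.ofFinite S
  let f : S → S := fun s => ⟨z * s * z⁻¹, h s s.2⟩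
  have hf : Function.Injective f := fun a b e => Subtype.ext (by simpa [f] using congrArg Subtype.val e)
  let σ : Equiv.Perm S := Equiv.ofBijective f (Finite.injective_iff_bijective.1 hf)
  have k : ∀ (n : ℕ) (s : S), ((σ ^ n) s : G) = z ^ n * s * (z ^ n)⁻¹ := by
    intro n
    induction n with
    | zero => simp
    | succ n ih =>
      intro s
      rw [pow_succ', Equiv.Perm.mul_apply]
      show z * ((σ ^ n) s : G) * z⁻¹ = _
      rw [ih, pow_succ']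
      group
  obtain ⟨s, hs⟩ := Equiv.Perm.exists_fixed_point_of_prime (p := q) (n := 1) (σ := σ)
    (by rwa [← Nat.card_eq_fintype_card, Nat.card_coe_set_eq])
    (by ext s; rw [pow_one, k, hz]; simp)
  exact ⟨s, s.2, congrArg Subtype.val hs⟩

theorem bary_dc {r : ℕ} (hr : r.Prime) {U C : Subgroup G} (hU : IsPGroup r U) (hC : IsPGroup r C) (k : G) :
    ∃ n, {e | ∃ u ∈ U, ∃ c ∈ C, e = u * k * c⁻¹}.ncard = r ^ n := by
  haveI := Fact.mk hr
  letI : MulAction (U × C) G :=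
    { smul := fun g e => (g.1 : G) * e * (g.2 : G)⁻¹
      one_smul := fun e => by
        show ((1 : U × C).1 : G) * e * ((1 : U × C).2 : G)⁻¹ = e
        simp
      mul_smul := fun a b e => by
        show ((a * b).1 : G) * e * ((a * b).2 : G)⁻¹ = a.1 * (b.1 * e * (b.2 : G)⁻¹) * (a.2 : G)⁻¹
        simp [mul_assoc] }
  have hp : IsPGroup r (U × C) := fun g => by
    obtain ⟨a, ha⟩ := hU g.1
    obtain ⟨b, hb⟩ := hC g.2
    refine ⟨a + b, Prod.ext ?_ ?_⟩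
    · rw [Prod.pow_fst, pow_add, pow_mul, ha, one_pow]; rfl
    · rw [Prod.pow_snd, pow_add, mul_comm, pow_mul, hb, one_pow]; rfl
  obtain ⟨n, hn⟩ := hp.index (MulAction.stabilizer (U × C) k)
  refine ⟨n, ?_⟩
  rw [← hn, MulAction.index_stabilizer]
  congr 1
  ext e
  exact ⟨fun ⟨u, hu, c, hc, h⟩ => ⟨(⟨u, hu⟩, ⟨c, hc⟩), h.symm⟩, fun ⟨g, h⟩ => ⟨g.1, g.1.2, g.2, g.2.2, h.symm⟩⟩

theorem bary_gen_le {a b : G} {H : Subgroup G} (ha : a ∈ H) (hb : b ∈ H) : gen a b ≤ H :=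
  (closure_le _).2 (Set.insert_subset ha (Set.singleton_subset_iff.2 hb))

theorem bary {p q r : ℕ} (hp : p.Prime) (hq : q.Prime) (hr : r.Prime) (hrp : r ≠ p) (hrq : r ≠ q)
    {x z : G} (hx : orderOf x = p) (hz : orderOf z = q) (hxz : z ∈ Cx x) {K : Subgroup G}
    (hK : QQ r x K) (hzK : z ∈ Nm K) (hnc : z ∉ Ce K) :
    ∃ k ∈ K, ∃ T : Subgroup G, QQ r x T ∧ T ≤ K ∧ z ∉ Ce T ∧
      ∀ H : Subgroup G, k * x * k⁻¹ ∈ H → z ∈ H → x ∈ H ∧ T ≤ H := by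
  obtain ⟨pK, xK, cK⟩ := hK
  have zx : z * x = x * z := mem_Cx.1 hxz
  have xz : x ∈ Cx z := mem_Cx.2 zx.symm
  have cop := cop_of_pg hp hr hrp pK
  obtain ⟨k0, hk0, n0⟩ : ∃ k0 ∈ K, k0 * x * k0⁻¹ ∉ Cx z := by
    by_contra! h
    have le : K ≤ Cx z := by
      rw [← cK, commutator_le]
      rintro k hk _ ⟨i, rfl⟩
      rw [commutatorElement_def]
      refine mul_mem ?_ (inv_mem (zpow_mem xz i))
      show k * x ^ i * k⁻¹ ∈ _
      rw [← conj_zpow]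
      exact zpow_mem (h k hk) i
    exact hnc (mem_centralizer_iff.2 fun k hk => mem_Cx.1 (le hk))
  set y := k0 * x * k0⁻¹ with hy
  have yH : y ∈ gen y z := subset_closure (by simp)
  have zH : z ∈ gen y z := subset_closure (by simp)
  have oy : orderOf y = p := by
    rw [← hx]; exact (MulAut.conj k0).orderOf_eq x
  have yK : y ∈ Nm K := mul_mem (mul_mem (le_normalizer hk0) xK) (inv_mem (le_normalizer hk0))
  have eS : {e | ∃ u ∈ gen y z ⊓ K, ∃ c ∈ K ⊓ Cx x, e = u * k0 * c⁻¹} = {e | e ∈ K ∧ e * x * e⁻¹ ∈ gen y z} := by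
    ext e
    constructor
    · rintro ⟨u, hu, c, hc, rfl⟩
      refine ⟨mul_mem (mul_mem (mem_inf.1 hu).2 hk0) (inv_mem (mem_inf.1 hc).1), ?_⟩
      have : u * k0 * c⁻¹ * x * (u * k0 * c⁻¹)⁻¹ = u * y * u⁻¹ := by
        have := mem_Cx.1 (inv_mem (mem_inf.1 hc).2)
        calc _ = u * k0 * (c⁻¹ * x) * c * k0⁻¹ * u⁻¹ := by group
          _ = _ := by rw [this, hy]; group
      rw [this]
      have hu1 := (mem_inf.1 hu).1
      exact mul_mem (mul_mem hu1 yH) (inv_mem hu1)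
    · rintro ⟨he, m⟩
      obtain ⟨a, ha, g, e1⟩ := prep hp cop oy yK (mul_mem he (inv_mem hk0))
      have e2 : e * k0⁻¹ * y * (e * k0⁻¹)⁻¹ = e * x * e⁻¹ := by rw [hy]; group
      rw [e2] at g e1
      refine ⟨a, ⟨bary_gen_le yH m g, ha⟩, e⁻¹ * a * k0,
        mem_inf.2 ⟨mul_mem (mul_mem (inv_mem he) ha) hk0, mem_Cx.2 ?_⟩, by group⟩
      calc e⁻¹ * a * k0 * x = e⁻¹ * (a * y * a⁻¹) * a * k0 := by rw [hy]; group
        _ = _ := by rw [e1]; group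
  obtain ⟨n, hn⟩ := bary_dc hr (U := gen y z ⊓ K) (C := K ⊓ Cx x) (pK.to_le inf_le_right) (pK.to_le inf_le_left) k0
  rw [eS] at hn
  obtain ⟨e, ⟨he, m⟩, ez⟩ := bary_fix hq (z := z) (hz ▸ pow_orderOf_eq_one z)
    (S := {e | e ∈ K ∧ e * x * e⁻¹ ∈ gen y z})
    (by rw [hn]; exact fun d => hrq ((Nat.prime_dvd_prime_iff_eq hq hr).1 (hq.dvd_of_dvd_pow d)).symm)
    fun s hs => ⟨(mem_normalizer_iff.1 hzK s).1 hs.1, by
      have : z * s * z⁻¹ * x * (z * s * z⁻¹)⁻¹ = z * (s * x * s⁻¹) * z⁻¹ := by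
        calc _ = z * s * z⁻¹ * (x * z) * s⁻¹ * z⁻¹ := by group
          _ = _ := by rw [← zx]; group
      rw [this]
      exact mul_mem (mul_mem zH hs.2) (inv_mem zH)⟩
  have eC : e ∈ Cx z := mem_Cx.2 (mul_inv_eq_iff_eq_mul.1 ez).symm
  have hk : e⁻¹ * k0 ∈ K := mul_mem (inv_mem he) hk0
  set k := e⁻¹ * k0 with hkd
  have ey : e * (k * x * k⁻¹) * e⁻¹ = y := by rw [hy, hkd]; group
  have xH : ∀ H : Subgroup G, k * x * k⁻¹ ∈ H → z ∈ H → x ∈ H := fun H h1 h2 => by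
    have : gen y z ≤ cj e H := bary_gen_le (ey ▸ mem_cj_conj.2 h1) (by
      rw [mem_cj, mul_assoc, ← mem_Cx.1 eC, inv_mul_cancel_left]; exact h2)
    exact mem_cj_conj.1 (this m)
  have y1 : k * x * k⁻¹ ∈ gen (k * x * k⁻¹) z := subset_closure (by simp)
  have x1 := xH _ y1 (subset_closure (by simp))
  have nU : x ∈ Nm (gen (k * x * k⁻¹) z ⊓ K) := Nm_inf_Nm_le_inf _ _ ⟨le_normalizer x1, xK⟩
  have pU : IsPGroup r ↥(gen (k * x * k⁻¹) z ⊓ K) := pK.to_le inf_le_right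
  have lU := comm_le_left (zpowers_le.2 nU)
  refine ⟨k, hk, _, qq_comm hp hr hrp hx pU nU, lU.trans inf_le_right, fun c => n0 ?_,
    fun H h1 h2 => ⟨xH H h1 h2, (lU.trans inf_le_left).trans (bary_gen_le h1 h2)⟩⟩
  haveI := Fact.mk hp
  obtain ⟨a, ha, g, e1⟩ := prep hp cop hx xK hk
  obtain ⟨d, hd, c', hc', rfl⟩ := decomp hp (A := zpowers x)
    (IsPGroup.of_card (n := 1) (by rw [Nat.card_zpowers, hx, pow_one])) (cop_of_pg hp hr hrp pU) (zpowers_le.2 nU)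
    (⟨bary_gen_le x1 y1 g, ha⟩ : a ∈ gen (k * x * k⁻¹) z ⊓ K)
  have dz : d ∈ Cx z := mem_Cx.2 (c d hd)
  have cx : x * c' = c' * x := hc'.2 x (mem_zpowers x)
  have e3 : d * c' * x * (d * c')⁻¹ = d * x * d⁻¹ := by
    calc _ = d * (c' * x) * c'⁻¹ * d⁻¹ := by group
      _ = _ := by rw [← cx]; group
  rw [← ey, ← e1, e3]
  exact mul_mem (mul_mem eC (mul_mem (mul_mem dz xz) (inv_mem dz))) (inv_mem eC)

end Cfsg.Agent.F2C
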