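import Cfsg.Agent.F2C.Defs
import Cfsg.Agent.F2C.Cop
import Cfsg.Agent.F2C.Cov

set_option autoImplicit false

namespace Cfsg.Agent.F2C
open Subgroup

variable {G : Type*} [Group G] [Finite G]


theorem Ctx.Nm_ne {p : ℕ} {x : G} (c : Ctx p x) {U : Subgroup G} (hU : Group.IsNilpotent U)
    (h : U ≠ ⊥) : Nm U ≠ ⊤ := fun e => h (c.fit U (normalizer_eq_top_iff.1 e) hU)

theorem Ctx.Nm_ne' {p q : ℕ} {x : G} (c : Ctx p x) (hq : q.Prime) {U : Subgroup G}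
    (hU : IsPGroup q U) (h : U ≠ ⊥) : Nm U ≠ ⊤ :=
  have := Fact.mk hq
  c.Nm_ne hU.isNilpotent h

theorem Ctx.Cx_ne {p : ℕ} {x : G} (c : Ctx p x) {z : G} (h : z ≠ 1) : Cx z ≠ ⊤ := fun e =>
  c.Nm_ne (U := zpowers z) (@CommGroup.isNilpotent _ IsCyclic.commGroup) (zpowers_ne_bot.2 h)
    (top_le_iff.1 (e ▸ Cx_le_Nm_zpowers z))

theorem Ctx.ne_one {p : ℕ} {x : G} (c : Ctx p x) : x ≠ 1 := fun e =>
  c.hp.ne_one (by rw [← c.ord, e, orderOf_one])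

theorem Ctx.of_isConj {p : ℕ} {x b : G} (c : Ctx p x) (h : IsConj x b) : Ctx p b := by
  obtain ⟨g, rfl⟩ := isConj_iff.1 h
  exact c.cnj g

theorem Ctx.b1E {p q : ℕ} {x : G} (c : Ctx p x) (hq : q.Prime) (hqp : q ≠ p) {H U : Subgroup G}
    {S : Set G} (hS : ∀ b ∈ S, IsConj x b) (hH : H ≠ ⊤) (hE : closure S ≤ H) (hU : IsPGroup q U)
    (hle : U ≤ H) (hn : closure S ≤ Nm U) : ⁅U, closure S⁆ ≤ Oq q H := by
  obtain ⟨W, N, f, k⟩ := c.good H hH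
  have e : closure S ≤ N := (closure_le _).2 fun b hb => k b (hE (subset_closure hb)) (hS b hb)
  exact (f.q_le c.hp hq hqp (hU.to_le (comm_le_left hn)) (commutator_le.2 fun u hu a ha =>
    mul_mem ((mem_normalizer_iff.1 (f.nn (hle hu)) a).1 (e ha)) (inv_mem (e ha)))).2

theorem Ctx.b1 {p q : ℕ} {x : G} (c : Ctx p x) (hq : q.Prime) (hqp : q ≠ p) {H U : Subgroup G}
    (hH : H ≠ ⊤) (hx : x ∈ H) (hU : IsPGroup q U) (hle : U ≤ H) (hn : x ∈ Nm U) :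
    ⁅U, zpowers x⁆ ≤ Oq q H := by
  rw [zpowers_eq_closure]
  exact c.b1E hq hqp (fun b hb => hb ▸ IsConj.refl x) hH ((closure_le _).2 (Set.singleton_subset_iff.2 hx)) hU hle
    ((closure_le _).2 (Set.singleton_subset_iff.2 hn))

theorem Ctx.qq_le {p q : ℕ} {x : G} (c : Ctx p x) (hq : q.Prime) (hqp : q ≠ p) {H D : Subgroup G}
    (hH : H ≠ ⊤) (hx : x ∈ H) (hD : QQ q x D) (hle : D ≤ H) : D ≤ Oq q H :=
  hD.2.2.ge.trans (c.b1 hq hqp hH hx hD.1 hle hD.2.1)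

theorem Ctx.gen_le {p q : ℕ} {x : G} (c : Ctx p x) (hq : q.Prime) (hqp : q ≠ p) {H U : Subgroup G}
    (hH : H ≠ ⊤) {b b' : G} (hb : IsConj x b) (hb' : IsConj x b') (h1 : b ∈ H) (h2 : b' ∈ H)
    (hU : IsPGroup q U) (hle : U ≤ gen b b') : U ≤ Oq q H := by
  obtain ⟨W, N, f, k⟩ := c.good H hH
  exact (f.q_le c.hp hq hqp hU (hle.trans ((closure_le _).2 (Set.pair_subset (k b h1 hb) (k b' h2 hb'))))).2

theorem Ctx.comm {p q r : ℕ} {x : G} (c : Ctx p x) (hq : q.Prime) (hqp : q ≠ p) (hr : r.Prime)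
    (hrp : r ≠ p) (hqr : q ≠ r) {H D D' : Subgroup G} (hH : H ≠ ⊤) (hx : x ∈ H) (hD : QQ q x D)
    (hD' : QQ r x D') (h1 : D ≤ H) (h2 : D' ≤ H) : D ≤ Ce D' :=
  (c.qq_le hq hqp hH hx hD h1).trans ((Oq_comm hq hr hqr H).trans (centralizer_le (c.qq_le hr hrp hH hx hD' h2)))

theorem Ctx.join {p q : ℕ} {x : G} (c : Ctx p x) (hq : q.Prime) (hqp : q ≠ p)
    {H D D' : Subgroup G} (hH : H ≠ ⊤) (hx : x ∈ H) (hD : QQ q x D)
    (hD' : QQ q x D') (h1 : D ≤ H) (h2 : D' ≤ H) : IsPGroup q ↥(D ⊔ D') :=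
  (Oq_pgroup hq H).to_le (sup_le (c.qq_le hq hqp hH hx hD h1) (c.qq_le hq hqp hH hx hD' h2))

theorem Ctx.lemP {p : ℕ} {x : G} (c : Ctx p x) {b b' : G} (hb : IsConj x b) (hb' : IsConj x b') :
    ∃ W : Subgroup G, Group.IsNilpotent W ∧ (Nat.card W).Coprime p ∧ W ≤ gen b b' ∧ b ∈ Nm W ∧
      b' ∈ Nm W ∧ ∃ a ∈ W, IsPGroup p (gen b (a * b' * a⁻¹)) := by
  obtain ⟨W, N, f, k⟩ := c.good _ ((c.of_isConj hb).two b')
  have m : b ∈ gen b b' := subset_closure (by simp)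
  have m' : b' ∈ gen b b' := subset_closure (by simp)
  have e : gen b b' ≤ N := (closure_le _).2 (Set.pair_subset (k b m hb) (k b' m' hb'))
  have pe : ∀ y, IsConj x y → PE p y := fun y hy =>
    ⟨1, by rw [pow_one, ← (c.of_isConj hy).ord, pow_orderOf_eq_one]⟩
  exact ⟨W, f.nil, f.cop, f.wn.trans f.nh, f.nw m, f.nw m',
    cjP c.hp f.cop (f.wn.trans f.nh) f.nw (fun g hg => f.pw g (e hg)) m m' (pe b hb) (pe b' hb')⟩

theorem Ctx.exists_Q {p : ℕ} {x : G} (c : Ctx p x) :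
    ∃ (q : ℕ) (Q : Subgroup G), q.Prime ∧ q ≠ p ∧ MQ q x Q ∧ Q ≠ ⊥ := by
  by_contra h
  have k : x ∈ Oq p ⊤ := bs c.hp (mem_top x) fun g _ => by
    obtain ⟨W, h1, h2, -, h3, -, a, ha, h4⟩ := c.lemP (IsConj.refl x) (isConj_iff.2 ⟨g, rfl⟩)
    have e : W ≤ Cx x := nil_decomp c.hp c.ord h1 h2 h3 (fun s hs hsp => by
      obtain ⟨Q, hQ, l⟩ := (qq_comm c.hp hs hsp c.ord (Oq_pgroup hs W) (Nm_le_Nm_Oq s W h3)).exists_MQ
      have : Q = ⊥ := by_contra fun n => h ⟨s, Q, hs, hsp, hQ, n⟩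
      exact l.trans (this.le.trans bot_le)) inf_le_right
    have := pg_cj h4 a⁻¹
    rwa [cj_gen, show a⁻¹ * x * a⁻¹⁻¹ = x by rw [inv_inv, mul_assoc, ← mem_Cx.1 (e ha), inv_mul_cancel_left],
      show a⁻¹ * (a * (g * x * g⁻¹) * a⁻¹) * a⁻¹⁻¹ = g * x * g⁻¹ by group] at this
  exact c.Nm_ne' c.hp (Oq_pgroup c.hp ⊤) (fun e => c.ne_one (mem_bot.1 (e ▸ k))) (top_le_iff.1 (le_Nm_Oq p ⊤))

theorem Ctx.LL_ne {p : ℕ} {x : G} (c : Ctx p x) : LL p x ≠ ⊤ := fun e => by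
  obtain ⟨q, Q, h1, h2, h3, h4⟩ := c.exists_Q
  exact c.Nm_ne' h1 h3.1.1 h4 (top_le_iff.1 fun g _ => mem_LL.1 (e.ge (mem_top g)) q Q h1 h2 h3)

end Cfsg.Agent.F2C
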