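import Mathlib
import Cfsg.Prelude.Def_Solvable

set_option autoImplicit false

namespace Cfsg.Agent.F2C
open Subgroup

variable {G : Type*} [Group G]

/-- normaliser of a subgroup -/
abbrev Nm (H : Subgroup G) : Subgroup G := normalizer (H : Set G)
/-- centraliser of a subgroup -/
abbrev Ce (H : Subgroup G) : Subgroup G := centralizer (H : Set G)
/-- centraliser of an element -/
abbrev Cx (x : G) : Subgroup G := centralizer ({x} : Set G)
/-- the subgroup generated by two elements -/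
abbrev gen (x y : G) : Subgroup G := closure ({x, y} : Set G)

/-- the conjugate `g Q g⁻¹` -/
def cj (g : G) (Q : Subgroup G) : Subgroup G := Q.map (MulAut.conj g).toMonoidHom
/-- `O_q(H)` inside the ambient group -/
def Oq (q : ℕ) (H : Subgroup G) : Subgroup G := (Cfsg.pCore q H).map H.subtype
/-- the Frattini subgroup of `Q` inside the ambient group -/
def Phi (Q : Subgroup G) : Subgroup G := (frattini Q).map Q.subtype

/-- `W ≤ N` are normal in `H`, `W` is a nilpotent `p'`-group and `N/W` is a `p`-group. -/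
structure Fr (p : ℕ) (H W N : Subgroup G) : Prop where
  wn : W ≤ N
  nh : N ≤ H
  nw : H ≤ Nm W
  nn : H ≤ Nm N
  nil : Group.IsNilpotent W
  cop : (Nat.card W).Coprime p
  pw : ∀ g ∈ N, ∃ k : ℕ, g ^ p ^ k ∈ W

/-- for a `p`-element `x` of `H` this says `x ∈ F₂(H)` -/
def Good (p : ℕ) (H : Subgroup G) (x : G) : Prop := ∃ W N, Fr p H W N ∧ x ∈ N

/-- `D` is a `b`-invariant `q`-group with `D = [D, b]` -/
def QQ (q : ℕ) (b : G) (D : Subgroup G) : Prop :=
  IsPGroup q D ∧ b ∈ Nm D ∧ ⁅D, zpowers b⁆ = D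

/-- maximal members of `QQ q b` -/
def MQ (q : ℕ) (b : G) (Q : Subgroup G) : Prop :=
  QQ q b Q ∧ ∀ D, QQ q b D → Q ≤ D → D = Q

/-- the intersection of the normalisers of all maximal members -/
def LL (p : ℕ) (x : G) : Subgroup G :=
  ⨅ (q : ℕ) (_ : q.Prime) (_ : q ≠ p) (Q : Subgroup G) (_ : MQ q x Q), Nm Q

/-- the minimal counterexample with trivial Fitting subgroup -/
structure Ctx (p : ℕ) (x : G) : Prop where
  hp : p.Prime
  ord : orderOf x = p
  fit : ∀ N : Subgroup G, N.Normal → Group.IsNilpotent N → N = ⊥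
  ncl : normalClosure ({x} : Set G) = ⊤
  two : ∀ y : G, gen x y ≠ ⊤
  good : ∀ H : Subgroup G, H ≠ ⊤ → ∃ W N, Fr p H W N ∧ ∀ b ∈ H, IsConj x b → b ∈ N

/-- the uniqueness case -/
def Gam (p : ℕ) (x : G) : Prop :=
  ∃ (q : ℕ) (D : Subgroup G), q.Prime ∧ q ≠ p ∧ QQ q x D ∧ D ≠ ⊥ ∧
    (∀ D', QQ q x D' → IsPGroup q ↥(D ⊔ D')) ∧
    ∀ (s : ℕ) (D' : Subgroup G), s.Prime → s ≠ p → s ≠ q → QQ s x D' → D' ≤ Ce D

/-- `p`-fusion of `x` is controlled by `LL p x` -/
def Del (p : ℕ) (x : G) : Prop :=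
  ∀ g : G, IsPGroup p (gen x (g * x * g⁻¹)) → g ∈ LL p x

/-- `Q` is the largest member of `QQ q x` -/
def UQ (q : ℕ) (x : G) (Q : Subgroup G) : Prop :=
  QQ q x Q ∧ ∀ D, QQ q x D → D ≤ Q

/-- the family used for uniqueness -/
def WW (q : ℕ) (E W : Subgroup G) : Prop :=
  IsPGroup q W ∧ E ≤ Nm W ∧ W ⊓ Ce E ≤ Oq q (Ce E)

/-- maximal members of `WW q E` -/
def MW (q : ℕ) (E W : Subgroup G) : Prop :=
  WW q E W ∧ ∀ W', WW q E W' → W ≤ W' → W' = W

/-- `p`-elements -/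
def PE (p : ℕ) (x : G) : Prop := ∃ k : ℕ, x ^ p ^ k = 1

theorem mem_cj {g a : G} {Q : Subgroup G} : a ∈ cj g Q ↔ g⁻¹ * a * g ∈ Q := by
  constructor
  · rintro ⟨u, hu, rfl⟩
    simpa [mul_assoc] using hu
  · intro h
    exact ⟨_, h, by simp [mul_assoc]⟩

theorem mem_LL {p : ℕ} {x g : G} :
    g ∈ LL p x ↔ ∀ (q : ℕ) (Q : Subgroup G), q.Prime → q ≠ p → MQ q x Q → g ∈ Nm Q := by
  simp only [LL, mem_iInf]
  exact ⟨fun h q Q a b c => h q a b Q c, fun h q a b Q c => h q Q a b c⟩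

theorem mem_Cx {x g : G} : g ∈ Cx x ↔ g * x = x * g := by
  simp [mem_centralizer_iff, eq_comm]

theorem mem_Nm_iff_cj {g : G} {Q : Subgroup G} : g ∈ Nm Q ↔ cj g Q = Q := by
  constructor
  · intro h
    ext a
    rw [mem_cj, mem_normalizer_iff.mp h (g⁻¹ * a * g)]
    simp [mul_assoc]
  · intro h
    rw [mem_normalizer_iff]
    intro a
    conv_rhs => rw [← h, mem_cj]
    simp [mul_assoc]

end Cfsg.Agent.F2C
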