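import Mathlib

set_option autoImplicit false

namespace Cfsg.Agent.F2C.FourX
open Subgroup
open scoped commutatorElement IsMulCommutative

variable {Γ : Type*} [Group Γ]

theorem mem_of_sq (hodd : ∀ g : Γ, Odd (orderOf g)) (H : Subgroup Γ) {g : Γ} (h : g * g ∈ H) :
    g ∈ H := by
  obtain ⟨m, hm⟩ := hodd g
  have : (g * g) ^ (m + 1) = g := by
    rw [← pow_two, ← pow_mul, show 2 * (m + 1) = orderOf g + 1 by omega, pow_succ,
      pow_orderOf_eq_one, one_mul]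
  rw [← this]
  exact H.pow_mem h _

theorem dec (hodd : ∀ g : Γ, Odd (orderOf g)) (σ : Γ →* Γ) (hσ : ∀ g, σ (σ g) = g) (k : Γ) :
    ∃ t ∈ zpowers (k⁻¹ * σ k), σ t = t⁻¹ ∧ σ (k * t) = k * t := by
  obtain ⟨w, hwd⟩ : ∃ w, w = k⁻¹ * σ k := ⟨_, rfl⟩
  rw [← hwd]
  obtain ⟨m, hm⟩ := hodd w
  have hw : σ w = w⁻¹ := by simp [hwd, hσ]
  refine ⟨w ^ (m + 1), pow_mem (mem_zpowers w) _, by rw [map_pow, hw, inv_pow], ?_⟩
  have h1 : w ^ (m + 1) * w ^ (m + 1) = w := by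
    rw [← pow_add, show m + 1 + (m + 1) = orderOf w + 1 by omega, pow_succ,
      pow_orderOf_eq_one, one_mul]
  have h2 : σ k = k * (w ^ (m + 1) * w ^ (m + 1)) := by rw [h1]; simp [hwd]
  rw [map_mul, map_pow, hw, inv_pow, h2]
  group

theorem exT (hodd : ∀ g : Γ, Odd (orderOf g)) (α β : Γ →* Γ) (hα : ∀ g, α (α g) = g)
    (hc : ∀ g, α (β g) = β (α g)) (N M S : Subgroup Γ) [M.Normal]
    (hMN : M ≤ N) (hz : ∀ n ∈ N, ∀ g, ⁅n, g⁆ ∈ M) (hNα : ∀ g ∈ N, α g ∈ N)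
    (hNβ : ∀ g ∈ N, β g ∈ N) (hMα : ∀ g ∈ M, α g ∈ M) (hMβ : ∀ g ∈ M, β g ∈ M)
    (hS : ∀ s ∈ S, α s = s ∧ β s = s) :
    ∃ T : Subgroup Γ, M ≤ T ∧
      (∀ g ∈ N, (α g * g ∈ M ∨ β g * g ∈ M ∨ α (β g) * g ∈ M) → g ∈ T) ∧
      (∀ s ∈ S, s ∈ N → s ∈ T) ∧ ∀ c ∈ T, α c = c → β c = c → ∃ s ∈ S, s⁻¹ * c ∈ M := by
  let φ := QuotientGroup.mk' M
  have hφ : ∀ g, φ g = 1 ↔ g ∈ M := fun g => QuotientGroup.eq_one_iff g
  have hcen : ∀ n : N, (φ.comp N.subtype) n ∈ center (Γ ⧸ M) := by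
    intro n
    rw [mem_center_iff]
    intro z
    obtain ⟨g, rfl⟩ := QuotientGroup.mk'_surjective M z
    have := (hφ _).2 (hz n n.2 g)
    rw [map_commutatorElement, commutatorElement_eq_one_iff_mul_comm] at this
    exact this.symm
  let ψ : N →* center (Γ ⧸ M) := (φ.comp N.subtype).codRestrict _ hcen
  let a : N →* N := (α.comp N.subtype).codRestrict _ (fun n => hNα n n.2)
  let b : N →* N := (β.comp N.subtype).codRestrict _ (fun n => hNβ n n.2)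
  let P : N →* center (Γ ⧸ M) := ψ * ψ.comp a * ψ.comp b * ψ.comp (a.comp b)
  have hP : ∀ n : N, (P n : Γ ⧸ M) = φ n * φ (α n) * φ (β n) * φ (α (β n)) := fun n => rfl
  let T : Subgroup Γ := (((S.map φ).subgroupOf (center (Γ ⧸ M))).comap P).map N.subtype
  have hT : ∀ g (hg : g ∈ N), φ g * φ (α g) * φ (β g) * φ (α (β g)) ∈ S.map φ → g ∈ T :=
    fun g hg h => ⟨⟨g, hg⟩, h, rfl⟩
  have inv : ∀ u v : Γ, u * v ∈ M → φ u = (φ v)⁻¹ := fun u v h => by
    rw [eq_inv_iff_mul_eq_one, ← map_mul, hφ]; exact h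
  refine ⟨T, fun g hg => hT g (hMN hg) ?_, fun g hg h => hT g hg ?_, fun s hs hsN => hT s hsN ?_,
    ?_⟩
  · rw [(hφ _).2 hg, (hφ _).2 (hMα _ hg), (hφ _).2 (hMβ _ hg), (hφ _).2 (hMα _ (hMβ _ hg))]
    simp [one_mem]
  · suffices h1 : φ g * φ (α g) * φ (β g) * φ (α (β g)) = 1 by rw [h1]; exact one_mem _
    rcases h with h | h | h
    · have h2 := hMβ _ h
      rw [map_mul, ← hc] at h2
      rw [inv _ _ h, inv _ _ h2]; group
    · have h2 := hMα _ h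
      rw [map_mul] at h2
      have h3 : φ (α g) * φ g = φ g * φ (α g) := mem_center_iff.1 (hcen ⟨g, hg⟩) _
      rw [inv _ _ h, inv _ _ h2, ← h3]; group
    · have h2 := hMα _ h
      rw [map_mul, hα] at h2
      rw [inv _ _ h, inv _ _ h2]; group
  · rw [(hS s hs).2, (hS s hs).1]
    have := mem_map_of_mem φ hs
    exact mul_mem (mul_mem (mul_mem this this) this) this
  · rintro c ⟨n, hn, rfl⟩ h1 h2
    have h3 : φ n * φ (α n) * φ (β n) * φ (α (β n)) ∈ S.map φ := hn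
    have h1' : α n = n := h1
    have h2' : β n = n := h2
    rw [h2', h1'] at h3
    have h4 : (n : Γ) ∈ (S.map φ).comap φ := by
      apply mem_of_sq hodd
      apply mem_of_sq hodd
      rw [mem_comap]
      simpa [mul_assoc] using h3
    obtain ⟨s, hs, he⟩ := h4
    refine ⟨s, hs, (hφ _).1 ?_⟩
    rw [map_mul, map_inv, he]
    exact inv_mul_cancel _

theorem step (hodd : ∀ g : Γ, Odd (orderOf g)) (σ τ : Γ →* Γ) (hσ : ∀ g, σ (σ g) = g)
    (hτ : ∀ g, τ (τ g) = g) (hc : ∀ g, σ (τ g) = τ (σ g)) (K N M T : Subgroup Γ)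
    (hKσ : ∀ g ∈ K, σ g ∈ K) (hKτ : ∀ g ∈ K, τ g ∈ K) (hKN : ∀ k ∈ K, ∀ g, ⁅k, g⁆ ∈ N)
    (hz : ∀ n ∈ N, ∀ g, ⁅n, g⁆ ∈ M) (hMT : M ≤ T) (hMN : M ≤ N)
    (h2 : ∀ g ∈ N, (σ g * g ∈ M ∨ τ g * g ∈ M) → g ∈ T)
    (h3 : ∀ s ∈ N, s ∈ closure {a | σ a = a ∧ τ a = a⁻¹} → σ s = s → τ s = s → s ∈ T)
    {k r : Γ} (hk : k ∈ K) (hr1 : σ r = r) (hr2 : τ r = r⁻¹) : ⁅k, r⁆ ∈ T := by
  have hz' : ∀ n ∈ N, ∀ g, ⁅g, n⁆ ∈ M := fun n hn g => by
    rw [← commutatorElement_inv]; exact inv_mem (hz n hn g)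
  have mulT : ∀ u v : Γ, v ∈ K → ⁅u, r⁆ ∈ T → ⁅v, r⁆ ∈ T → ⁅u * v, r⁆ ∈ T := by
    intro u v hv h1 h2
    have : ⁅u * v, r⁆ = ⁅u, ⁅v, r⁆⁆ * ⁅v, r⁆ * ⁅u, r⁆ := by
      simp only [commutatorElement_def]; group
    rw [this]
    exact mul_mem (mul_mem (hMT (hz' _ (hKN v hv r) u)) h2) h1
  have fx : ∀ w t : Γ, t ∈ zpowers w → σ w = w → σ t = t := by
    rintro w t ⟨i, rfl⟩ h
    simp [h]
  obtain ⟨t, ht, ht1, ht2⟩ := dec hodd σ hσ k
  have htK : t ∈ K := (zpowers_le.2 (mul_mem (inv_mem hk) (hKσ _ hk))) ht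
  have hcK : k * t ∈ K := mul_mem hk htK
  obtain ⟨u, hu, hu1, hu2⟩ := dec hodd τ hτ (k * t)
  have huK : u ∈ K := (zpowers_le.2 (mul_mem (inv_mem hcK) (hKτ _ hcK))) hu
  have hu3 : σ u = u := fx _ _ hu (by rw [map_mul, map_inv, hc, ht2])
  have e : k = k * t * u * u⁻¹ * t⁻¹ := by group
  rw [e]
  refine mulT _ _ (inv_mem htK) (mulT _ _ (inv_mem huK) ?_ ?_) ?_
  · refine h2 _ (hKN _ (mul_mem hcK huK) r) (Or.inr ?_)
    have : τ ⁅k * t * u, r⁆ * ⁅k * t * u, r⁆ = ⁅r⁻¹, ⁅k * t * u, r⁆⁻¹⁆ := by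
      rw [map_commutatorElement, hu2, hr2]
      simp only [commutatorElement_def]; group
    rw [this]
    exact hz' _ (inv_mem (hKN _ (mul_mem hcK huK) r)) _
  · have hwN := hKN _ (inv_mem huK) r
    have huA : u ∈ closure {a | σ a = a ∧ τ a = a⁻¹} := subset_closure ⟨hu3, hu1⟩
    have hrA : r ∈ closure {a | σ a = a ∧ τ a = a⁻¹} := subset_closure ⟨hr1, hr2⟩
    have hwA : ⁅u⁻¹, r⁆ ∈ closure {a | σ a = a ∧ τ a = a⁻¹} :=
      mul_mem (mul_mem (mul_mem (inv_mem huA) hrA) (inv_mem (inv_mem huA))) (inv_mem hrA)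
    have hwσ : σ ⁅u⁻¹, r⁆ = ⁅u⁻¹, r⁆ := by rw [map_commutatorElement, map_inv, hu3, hr1]
    have hwτ : τ ⁅u⁻¹, r⁆ = ⁅u, r⁻¹⁆ := by
      rw [map_commutatorElement, map_inv, hu1, hr2, inv_inv]
    obtain ⟨v, hv, -, hv2⟩ := dec hodd τ hτ ⁅u⁻¹, r⁆
    have hvM : v ∈ M := by
      refine (zpowers_le.2 ?_) hv
      have : ⁅u⁻¹, r⁆⁻¹ * τ ⁅u⁻¹, r⁆ = ⁅⁅u⁻¹, r⁆⁻¹, (r * u⁻¹)⁻¹⁆ := by
        rw [hwτ]; simp only [commutatorElement_def]; group
      rw [this]
      exact hz _ (inv_mem hwN) _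
    have hvA : v ∈ closure {a | σ a = a ∧ τ a = a⁻¹} := by
      refine (zpowers_le.2 (mul_mem (inv_mem hwA) ?_)) hv
      rw [hwτ]
      exact mul_mem (mul_mem (mul_mem huA (inv_mem hrA)) (inv_mem huA)) (inv_mem (inv_mem hrA))
    have hvσ : σ v = v := fx _ _ hv (by rw [map_mul, map_inv, hc, hwσ])
    have hs := h3 _ (mul_mem hwN (hMN hvM)) (mul_mem hwA hvA) (by rw [map_mul, hwσ, hvσ]) hv2
    have := mul_mem hs (inv_mem (hMT hvM))
    rwa [mul_inv_cancel_right] at this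
  · refine h2 _ (hKN _ (inv_mem htK) r) (Or.inl ?_)
    have : σ ⁅t⁻¹, r⁆ * ⁅t⁻¹, r⁆ = ⁅t, ⁅t⁻¹, r⁆⁻¹⁆ := by
      rw [map_commutatorElement, map_inv, ht1, hr1]
      simp only [commutatorElement_def]; group
    rw [this]
    exact hz' _ (inv_mem (hKN _ (inv_mem htK) r)) _

/-- the typed elements -/
def II (α β : Γ →* Γ) : Set Γ :=
  {a | (α a = a ∧ β a = a⁻¹) ∨ (β a = a ∧ α a = a⁻¹) ∨ (α (β a) = a ∧ α a = a⁻¹)}

theorem core [Group.IsNilpotent Γ] (hodd : ∀ g : Γ, Odd (orderOf g)) (α β : Γ →* Γ)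
    (hα : ∀ g, α (α g) = g) (hβ : ∀ g, β (β g) = g) (hc : ∀ g, α (β g) = β (α g))
    (O : Subgroup Γ) (hgen : closure (II α β) = ⊤)
    (h1 : ∀ s ∈ closure {a | α a = a ∧ β a = a⁻¹}, α s = s → β s = s → s ∈ O)
    (h2 : ∀ s ∈ closure {a | β a = a ∧ α a = a⁻¹}, α s = s → β s = s → s ∈ O)
    (h3 : ∀ s ∈ closure {a | α (β a) = a ∧ α a = a⁻¹}, α s = s → β s = s → s ∈ O)
    (c : Γ) (hc1 : α c = c) (hc2 : β c = c) : c ∈ O := by
  let S : Subgroup Γ := O ⊓ (α.eqLocus (MonoidHom.id Γ) ⊓ β.eqLocus (MonoidHom.id Γ))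
  have hS : ∀ s ∈ S, α s = s ∧ β s = s := fun s hs => ⟨hs.2.1, hs.2.2⟩
  let L := (⊤ : Subgroup Γ).lowerCentralSeries
  have hL : ∀ (σ : Γ →* Γ) n, ∀ g ∈ L n, σ g ∈ L n := by
    intro σ n
    induction n with
    | zero => intro g _; exact mem_top _
    | succ n ih =>
      have : L (n + 1) ≤ (L (n + 1)).comap σ := by
        refine commutator_le.2 fun a ha b _ => ?_
        rw [mem_comap, map_commutatorElement]
        exact commutator_mem_commutator (ih a ha) (mem_top _)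
      exact fun g hg => this hg
  have hLz : ∀ n, ∀ g ∈ L n, ∀ r, ⁅g, r⁆ ∈ L (n + 1) := fun n g hg r =>
    commutator_mem_commutator hg (mem_top _)
  have hLa : ∀ n, L (n + 1) ≤ L n := fun n => Subgroup.lowerCentralSeries_antitone ⊤ (Nat.le_succ n)
  have lev : ∀ n, ∀ c ∈ L n, α c = c → β c = c → ∃ s ∈ S, s⁻¹ * c ∈ L (n + 1) := by
    intro n c hcn
    obtain ⟨T, t1, t2, t3, t4⟩ := exT hodd α β hα hc (L n) (L (n + 1)) S (hLa n) (hLz n)
      (hL α n) (hL β n) (hL α _) (hL β _) hS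
    refine t4 c ((?_ : L n ≤ T) hcn)
    cases n with
    | zero =>
      show (⊤ : Subgroup Γ) ≤ T
      rw [← hgen, closure_le]
      rintro a (ha | ha | ha)
      · exact t2 a (mem_top _) (Or.inr (Or.inl (by rw [ha.2, inv_mul_cancel]; exact one_mem _)))
      · exact t2 a (mem_top _) (Or.inl (by rw [ha.2, inv_mul_cancel]; exact one_mem _))
      · exact t2 a (mem_top _) (Or.inl (by rw [ha.2, inv_mul_cancel]; exact one_mem _))
    | succ n =>
      refine commutator_le.2 fun k hk r hr => ?_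
      rw [← hgen] at hr
      induction hr using closure_induction with
      | mem r hr =>
        rcases hr with hr | hr | hr
        · exact step hodd α β hα hβ hc (L n) _ _ T (hL α n) (hL β n) (hLz n) (hLz _) t1 (hLa _)
            (fun g hg h => t2 g hg (h.elim Or.inl fun h => Or.inr (Or.inl h)))
            (fun s hs hA a b => t3 s ⟨h1 s hA a b, a, b⟩ hs) hk hr.1 hr.2
        · exact step hodd β α hβ hα (fun g => (hc g).symm) (L n) _ _ T (hL β n) (hL α n) (hLz n)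
            (hLz _) t1 (hLa _)
            (fun g hg h => t2 g hg (h.elim (fun h => Or.inr (Or.inl h)) Or.inl))
            (fun s hs hA a b => t3 s ⟨h2 s hA b a, b, a⟩ hs) hk hr.1 hr.2
        · refine step hodd (α.comp β) α (fun g => ?_) hα (fun g => ?_) (L n) _ _ T
            (hL _ n) (hL α n) (hLz n) (hLz _) t1 (hLa _)
            (fun g hg h => t2 g hg (h.elim (fun h => Or.inr (Or.inr h)) Or.inl))
            (fun s hs hA a b => ?_) hk hr.1 hr.2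
          · show α (β (α (β g))) = g
            rw [← hc, hα, hβ]
          · show α (β (α g)) = α (α (β g))
            rw [← hc]
          · have a' : β s = s := by
              have a'' : α (β s) = s := a
              rwa [hc, b] at a''
            exact t3 s ⟨h3 s hA b a', b, a'⟩ hs
      | one => rw [commutatorElement_one_right]; exact one_mem _
      | mul u v _ _ hu hv =>
        have : ⁅k, u * v⁆ = ⁅k, u⁆ * (⁅⁅k, v⁆, u⁆⁻¹ * ⁅k, v⁆) := by
          simp only [commutatorElement_def]; group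
        rw [this]
        exact mul_mem hu (mul_mem (inv_mem (t1 (hLz _ _ (hLz _ _ hk v) u))) hv)
      | inv u _ hu =>
        have : ⁅k, u⁻¹⁆ = ⁅⁅k, u⁆⁻¹, u⁻¹⁆⁻¹ * ⁅k, u⁆⁻¹ := by
          simp only [commutatorElement_def]; group
        rw [this]
        exact mul_mem (inv_mem (t1 (hLz _ _ (inv_mem (hLz _ _ hk u)) _))) (inv_mem hu)
  have all : ∀ n, ∃ s ∈ S, s⁻¹ * c ∈ L n := by
    intro n
    induction n with
    | zero => exact ⟨1, one_mem _, mem_top _⟩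
    | succ n ih =>
      obtain ⟨s, hs, h⟩ := ih
      obtain ⟨s', hs', h'⟩ := lev n _ h (by rw [map_mul, map_inv, (hS s hs).1, hc1])
        (by rw [map_mul, map_inv, (hS s hs).2, hc2])
      exact ⟨s * s', mul_mem hs hs', by rwa [mul_inv_rev, mul_assoc]⟩
  obtain ⟨n, hn⟩ := Subgroup.nilpotent_iff_lowerCentralSeries.1 ‹Group.IsNilpotent Γ›
  obtain ⟨s, hs, h⟩ := all n
  have h' : s⁻¹ * c ∈ (⊥ : Subgroup Γ) := hn ▸ h
  rw [mem_bot, inv_mul_eq_one] at h'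
  exact h' ▸ hs.1

theorem gen_top (hodd : ∀ g : Γ, Odd (orderOf g)) (α β : Γ →* Γ)
    (hα : ∀ g, α (α g) = g) (hβ : ∀ g, β (β g) = g) (hc : ∀ g, α (β g) = β (α g))
    (H1 : closure {a | α a = a ∨ β a = a ∨ α (β a) = a} = ⊤)
    (H2 : ∀ J : Subgroup Γ, (∀ g, g⁻¹ * α g ∈ J) → (∀ g, g⁻¹ * β g ∈ J) → J = ⊤) :
    closure (II α β) = ⊤ := by
  have key : ∀ a, (α a = a ∨ β a = a ∨ α (β a) = a) →
      ∃ d u, α d = d ∧ β d = d ∧ u ∈ II α β ∧ a = d * u⁻¹ := by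
    rintro a (ha | ha | ha)
    · obtain ⟨u, ⟨i, hi⟩, h1, h2⟩ := dec hodd β hβ a
      have h3 : α u = u := by rw [← hi]; simp [hc, ha]
      exact ⟨a * u, u, by rw [map_mul, ha, h3], h2, Or.inl ⟨h3, h1⟩, by group⟩
    · obtain ⟨u, ⟨i, hi⟩, h1, h2⟩ := dec hodd α hα a
      have h3 : β u = u := by rw [← hi]; simp [← hc, ha]
      exact ⟨a * u, u, h2, by rw [map_mul, ha, h3], Or.inr (Or.inl ⟨h3, h1⟩), by group⟩
    · obtain ⟨u, ⟨i, hi⟩, h1, h2⟩ := dec hodd α hα a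
      have h3 : α (β u) = u := by
        rw [← hi]
        simp only [map_zpow, map_mul, map_inv]
        rw [← hc, ha]
      have h4 : α (β (a * u)) = a * u := by rw [map_mul, map_mul, ha, h3]
      exact ⟨a * u, u, h2, by rwa [hc, h2] at h4, Or.inr (Or.inr ⟨h3, h1⟩), by group⟩
  have cj : ∀ d, α d = d → β d = d → ∀ g ∈ closure (II α β), d * g * d⁻¹ ∈ closure (II α β) := by
    intro d d1 d2 g hg
    have : closure (II α β) ≤ (closure (II α β)).comap (MulAut.conj d).toMonoidHom := by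
      rw [closure_le]
      intro a ha
      refine subset_closure (?_ : d * a * d⁻¹ ∈ II α β)
      rcases ha with ha | ha | ha
      · exact Or.inl ⟨by simp [d1, ha.1], by simp [d2, ha.2, mul_assoc]⟩
      · exact Or.inr (Or.inl ⟨by simp [d2, ha.1], by simp [d1, ha.2, mul_assoc]⟩)
      · exact Or.inr (Or.inr ⟨by simp [d1, d2, ha.1], by simp [d1, ha.2, mul_assoc]⟩)
    exact this hg
  have : (closure (II α β)).Normal := by
    rw [← normalizer_eq_top_iff, eq_top_iff, ← H1, closure_le]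
    intro a ha
    obtain ⟨d, u, d1, d2, hu, rfl⟩ := key a ha
    refine mul_mem ?_ (inv_mem (le_normalizer (subset_closure hu)))
    rw [mem_normalizer_iff]
    refine fun g => ⟨cj d d1 d2 g, fun h => ?_⟩
    have := cj d⁻¹ (by rw [map_inv, d1]) (by rw [map_inv, d2]) _ h
    simpa [mul_assoc] using this
  have fin : ∀ σ : Γ →* Γ, (∀ d, α d = d → β d = d → σ d = d) →
      (∀ u ∈ II α β, σ u = u ∨ σ u = u⁻¹) → ∀ g, g⁻¹ * σ g ∈ closure (II α β) := by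
    intro σ s1 s2 g
    have : QuotientGroup.mk' (closure (II α β)) = (QuotientGroup.mk' (closure (II α β))).comp σ := by
      refine MonoidHom.eq_of_eqOn_dense H1 fun a ha => ?_
      obtain ⟨d, u, d1, d2, hu, rfl⟩ := key a ha
      have hu' : u ∈ closure (II α β) := subset_closure hu
      refine QuotientGroup.eq.2 ?_
      rw [map_mul, map_inv, s1 d d1 d2]
      rcases s2 u hu with h | h
      · rw [h, inv_mul_cancel]; exact one_mem _
      · rw [h]; simpa [mul_assoc] using mul_mem hu' hu'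
    exact QuotientGroup.eq.1 (DFunLike.congr_fun this g)
  refine H2 _ (fin α (fun d a _ => a) ?_) (fin β (fun d _ a => a) ?_)
  · rintro u (h | h | h)
    exacts [Or.inl h.1, Or.inr h.2, Or.inr h.2]
  · rintro u (h | h | h)
    · exact Or.inr h.2
    · exact Or.inl h.1
    · refine Or.inr ?_
      have := congrArg α h.1
      rwa [hα, h.2] at this

end Cfsg.Agent.F2C.FourX
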