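import Cfsg.Agent.F2C.Defs
import Cfsg.Agent.F2C.Cop
import Cfsg.Agent.F2C.FourX
import Cfsg.Agent.S0022
import Cfsg.Agent.S0058

set_option autoImplicit false

namespace Cfsg.Agent.F2C
open Subgroup
open scoped commutatorElement

variable {G : Type*} [Group G] [Finite G]

namespace FourY

omit [Finite G] in
theorem mem_gen {x y : G} (hx : x * x = 1) (hy : y * y = 1) (hxy : x * y = y * x) {e : G}
    (he : e ∈ gen x y) : e = 1 ∨ e = x ∨ e = y ∨ e = x * y := by
  have hx' : ∀ z, x * (x * z) = z := fun z => by rw [← mul_assoc, hx, one_mul]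
  have hy' : ∀ z, y * (y * z) = z := fun z => by rw [← mul_assoc, hy, one_mul]
  have hc : ∀ z, y * (x * z) = x * (y * z) := fun z => by rw [← mul_assoc, ← hxy, mul_assoc]
  induction he using closure_induction with
  | mem a ha =>
    rcases ha with rfl | rfl
    · exact Or.inr (Or.inl rfl)
    · exact Or.inr (Or.inr (Or.inl rfl))
  | one => exact Or.inl rfl
  | mul a b _ _ ha hb =>
    rcases ha with ha | ha | ha | ha <;> rcases hb with hb | hb | hb | hb <;> rw [ha, hb] <;>
      simp only [mul_assoc, hx, hy, hx', hy', hc, ← hxy, one_mul, mul_one, true_or, or_true]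
  | inv a _ ha =>
    rcases ha with ha | ha | ha | ha <;> rw [ha]
    · exact Or.inl inv_one
    · exact Or.inr (Or.inl (inv_eq_of_mul_eq_one_right hx))
    · exact Or.inr (Or.inr (Or.inl (inv_eq_of_mul_eq_one_right hy)))
    · refine Or.inr (Or.inr (Or.inr (inv_eq_of_mul_eq_one_right ?_)))
      rw [mul_assoc, hc, hx', hy]

/-- conjugation restricted to a normalised subgroup -/
def act (R : Subgroup G) (x : G) (hx : x ∈ Nm R) : R →* R :=
  ((MulAut.conj x).toMonoidHom.comp R.subtype).codRestrict R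
    fun g => (mem_normalizer_iff.1 hx g).1 g.2

omit [Finite G] in
theorem act_val (R : Subgroup G) (x : G) (hx : x ∈ Nm R) (g : R) :
    (act R x hx g : G) = x * g * x⁻¹ := rfl

end FourY

open FourY in
theorem four {q : ℕ} (hq : q.Prime) (hq2 : q ≠ 2) {x y : G} (hx : orderOf x = 2) (hy : orderOf y = 2)
    (hne : x ≠ y) (hxy : x * y = y * x) {R O : Subgroup G} (hR : IsPGroup q R) (hn : gen x y ≤ Nm R)
    (h : ∀ e ∈ ({x, y, x * y} : Set G), ⁅R ⊓ Cx e, gen x y⁆ ⊓ Ce (gen x y) ≤ O) :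
    ⁅R, gen x y⁆ ⊓ Ce (gen x y) ≤ O := by
  have := Fact.mk hq
  have hx2 : x * x = 1 := by rw [← pow_two, ← hx, pow_orderOf_eq_one]
  have hy2 : y * y = 1 := by rw [← pow_two, ← hy, pow_orderOf_eq_one]
  have hx1 : x ≠ 1 := by rintro rfl; simp at hx
  have hy1 : y ≠ 1 := by rintro rfl; simp at hy
  have hxi : x⁻¹ = x := inv_eq_of_mul_eq_one_right hx2
  have hyi : y⁻¹ = y := inv_eq_of_mul_eq_one_right hy2
  have hxE : x ∈ gen x y := subset_closure (Or.inl rfl)
  have hyE : y ∈ gen x y := subset_closure (Or.inr rfl)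
  have hsq : ∀ e ∈ gen x y, e * e = 1 := by
    intro e he
    rcases mem_gen hx2 hy2 hxy he with rfl | rfl | rfl | rfl
    · exact one_mul 1
    · exact hx2
    · exact hy2
    · rw [mul_assoc, ← mul_assoc y, ← hxy, mul_assoc, hy2, mul_one, hx2]
  have hE : IsPGroup 2 (gen x y) := fun e => ⟨1, Subtype.ext (by simpa [pow_two] using hsq e e.2)⟩
  have hcop : (Nat.card R).Coprime 2 := cop_of_pg Nat.prime_two hq hq2 hR
  have hcc := comm_comm Nat.prime_two hE hcop hn
  have hle : ⁅R, gen x y⁆ ≤ R := comm_le_left hn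
  have hn' : gen x y ≤ Nm ⁅R, gen x y⁆ := by
    rw [Subgroup.commutator_comm]; exact le_Nm_comm _ _
  obtain ⟨R', hR'⟩ : ∃ R', R' = ⁅R, gen x y⁆ := ⟨_, rfl⟩
  rw [← hR'] at hcc hle hn' ⊢
  have hq' : IsPGroup q R' := hR.to_le hle
  have hcop' : (Nat.card R').Coprime 2 := cop_of_pg Nat.prime_two hq hq2 hq'
  have hodd : ∀ g : R', Odd (orderOf g) := fun g =>
    Nat.coprime_two_right.1 (hcop'.coprime_dvd_left (orderOf_dvd_natCard g))
  have hnil : Group.IsNilpotent R' := hq'.isNilpotent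
  let α := act R' x (hn' hxE)
  let β := act R' y (hn' hyE)
  have hα : ∀ g, α (α g) = g := fun g => Subtype.ext (by
    show x * (x * g * x⁻¹) * x⁻¹ = g
    rw [hxi, ← mul_assoc, ← mul_assoc, hx2, one_mul, mul_assoc, hx2, mul_one])
  have hβ : ∀ g, β (β g) = g := fun g => Subtype.ext (by
    show y * (y * g * y⁻¹) * y⁻¹ = g
    rw [hyi, ← mul_assoc, ← mul_assoc, hy2, one_mul, mul_assoc, hy2, mul_one])
  have hab : ∀ g : R', (α (β g) : G) = x * y * g * (x * y)⁻¹ := fun g => by
    show x * (y * g * y⁻¹) * x⁻¹ = _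
    group
  have hc : ∀ g, α (β g) = β (α g) := fun g => Subtype.ext (by
    rw [hab, hxy]
    show _ = y * (x * g * x⁻¹) * y⁻¹
    group)
  have hgen : closure (FourX.II α β) = ⊤ := by
    refine FourX.gen_top hodd α β hα hβ hc ?_ ?_
    · have : IsMulCommutative (gen x y) := ⟨⟨fun a b => Subtype.ext (by
        have h1 := hsq _ (mul_mem a.2 b.2)
        have h2 := inv_eq_of_mul_eq_one_right h1
        rw [mul_inv_rev, inv_eq_of_mul_eq_one_right (hsq a a.2),
          inv_eq_of_mul_eq_one_right (hsq b b.2)] at h2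
        exact h2.symm)⟩⟩
      have hnc : ¬ IsCyclic (gen x y) := by
        rintro ⟨g, hg⟩
        have key : ∀ e ∈ gen x y, e ≠ 1 → e = g := by
          intro e he h1
          obtain ⟨i, hi⟩ := hg ⟨e, he⟩
          have hi' : (g : G) ^ i = e := congrArg Subtype.val hi
          have g2 : (g : G) ^ (2 : ℤ) = 1 := by rw [zpow_two]; exact hsq g g.2
          rcases Int.even_or_odd' i with ⟨j, rfl | rfl⟩
          · rw [zpow_mul, g2, one_zpow] at hi'; exact absurd hi'.symm h1
          · rw [zpow_add, zpow_mul, g2, one_zpow, one_mul, zpow_one] at hi'; exact hi'.symm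
        exact hne ((key x hxE hx1).trans (key y hyE hy1).symm)
      have hcp : (Nat.card (gen x y)).Coprime (Nat.card R') := by
        have := Fact.mk Nat.prime_two
        obtain ⟨k, hk⟩ := hE.exists_card_eq
        rw [hk]
        exact hcop'.symm.pow_left k
      have h58 := Cfsg.Agent.S0058.result (gen x y) R' hnc hn' hcp
      have hh : R' ≤ (closure {a : R' | α a = a ∨ β a = a ∨ α (β a) = a}).map R'.subtype := by
        refine h58.ge.trans (iSup₂_le ?_)
        rintro e ⟨he, he1⟩ g ⟨hg, hge⟩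
        have hge' : g * e = e * g := mem_Cx.1 hge
        have hf : e * g * e⁻¹ = g := by rw [← hge', mul_inv_cancel_right]
        refine ⟨⟨g, hg⟩, subset_closure ?_, rfl⟩
        rcases mem_gen hx2 hy2 hxy he with h1 | h1 | h1 | h1
        · exact absurd h1 he1
        · rw [h1] at hf; exact Or.inl (Subtype.ext hf)
        · rw [h1] at hf; exact Or.inr (Or.inl (Subtype.ext hf))
        · rw [h1] at hf; exact Or.inr (Or.inr (Subtype.ext ((hab _).trans hf)))
      rw [eq_top_iff]
      intro g _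
      obtain ⟨g', h1, h2⟩ := hh g.2
      rwa [show g' = g from Subtype.ext h2] at h1
    · intro J j1 j2
      have hh : R' ≤ J.map R'.subtype := by
        refine hcc.ge.trans (commutator_le.2 fun g hg e he => ?_)
        rcases mem_gen hx2 hy2 hxy he with h1 | h1 | h1 | h1 <;> rw [h1]
        · rw [commutatorElement_one_right]; exact one_mem _
        · refine ⟨_, j1 ⟨g, hg⟩⁻¹, ?_⟩
          show g⁻¹⁻¹ * (x * g⁻¹ * x⁻¹) = _
          rw [commutatorElement_def]; group
        · refine ⟨_, j2 ⟨g, hg⟩⁻¹, ?_⟩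
          show g⁻¹⁻¹ * (y * g⁻¹ * y⁻¹) = _
          rw [commutatorElement_def]; group
        · refine ⟨_, mul_mem (j2 ⟨g, hg⟩⁻¹) (j1 (β ⟨g, hg⟩⁻¹)), ?_⟩
          show g⁻¹⁻¹ * (y * g⁻¹ * y⁻¹) * ((y * g⁻¹ * y⁻¹)⁻¹ * (x * (y * g⁻¹ * y⁻¹) * x⁻¹)) = _
          rw [commutatorElement_def]; group
      rw [eq_top_iff]
      intro g _
      obtain ⟨g', h1, h2⟩ := hh g.2
      rwa [show g' = g from Subtype.ext h2] at h1
  have hce : ∀ s : R', α s = s → β s = s → (s : G) ∈ Ce (gen x y) := by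
    intro s h1 h2
    have h1' : x * s * x⁻¹ = s := congrArg Subtype.val h1
    have h2' : y * s * y⁻¹ = s := congrArg Subtype.val h2
    rw [mul_inv_eq_iff_eq_mul] at h1' h2'
    rw [mem_centralizer_iff]
    intro e he
    rcases mem_gen hx2 hy2 hxy he with h1 | h1 | h1 | h1 <;> rw [h1]
    · rw [one_mul, mul_one]
    · exact h1'
    · exact h2'
    · rw [mul_assoc, h2', ← mul_assoc, h1', mul_assoc]
  have hA : ∀ (e f : G) (X : Set R'), e ∈ ({x, y, x * y} : Set G) → f ∈ gen x y →
      (∀ a ∈ X, e * a * e⁻¹ = a ∧ f * a * f⁻¹ = (a : G)⁻¹) →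
      ∀ s ∈ closure X, α s = s → β s = s → s ∈ O.subgroupOf R' := by
    intro e f X he hf hX s hs h1 h2
    have : closure X ≤ (⁅R ⊓ Cx e, gen x y⁆).subgroupOf R' := by
      rw [closure_le]
      intro a ha
      refine FourX.mem_of_sq hodd _ ?_
      have h3 : (a : G) ∈ R ⊓ Cx e :=
        ⟨hle a.2, mem_Cx.2 (mul_inv_eq_iff_eq_mul.1 (hX a ha).1).symm⟩
      have h4 := commutator_mem_commutator h3 hf
      have h5 : ⁅(a : G), f⁆ = a * a := by
        have : ⁅(a : G), f⁆ = a * (f * a * f⁻¹)⁻¹ := by rw [commutatorElement_def]; group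
        rw [this, (hX a ha).2, inv_inv]
      rw [h5] at h4
      exact h4
    exact h e he ⟨this hs, hce s h1 h2⟩
  rintro c ⟨hc1, hc2⟩
  have hc3 : ∀ e ∈ gen x y, e * c * e⁻¹ = c := fun e he => by
    rw [mem_centralizer_iff.1 hc2 e he, mul_inv_cancel_right]
  exact FourX.core hodd α β hα hβ hc (O.subgroupOf R') hgen
    (hA x y _ (by simp) hyE fun a ha => ⟨congrArg Subtype.val ha.1, congrArg Subtype.val ha.2⟩)
    (hA y x _ (by simp) hxE fun a ha => ⟨congrArg Subtype.val ha.1, congrArg Subtype.val ha.2⟩)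
    (hA (x * y) x _ (by simp) hxE fun a ha =>
      ⟨(hab a).symm.trans (congrArg Subtype.val ha.1), congrArg Subtype.val ha.2⟩)
    ⟨c, hc1⟩ (Subtype.ext (hc3 x hxE)) (Subtype.ext (hc3 y hyE))

end Cfsg.Agent.F2C
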