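import Cfsg.Agent.F2C.Defs
import Cfsg.Agent.F2C.Cop
import Cfsg.Agent.F2C.Cov
import Cfsg.Agent.S0028
import Cfsg.Agent.S0022

set_option autoImplicit false

namespace Cfsg.Agent.F2C
open Subgroup

variable {G : Type*} [Group G] [Finite G]

namespace ThetaA

theorem cm {A : Subgroup G} {g a : G} (hg : g ∈ Nm A) (ha : a ∈ A) : g * a * g⁻¹ ∈ A :=
  (mem_normalizer_iff.1 hg a).1 ha

/-- a fixed point of `b` modulo `W` lifts -/
theorem lift {p : ℕ} (hp : p.Prime) {M W N : Subgroup G} {b m : G} (h : Fr p M W N) (hb : b ∈ N)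
    (ho : orderOf b = p) (hm : m ∈ M) (e : m * b * m⁻¹ * b⁻¹ ∈ W) : ∃ a ∈ W, a * m ∈ Cx b := by
  have b1 : b ^ p = 1 := ho ▸ pow_orderOf_eq_one b
  obtain ⟨a, ha, k⟩ := cjP hp h.cop h.wn (h.nh.trans h.nw) h.pw hb (cm (h.nn hm) hb) ⟨1, by simpa using b1⟩
    ⟨1, by rw [pow_one, conj_pow, b1]; simp⟩
  refine ⟨a, ha, mem_Cx.2 ?_⟩
  have c1 : a * (m * b * m⁻¹) * a⁻¹ * b⁻¹ ∈ W := by
    have := mul_mem (mul_mem ha e) (cm (h.nw (h.nh hb)) (inv_mem ha))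
    convert this using 1
    group
  have c2 : a * (m * b * m⁻¹) * a⁻¹ * b⁻¹ ∈ gen b (a * (m * b * m⁻¹) * a⁻¹) :=
    mul_mem (subset_closure (by simp)) (inv_mem (subset_closure (by simp)))
  obtain ⟨j, hj⟩ := k ⟨_, c2⟩
  have d1 : orderOf (a * (m * b * m⁻¹) * a⁻¹ * b⁻¹) ∣ p ^ j :=
    orderOf_dvd_of_pow_eq_one (by simpa using congrArg Subtype.val hj)
  have d2 := W.orderOf_dvd_natCard c1
  have d3 := orderOf_eq_one_iff.1 (Nat.eq_one_of_dvd_coprimes (h.cop.pow_right j) d2 d1)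
  have : a * m * b = (a * (m * b * m⁻¹) * a⁻¹ * b⁻¹) * (b * (a * m)) := by group
  rw [this, d3, one_mul]

/-- the centraliser of `N / W` in `M` -/
def Cs (M W N : Subgroup G) (h : M ≤ Nm W) : Subgroup G where
  carrier := {m | m ∈ M ∧ ∀ n ∈ N, m * n * m⁻¹ * n⁻¹ ∈ W}
  one_mem' := ⟨one_mem _, fun n _ => by simp⟩
  mul_mem' := fun {a b} ha hb => ⟨mul_mem ha.1 hb.1, fun n hn => by
    have := mul_mem (cm (h ha.1) (hb.2 n hn)) (ha.2 n hn)
    convert this using 1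
    group⟩
  inv_mem' := fun {a} ha => ⟨inv_mem ha.1, fun n hn => by
    have := cm (h (inv_mem ha.1)) (inv_mem (ha.2 n hn))
    convert this using 1
    group⟩

theorem nm_Cs {M W N : Subgroup G} (h : M ≤ Nm W) (hN : M ≤ Nm N) : M ≤ Nm (Cs M W N h) := fun g hg =>
  mem_Nm_of_cj_le (by
    rintro _ ⟨m, hm, rfl⟩
    refine ⟨mul_mem (mul_mem hg hm.1) (inv_mem hg), fun n hn => ?_⟩
    have := cm (h hg) (hm.2 _ (cm (hN (inv_mem hg)) hn))
    convert this using 1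
    simp only [MulEquiv.toMonoidHom_eq_coe, MonoidHom.coe_coe, MulAut.conj_apply]
    group)

/-- the `P × Q` lemma in `M / W` -/
theorem le_Cs {p r : ℕ} (hp : p.Prime) (hr : r.Prime) (hrp : r ≠ p) {M W N Y : Subgroup G} {b : G}
    (h : Fr p M W N) (hb : b ∈ N) (ho : orderOf b = p) (hY : IsPGroup r Y) (hYM : Y ≤ M)
    (hYb : Y ≤ Cx b) (hn : M ⊓ Cx b ≤ Nm Y) : Y ≤ Cs M W N h.nw := by
  haveI : Fact p.Prime := ⟨hp⟩
  haveI nW : (W.subgroupOf M).Normal := (normal_subgroupOf_iff_le_normalizer (h.wn.trans h.nh)).2 h.nw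
  haveI nN : (N.subgroupOf M).Normal := (normal_subgroupOf_iff_le_normalizer h.nh).2 h.nn
  let φ := QuotientGroup.mk' (W.subgroupOf M)
  have k1 : ∀ x : M, φ x = 1 ↔ (x : G) ∈ W := fun x => QuotientGroup.eq_one_iff x
  have kc : ∀ x y : M, φ x * φ y = φ y * φ x ↔ (x : G) * y * (x : G)⁻¹ * (y : G)⁻¹ ∈ W := fun x y => by
    rw [← commutatorElement_eq_one_iff_mul_comm, ← map_commutatorElement, k1]
    rfl
  let b' : M := ⟨b, h.nh hb⟩
  haveI nU : ((N.subgroupOf M).map φ).Normal := nN.map φ (QuotientGroup.mk'_surjective _)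
  have b1 : b' ^ p = 1 := Subtype.ext (ho ▸ pow_orderOf_eq_one b)
  have key := S0028.result p (zpowers (φ b')) ((Y.subgroupOf M).map φ) ((N.subgroupOf M).map φ)
    (by
      rintro ⟨_, i, rfl⟩
      refine ⟨1, Subtype.ext ?_⟩
      simp only [pow_one, SubmonoidClass.coe_pow, OneMemClass.coe_one]
      rw [← zpow_natCast, ← zpow_mul, mul_comm, zpow_mul, zpow_natCast, ← map_pow, b1, map_one, one_zpow])
    (cop_of_pg hp hr hrp ((hY.comap_subtype).map φ))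
    (by
      rintro ⟨_, n, hn, rfl⟩
      obtain ⟨j, hj⟩ := h.pw n hn
      exact ⟨j, Subtype.ext (by
        simp only [SubmonoidClass.coe_pow, OneMemClass.coe_one]
        rw [← map_pow, k1]
        exact hj)⟩)
    (by
      rw [zpowers_le, mem_centralizer_iff]
      rintro _ ⟨y, hy, rfl⟩
      rw [← map_mul, ← map_mul]
      exact congrArg φ (Subtype.ext (mem_Cx.1 (hYb hy))))
    (by rw [normalizer_eq_top]; exact le_top) (by rw [normalizer_eq_top]; exact le_top)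
    (by
      rintro _ ⟨⟨n, hn', rfl⟩, hc⟩
      have c1 := (kc n b').1 ((mem_centralizer_iff.1 hc _ (mem_zpowers _)).symm)
      obtain ⟨a, ha, e⟩ := lift hp h hb ho n.2 c1
      have aM : a ∈ M := h.nh (h.wn ha)
      have e1 : φ n = φ (⟨a, aM⟩ * n) := by rw [map_mul, (k1 ⟨a, aM⟩).2 ha, one_mul]
      refine mem_centralizer_iff.2 ?_
      rintro _ ⟨y, hy, rfl⟩
      rw [e1]
      refine ((kc _ y).2 ?_).symm
      have an : a * n ∈ N := mul_mem (h.wn ha) hn'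
      refine (h.q_le hp hr hrp (hY.to_inf_left (K := N)) inf_le_right).1 (mem_inf.2 ⟨?_, ?_⟩)
      · have hy' : (y : G) ∈ Y := hy
        exact mul_mem (cm (hn ⟨h.nh an, e⟩) hy') (inv_mem hy')
      · have := mul_mem an (cm (h.nn y.2) (inv_mem an))
        convert this using 1
        simp only [coe_mul]
        group)
  intro y hy
  refine ⟨hYM hy, fun n hn' => (kc ⟨y, hYM hy⟩ ⟨n, h.nh hn'⟩).1 ?_⟩
  exact (mem_centralizer_iff.1 (key ⟨⟨y, hYM hy⟩, hy, rfl⟩) _ ⟨⟨n, h.nh hn'⟩, hn', rfl⟩).symm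

end ThetaA

open ThetaA in
theorem axb {p r : ℕ} (hp : p.Prime) (hr : r.Prime) (hrp : r ≠ p) {M W N Y : Subgroup G} {b : G}
    (h : Fr p M W N) (hb : b ∈ N) (ho : orderOf b = p) (hY : IsPGroup r Y) (hYM : Y ≤ M)
    (hYb : Y ≤ Cx b) (hn : M ⊓ Cx b ≤ Nm Y)
    (hW : ∀ s : ℕ, s.Prime → s ≠ r → Oq s W ≤ Ce Y) : Y ≤ Oq r M := by
  have WM : W ≤ M := h.wn.trans h.nh
  have nO : M ≤ Nm (Oq r M) := le_Nm_Oq r M
  have c1 : Y ≤ Cs M W N h.nw := le_Cs hp hr hrp h hb ho hY hYM hYb hn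
  have c2 : Oq r M ≤ Cs M W N h.nw := fun o ho' => ⟨Oq_le r M ho', fun n hn' => by
    refine (h.q_le hp hr hrp ((Oq_pgroup hr M).to_inf_left (K := N)) inf_le_right).1 (mem_inf.2 ⟨?_, ?_⟩)
    · have := mul_mem ho' (cm (nO (h.nh hn')) (inv_mem ho'))
      convert this using 1
      group
    · exact mul_mem (cm (h.nn (Oq_le r M ho')) hn') (inv_mem hn')⟩
  have c3 : W ≤ Nm (Y ⊔ Oq r M) := nil_le h.nil fun s hs _ => by
    by_cases e : s = r
    · subst e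
      exact ((Oq_le_of_Nm hs WM h.nw).trans le_sup_right).trans le_normalizer
    · exact (le_inf ((hW s hs e).trans (Ce_le_Nm Y)) (((Oq_le s W).trans WM).trans nO)).trans
        (Nm_inf_Nm_le_sup _ _)
  have c4 : Cs M W N h.nw ≤ Nm (Y ⊔ Oq r M) := fun m hm => by
    obtain ⟨a, ha, e⟩ := lift hp h hb ho hm.1 (hm.2 b hb)
    have am : a * m ∈ M := mul_mem (WM ha) hm.1
    exact (mul_mem_cancel_left (c3 ha)).1 (Nm_inf_Nm_le_sup _ _ ⟨hn ⟨am, e⟩, nO am⟩)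
  exact le_sup_left.trans ((le_Oq (pg_sup hr hY (Oq_pgroup hr M) (hYM.trans nO)) (sup_le c1 c2) c4).trans
    (Oq_le_of_Nm hr (fun _ hm => hm.1) (nm_Cs h.nw h.nn)))

end Cfsg.Agent.F2C
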