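import Cfsg.Agent.F2C.Defs
import Cfsg.Agent.F2C.CtxB
import Cfsg.Agent.F2C.ThetaA

set_option autoImplicit false

namespace Cfsg.Agent.F2C
open Subgroup

variable {G : Type*} [Group G] [Finite G]

omit [Finite G] in
theorem theta_ce_anti {A B : Subgroup G} (h : A ≤ B) : Ce B ≤ Ce A :=
  centralizer_le (fun _ ha => h ha)

omit [Finite G] in
theorem theta_comm_of_norm {s r : ℕ} (hs : s.Prime) (hr : r.Prime) (hsr : s ≠ r) {A Y : Subgroup G}
    (hA : IsPGroup s A) (hY : IsPGroup r Y) (h1 : A ≤ Nm Y) (h2 : Y ≤ Nm A) : A ≤ Ce Y := by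
  haveI := Fact.mk hs
  haveI := Fact.mk hr
  have hd : Disjoint A Y := IsPGroup.disjoint_of_ne s r hsr A Y hA hY
  intro a ha
  rw [mem_centralizer_iff]
  intro y hy
  have hy' : y ∈ Y := hy
  have e1 : a * y * a⁻¹ ∈ Y := (mem_normalizer_iff.mp (h1 ha) y).mp hy'
  have e2 : y * a⁻¹ * y⁻¹ ∈ A := (mem_normalizer_iff.mp (h2 hy') a⁻¹).mp (A.inv_mem ha)
  have m1 : a * y * a⁻¹ * y⁻¹ ∈ Y := Y.mul_mem e1 (Y.inv_mem hy')
  have m2 : a * y * a⁻¹ * y⁻¹ ∈ A := by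
    have := A.mul_mem ha e2
    simpa [mul_assoc] using this
  have h0 : a * y * a⁻¹ * y⁻¹ = 1 := (Subgroup.disjoint_def.mp hd) m2 m1
  have h3 : a * y = y * a := by
    calc a * y = (a * y * a⁻¹ * y⁻¹) * (y * a) := by group
      _ = y * a := by rw [h0, one_mul]
  exact h3.symm

theorem theta_pg_bot {p : ℕ} (hp : p.Prime) {U W : Subgroup G} (hU : IsPGroup p U) (hle : U ≤ W)
    (hc : (Nat.card W).Coprime p) : U = ⊥ := by
  haveI := Fact.mk hp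
  obtain ⟨k, hk⟩ := IsPGroup.iff_card.mp hU
  have hd : Nat.card U ∣ Nat.card W := card_dvd_of_le hle
  have h1 : (Nat.card U).Coprime p := Nat.Coprime.coprime_dvd_left hd hc
  have h2 : (Nat.card U).Coprime (p ^ k) := Nat.Coprime.pow_right k h1
  rw [← hk, Nat.coprime_self] at h2
  exact Subgroup.eq_bot_of_card_eq U h2

theorem Ctx.theta {p r : ℕ} {x g : G} (c : Ctx p x) (hr : r.Prime) (hrp : r ≠ p) {R M : Subgroup G}
    (hR : UQ r x R) (hne : R ≠ ⊥) (hM : IsCoatom M) (hle : Nm R ≤ M) (h1 : g * x * g⁻¹ ∈ M)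
    (h2 : g⁻¹ * x * g ∈ M) : g ∈ M := by
  have hp := c.hp
  have cb : Ctx p (g * x * g⁻¹) := c.cnj g
  have hMt : M ≠ ⊤ := hM.1
  have hM't : F2C.cj g M ≠ ⊤ := fun h => hMt (cj_eq_top.mp h)
  have hxM : x ∈ M := hle hR.1.2.1
  have hxM' : x ∈ F2C.cj g M := mem_cj.mpr h2
  have hbM' : g * x * g⁻¹ ∈ F2C.cj g M := mem_cj_conj.mpr hxM
  have hRM : R ≤ M := le_trans le_normalizer hle
  have hRO : R ≤ Oq r M := c.qq_le hr hrp hMt hxM hR.1 hRM
  have hOne : Oq r M ≠ ⊥ := fun h => hne (le_bot_iff.mp (h ▸ hRO))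
  have hNO : Nm (Oq r M) = M := by
    have a1 : M ≤ Nm (Oq r M) := le_Nm_Oq r M
    have a2 : Nm (Oq r M) ≠ ⊤ := c.Nm_ne' hr (Oq_pgroup hr M) hOne
    rcases eq_or_lt_of_le a1 with h | h
    · exact h.symm
    · exact absurd (hM.2 _ h) a2
  have hR' : UQ r (g * x * g⁻¹) (F2C.cj g R) := hR.cnj g
  have hNR' : Nm (F2C.cj g R) ≤ F2C.cj g M := by
    rw [← cj_Nm]; exact cj_mono g hle
  have hO'p : IsPGroup r (Oq r (F2C.cj g M)) := Oq_pgroup hr _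
  have hO'c : (Nat.card (Oq r (F2C.cj g M))).Coprime p := cop_of_pg hp hr hrp hO'p
  have hR'O' : F2C.cj g R ≤ Oq r (F2C.cj g M) := by
    rw [← cj_Oq]; exact cj_mono g hRO
  have hO'M : Oq r (F2C.cj g M) ≤ M := by
    have hxn : x ∈ Nm (Oq r (F2C.cj g M)) := le_Nm_Oq r _ hxM'
    refine le_of_decomp hp c.ord hO'c hxn ?_ ?_
    · exact le_trans (hR.2 _ (qq_comm hp hr hrp c.ord hO'p hxn)) hRM
    · exact le_trans inf_le_right (le_trans hR.Cx_le hle)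
  have hR'O : F2C.cj g R ≤ Oq r M := cb.qq_le hr hrp hMt h1 hR'.1 (le_trans hR'O' hO'M)
  have hCb : Cx (g * x * g⁻¹) ≤ F2C.cj g M := le_trans hR'.Cx_le hNR'
  have hCbY : Cx (g * x * g⁻¹) ≤ Nm (Oq r (F2C.cj g M) ⊓ Cx (g * x * g⁻¹)) :=
    le_trans (le_inf (le_trans hCb (le_Nm_Oq r _)) (Cx_le_Nm_Cx _)) (Nm_inf_Nm_le_inf _ _)
  have hYp : IsPGroup r ↥(Oq r (F2C.cj g M) ⊓ Cx (g * x * g⁻¹)) := hO'p.to_le inf_le_left
  have hYM : Oq r (F2C.cj g M) ⊓ Cx (g * x * g⁻¹) ≤ M := le_trans inf_le_left hO'M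
  obtain ⟨W, N, hF, hN⟩ := c.good M hMt
  have hbN : g * x * g⁻¹ ∈ N := hN _ h1 (isConj_iff.mpr ⟨g, rfl⟩)
  have hWM : W ≤ M := le_trans hF.wn hF.nh
  have hYO : Oq r (F2C.cj g M) ⊓ Cx (g * x * g⁻¹) ≤ Oq r M := by
    refine axb hp hr hrp hF hbN cb.ord hYp hYM inf_le_right (le_trans inf_le_right hCbY) ?_
    intro s hs hsr
    have hUp : IsPGroup s (Oq s W) := Oq_pgroup hs W
    by_cases hsp : s = p
    · subst hsp
      rw [theta_pg_bot hp hUp (Oq_le s W) hF.cop]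
      exact bot_le
    have hMU : M ≤ Nm (Oq s W) := le_trans hF.nw (Nm_le_Nm_Oq s W)
    have hbU : g * x * g⁻¹ ∈ Nm (Oq s W) := hMU h1
    refine le_of_decomp hp cb.ord (cop_of_pg hp hs hsp hUp) hbU ?_ ?_
    · have hD : QQ s (g * x * g⁻¹) ⁅Oq s W, zpowers (g * x * g⁻¹)⁆ :=
        qq_comm hp hs hsp cb.ord hUp hbU
      have d1 : ⁅Oq s W, zpowers (g * x * g⁻¹)⁆ ≤ Oq s W :=
        comm_le_left (zpowers_le.mpr hbU)
      have d2 : Oq s W ≤ Oq s M := Oq_le_of_Nm hs hWM hF.nw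
      have d3 : Oq s M ≤ F2C.cj g M :=
        le_trans (Oq_comm hs hr hsr M) (le_trans (theta_ce_anti hR'O) (le_trans (Ce_le_Nm _) hNR'))
      have d4 := cb.qq_le hs hsp hM't hbM' hD (le_trans d1 (le_trans d2 d3))
      exact le_trans d4 (le_trans (Oq_comm hs hr hsr _) (theta_ce_anti inf_le_left))
    · refine theta_comm_of_norm hs hr hsr (hUp.to_le inf_le_left) hYp
        (le_trans inf_le_right hCbY) ?_
      exact le_trans (le_inf (le_trans hYM hMU) (le_trans inf_le_right (Cx_le_Nm_Cx _)))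
        (Nm_inf_Nm_le_inf _ _)
  have hO'O : Oq r (F2C.cj g M) ≤ Oq r M := by
    have hbn : g * x * g⁻¹ ∈ Nm (Oq r (F2C.cj g M)) := le_Nm_Oq r _ hbM'
    refine le_of_decomp hp cb.ord hO'c hbn ?_ hYO
    exact le_trans (hR'.2 _ (qq_comm hp hr hrp cb.ord hO'p hbn)) hR'O
  rw [← cj_Oq] at hO'O
  have := mem_Nm_of_cj_le hO'O
  rwa [hNO] at this

theorem Ctx.theta_pg_le {p r : ℕ} {x : G} (c : Ctx p x) (hr : r.Prime) (hrp : r ≠ p)
    {R M : Subgroup G} (hR : UQ r x R) (hne : R ≠ ⊥) (hM : IsCoatom M) (hle : Nm R ≤ M)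
    {P : Subgroup G} (hP : IsPGroup p P) (hx : x ∈ P) : P ≤ M := by
  haveI := Fact.mk c.hp
  by_contra hn
  have hxM : x ∈ M := hle hR.1.2.1
  haveI : Group.IsNilpotent P := hP.isNilpotent
  have hlt : M.subgroupOf P < ⊤ := by
    rw [lt_top_iff_ne_top]
    intro h
    exact hn (subgroupOf_eq_top.mp h)
  have h2 := normalizerCondition_of_isNilpotent (G := P) (M.subgroupOf P) hlt
  obtain ⟨n, hn1, hn2⟩ := SetLike.exists_of_lt h2
  have hx0 : (⟨x, hx⟩ : P) ∈ M.subgroupOf P := mem_subgroupOf.mpr hxM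
  have e1 := (mem_normalizer_iff.mp hn1 ⟨x, hx⟩).mp hx0
  have e2 := (mem_normalizer_iff.mp (inv_mem hn1) ⟨x, hx⟩).mp hx0
  rw [mem_subgroupOf] at e1 e2 hn2
  refine hn2 (c.theta hr hrp hR hne hM hle ?_ ?_)
  · simpa using e1
  · simpa using e2

theorem Ctx.thetaP {p r : ℕ} {x g : G} (c : Ctx p x) (hr : r.Prime) (hrp : r ≠ p) {R M : Subgroup G}
    (hR : UQ r x R) (hne : R ≠ ⊥) (hM : IsCoatom M) (hle : Nm R ≤ M)
    (h : IsPGroup p (gen x (g * x * g⁻¹))) : g ∈ M := by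
  have m1 : x ∈ gen x (g * x * g⁻¹) := subset_closure (by simp)
  have m2 : g * x * g⁻¹ ∈ gen x (g * x * g⁻¹) := subset_closure (by simp)
  refine c.theta hr hrp hR hne hM hle (c.theta_pg_le hr hrp hR hne hM hle h m1 m2) ?_
  refine c.theta_pg_le hr hrp hR hne hM hle (pg_cj h g⁻¹) ?_ ?_
  · rw [mem_cj]; simpa using m2
  · rw [mem_cj]; simpa [mul_assoc] using m1

end Cfsg.Agent.F2C
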