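import Cfsg.Agent.F2C.Defs
import Cfsg.Agent.F2C.Theta
import Cfsg.Agent.F2C.Bary

set_option autoImplicit false

namespace Cfsg.Agent.F2C
open Subgroup

variable {G : Type*} [Group G] [Finite G]

theorem gam2_Ce_anti {A B : Subgroup G} (h : A ≤ B) : Ce B ≤ Ce A :=
  centralizer_le (SetLike.coe_subset_coe.2 h)

theorem gam2_le_of_cj {k : G} {D N : Subgroup G} (hk : k ∈ N) (h : cj k⁻¹ D ≤ N) : D ≤ N := by
  have := cj_mono k h
  rwa [cj_cj_inv, cj_eq_of_mem hk] at this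

theorem Ctx.gam2 {p q r : ℕ} {x z : G} (c : Ctx p x) (hq : q.Prime) (hqp : q ≠ p) (hr : r.Prime)
    (hrp : r ≠ p) (hqr : q ≠ r) {Q R : Subgroup G} (hQ : UQ q x Q) (hR : UQ r x R)
    (hQR : ¬ Q ≤ Ce R)
    (hs : ∀ (s : ℕ) (D : Subgroup G), s.Prime → s ≠ p → s ≠ q → QQ s x D → D ≤ Nm R)
    (ho : orderOf z = q) (hz : z ∈ Q ⊓ Ce Q) (hzx : z ∈ Cx x) (hzR : z ∉ Ce R)
    (ht : ∀ t ∈ Nm Q, PE q t → t ∈ Cx z) : False := by
  have hp := c.hp
  have hRne : R ≠ ⊥ := by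
    rintro rfl
    exact hzR (mem_centralizer_iff.2 fun h hh => by
      rw [SetLike.mem_coe, mem_bot] at hh
      rw [hh, one_mul, mul_one])
  obtain ⟨M, hM, hRM⟩ := (eq_top_or_exists_le_coatom (Nm R)).resolve_left
    (c.Nm_ne' hr hR.1.1 hRne)
  have hRN : R ≤ Nm R := le_normalizer
  have hxM : x ∈ M := hRM hR.1.2.1
  have hQM : ¬ Q ≤ M := fun h =>
    hQR (c.comm hq hqp hr hrp hqr hM.1 hxM hQ.1 hR.1 h (hRN.trans hRM))
  obtain ⟨k, hk, T, hT, hTR, hzT, hH⟩ :=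
    bary hp hq hr hrp hqr.symm c.ord ho hzx hR.1 (hR.Cx_le hzx) hzR
  have hkN : k ∈ Nm R := hRN hk
  have hxp : IsPGroup p (zpowers x) :=
    IsPGroup.of_card (n := 1) (by rw [Nat.card_zpowers, c.ord, pow_one])
  have hQc : (Nat.card Q).Coprime p := cop_of_pg hp hq hqp hQ.1.1
  have hPhi : Q ⊓ Cx x ≤ Phi Q := hQ.1.fix_le_Phi hp hq hqp c.ord
  have main : ∀ u ∈ Q, u ∉ M → u ∈ (Q ⊓ Ce T) ⊔ Phi Q := by
    intro u hu huM
    have hb : IsConj x (u * x * u⁻¹) := isConj_iff.2 ⟨u, rfl⟩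
    have hb' : IsConj x (k * x * k⁻¹) := isConj_iff.2 ⟨k, rfl⟩
    have ob : orderOf (u * x * u⁻¹) = p := (c.cnj u).ord
    have ob' : orderOf (k * x * k⁻¹) = p := (c.cnj k).ord
    obtain ⟨W, hWn, hWc, -, hbW, hbW', a, ha, hP⟩ := c.lemP hb hb'
    have hl : u⁻¹ * a * k ∈ M := by
      refine c.thetaP hr hrp hR hRne hM hRM ?_
      have := pg_cj hP u⁻¹
      rw [cj_gen] at this
      have e1 : u⁻¹ * (u * x * u⁻¹) * u⁻¹⁻¹ = x := by group
      have e2 : u⁻¹ * (a * (k * x * k⁻¹) * a⁻¹) * u⁻¹⁻¹ =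
          u⁻¹ * a * k * x * (u⁻¹ * a * k)⁻¹ := by group
      rwa [e1, e2] at this
    have hO : Oq q W ≠ ⊥ := by
      intro hO
      have hWR : W ≤ Nm R := by
        refine nil_decomp hp ob' hWn hWc hbW' (fun s hs' hsp => ?_) ?_
        · by_cases hsq : s = q
          · rw [hsq, hO, commutator_bot_left]
            exact bot_le
          · have h1 := (qq_comm hp hs' hsp ob' (Oq_pgroup hs' W) (Nm_le_Nm_Oq s W hbW')).cnj k⁻¹
            have e1 : k⁻¹ * (k * x * k⁻¹) * k⁻¹⁻¹ = x := by group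
            rw [e1] at h1
            exact gam2_le_of_cj hkN (hs s _ hs' hsp hsq h1)
        · refine inf_le_right.trans ?_
          rw [← cj_Cx]
          refine gam2_le_of_cj hkN ?_
          rw [cj_inv_cj]
          exact hR.Cx_le
      apply huM
      have h2 : u = a * k * (u⁻¹ * a * k)⁻¹ := by group
      rw [h2]
      exact M.mul_mem (M.mul_mem (hRM (hWR ha)) (hRM hkN)) (M.inv_mem hl)
    have hOp : IsPGroup q (Oq q W) := Oq_pgroup hq W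
    have hHne : Nm (Oq q W) ≠ ⊤ := c.Nm_ne' hq hOp hO
    have hbH : u * x * u⁻¹ ∈ Nm (Oq q W) := Nm_le_Nm_Oq q W hbW
    have hbH' : k * x * k⁻¹ ∈ Nm (Oq q W) := Nm_le_Nm_Oq q W hbW'
    have hQb : UQ q (u * x * u⁻¹) Q := by
      have := hQ.cnj u
      rwa [cj_eq_of_mem hu] at this
    have hON : Oq q W ≤ Nm Q := by
      refine le_of_decomp hp ob (cop_of_pg hp hq hqp hOp) hbH ?_ (inf_le_right.trans hQb.Cx_le)
      exact (hQb.2 _ (qq_comm hp hq hqp ob hOp hbH)).trans le_normalizer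
    have hzH : z ∈ Nm (Oq q W) := by
      refine Ce_le_Nm _ (mem_centralizer_iff.2 fun t ht' => ?_)
      refine mem_Cx.1 (ht t (hON ht') ?_)
      obtain ⟨n, hn⟩ := hOp ⟨t, ht'⟩
      exact ⟨n, congrArg Subtype.val hn⟩
    obtain ⟨hxH, hTH⟩ := hH _ hbH' hzH
    obtain ⟨k0, hk0, v, hv, w, hw, e⟩ := cov hp hxp hQc (zpowers_le.2 hQ.1.2.1)
      (mem_zpowers x) (mem_zpowers x) hu
    have h3 : gen x (u * x * u⁻¹) ⊓ Q ≤ Oq q (Nm (Oq q W)) :=
      c.gen_le hq hqp hHne (IsConj.refl x) hb hxH hbH (hQ.1.1.to_le inf_le_right) inf_le_left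
    have h4 : T ≤ Oq r (Nm (Oq q W)) := c.qq_le hr hrp hHne hxH hT hTH
    have h5 : k0 ∈ Ce T := gam2_Ce_anti h4 (Oq_comm hq hr hqr _ (h3 hk0))
    rw [e]
    exact mul_mem (mul_mem (mem_sup_left ⟨hk0.2, h5⟩) (mem_sup_right (hPhi hv)))
      (mem_sup_right (hPhi hw))
  obtain ⟨u0, hu0, hu0M⟩ := SetLike.not_le_iff_exists.1 hQM
  have hall : Q ≤ (Q ⊓ Ce T) ⊔ Phi Q := by
    intro u hu
    by_cases huM : u ∈ M
    · have h1 : u * u0 ∉ M := fun h => hu0M ((M.mul_mem_cancel_left huM).1 h)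
      have h2 : u = u * u0 * u0⁻¹ := by group
      rw [h2]
      exact mul_mem (main _ (Q.mul_mem hu hu0) h1) (inv_mem (main _ hu0 hu0M))
    · exact main u hu huM
  have h6 : Q ⊓ Ce T = Q := eq_of_sup_Phi inf_le_left hall
  have h7 : z ∈ Q ⊓ Ce T := by rw [h6]; exact hz.1
  exact hzT h7.2

end Cfsg.Agent.F2C
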