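import Cfsg.Agent.F2C.Defs
import Cfsg.Agent.F2C.Oq
import Cfsg.Agent.F2C.Cj
import Cfsg.Agent.H49.Core

set_option autoImplicit false

namespace Cfsg.Agent.F2C
open Subgroup

variable {G : Type*} [Group G] [Finite G]

theorem Tr1.nm_of {A : Subgroup G} {g : G} (h : ∀ a ∈ A, g * a * g⁻¹ ∈ A) : g ∈ Nm A :=
  mem_normalizer_fintype h

theorem Tr1.conj {G : Type*} [Group G] {A : Subgroup G} {g a : G} (h : g ∈ Nm A) (ha : a ∈ A) :
    g * a * g⁻¹ ∈ A := (mem_normalizer_iff.1 h a).1 ha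

theorem fr_of_nil {p : ℕ} (hp : p.Prime) {H W N : Subgroup G} (wn : W ≤ N) (nh : N ≤ H)
    (nw : H ≤ Nm W) (nn : H ≤ Nm N) (nil : Group.IsNilpotent W)
    (pw : ∀ g ∈ N, ∃ k : ℕ, g ^ p ^ k ∈ W) : ∃ W', Fr p H W' N := by
  refine ⟨piCoreOf {p}ᶜ W, (H49.piCoreOf_le _ W).trans wn, nh, H49.norm_piCoreOf _ nw, nn,
    H49.nilpotent_of_le nil (H49.piCoreOf_le _ W), ?_, fun g hg => ?_⟩
  · exact ((Nat.Prime.coprime_iff_not_dvd hp).2
      ((H49.isPiNat_compl_singleton hp).1 (H49.piCoreOf_pi {p}ᶜ W))).symm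
  · obtain ⟨k, hk⟩ := pw g hg
    obtain ⟨e, m, hm, he⟩ := Nat.exists_eq_pow_mul_and_not_dvd (orderOf_pos (g ^ p ^ k)).ne' p hp.one_lt.ne'
    refine ⟨k + e, ?_⟩
    rw [pow_add, pow_mul]
    have h1 : orderOf ((g ^ p ^ k) ^ p ^ e) ∣ m := orderOf_dvd_of_pow_eq_one (by
      rw [← pow_mul, ← he, pow_orderOf_eq_one])
    refine H49.le_piCoreOf_of_hall (H49.nilpotent_hall_piCoreOf nil {p}ᶜ) (zpowers_le.2 (pow_mem hk _))
      (H49.isPi_zpowers.2 ((H49.isPiNat_compl_singleton hp).2 fun k => hm (k.trans h1))) (mem_zpowers _)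

theorem Good.mono {p : ℕ} {K H : Subgroup G} {x : G} (h : Good p K x) (hle : H ≤ K) (hx : x ∈ H) :
    Good p H x := by
  obtain ⟨W, N, f, hN⟩ := h
  refine ⟨W ⊓ H, N ⊓ H, ⟨inf_le_inf_right _ f.wn, inf_le_right, fun g hg => Tr1.nm_of fun a ha => ?_,
    fun g hg => Tr1.nm_of fun a ha => ?_, H49.nilpotent_of_le f.nil inf_le_left,
    f.cop.coprime_dvd_left (card_dvd_of_le inf_le_left), fun g hg => ?_⟩, hN, hx⟩
  · exact ⟨Tr1.conj (f.nw (hle hg)) ha.1, H.mul_mem (H.mul_mem hg ha.2) (H.inv_mem hg)⟩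
  · exact ⟨Tr1.conj (f.nn (hle hg)) ha.1, H.mul_mem (H.mul_mem hg ha.2) (H.inv_mem hg)⟩
  · obtain ⟨k, hk⟩ := f.pw g hg.1
    exact ⟨k, hk, pow_mem hg.2 _⟩

theorem Good.pow {p : ℕ} {H : Subgroup G} {x : G} (h : Good p H x) (n : ℕ) : Good p H (x ^ n) := by
  obtain ⟨W, N, f, hN⟩ := h
  exact ⟨W, N, f, pow_mem hN n⟩

theorem Good.map {G' : Type*} [Group G'] [Finite G'] {p : ℕ} {H : Subgroup G} {x : G}
    (h : Good p H x) (f : G →* G') : Good p (H.map f) (f x) := by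
  obtain ⟨W, N, r, hN⟩ := h
  have key : ∀ A : Subgroup G, H ≤ Nm A → H.map f ≤ Nm (A.map f) := fun A hA => by
    rintro _ ⟨g, hg, rfl⟩
    refine Tr1.nm_of ?_
    rintro _ ⟨a, ha, rfl⟩
    exact ⟨g * a * g⁻¹, Tr1.conj (hA hg) ha, by simp⟩
  refine ⟨W.map f, N.map f, ⟨map_mono r.wn, map_mono r.nh, key W r.nw, key N r.nn,
    H49.nilpotent_map r.nil f, r.cop.coprime_dvd_left (card_map_dvd W f), ?_⟩, x, hN, rfl⟩
  rintro _ ⟨g, hg, rfl⟩
  obtain ⟨k, hk⟩ := r.pw g hg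
  exact ⟨k, g ^ p ^ k, hk, map_pow _ _ _⟩

theorem Good.of_map {G' : Type*} [Group G'] [Finite G'] {p : ℕ} {H : Subgroup G} {x : G}
    (f : G →* G') (hf : Function.Injective f) (h : Good p (H.map f) (f x)) : Good p H x := by
  obtain ⟨W, N, r, hN⟩ := h
  have key : ∀ A : Subgroup G', H.map f ≤ Nm A → H ≤ Nm (A.comap f) := fun A hA g hg => by
    refine Tr1.nm_of fun a ha => ?_
    rw [mem_comap, map_mul, map_mul, map_inv]
    exact Tr1.conj (hA ⟨g, hg, rfl⟩) ha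
  have hW : (W.comap f).map f ≤ W := map_comap_le f W
  refine ⟨W.comap f, N.comap f, ⟨comap_mono r.wn, fun g hg => (mem_map_iff_mem hf).1 (r.nh hg), key W r.nw,
    key N r.nn, (H49.nilpotent_map_iff hf).1 (H49.nilpotent_of_le r.nil hW),
    r.cop.coprime_dvd_left ?_, fun g hg => ?_⟩, hN⟩
  · rw [← card_map_of_injective hf]
    exact card_dvd_of_le hW
  · obtain ⟨k, hk⟩ := r.pw (f g) hg
    exact ⟨k, by rwa [mem_comap, map_pow]⟩

theorem Good.cnj {p : ℕ} {H : Subgroup G} {x : G} (h : Good p H x) (g : G) :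
    Good p (cj g H) (g * x * g⁻¹) := h.map (MulAut.conj g).toMonoidHom

end Cfsg.Agent.F2C
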