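import Cfsg.Agent.F2C.Defs
import Cfsg.Agent.F2C.Tr1
import Cfsg.Agent.F2C.Cop

set_option autoImplicit false
set_option linter.unusedSectionVars false

namespace Cfsg.Agent.F2C
open Subgroup

variable {G : Type*} [Group G] [Finite G]

namespace SolA

omit [Finite G] in
theorem top_of {x : G} (hn : normalClosure ({x} : Set G) = ⊤) {Q : Type*} [Group Q] {f : G →* Q}
    (hf : Function.Surjective f) (K : Subgroup Q) (hK : K.Normal) (hx : f x ∈ K) : K = ⊤ := by
  have := hK.comap f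
  refine comap_injective hf ?_
  rw [comap_top, eq_top_iff, ← hn]
  exact normalClosure_le_normal (Set.singleton_subset_iff.2 hx)

theorem cen {p r : ℕ} (hp : p.Prime) [hr : Fact r.Prime] (h : r ≠ p) {y : G} (hy : PE p y)
    (hn : ∀ K : Subgroup G, K.Normal → y ∈ K → K = ⊤) (P : Sylow r G) [(P : Subgroup G).Normal]
    (hc : y ∈ Ce (P : Subgroup G)) : (P : Subgroup G) = ⊥ := by
  have hP : normalizer (P : Set G) ≤ centralizer (P : Set G) :=
    le_top.trans (hn (Ce (P : Subgroup G)) inferInstance hc).ge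
  have k := MonoidHom.ker_transferSylow_isComplement' P hP
  rw [hn (MonoidHom.transferSylow P hP).ker inferInstance ?_] at k
  · exact isComplement'_top_left.1 k
  · obtain ⟨a, ha⟩ := hy
    obtain ⟨b, hb⟩ := P.2 (MonoidHom.transferSylow P hP y)
    have h1 : MonoidHom.transferSylow P hP y ^ p ^ a = 1 := by
      have := congrArg (MonoidHom.transferSylow P hP) ha
      rwa [map_pow, map_one] at this
    exact orderOf_eq_one_iff.1 (Nat.eq_one_of_dvd_coprimes
      (Nat.coprime_pow_primes b a hr.out hp h) (orderOf_dvd_of_pow_eq_one hb) (orderOf_dvd_of_pow_eq_one h1))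

theorem syl_le {p r : ℕ} (hp : p.Prime) [hr : Fact r.Prime] (h : r ≠ p) {x : G} (hx : PE p x)
    (hn : normalClosure ({x} : Set G) = ⊤) (V : Subgroup G) [V.Normal] (hc : V ≤ Ce V) (R : Sylow r G)
    [hA : ((R : Subgroup G) ⊔ V).Normal]
    (H : ∀ ρ ∈ (R : Subgroup G), ∀ n ∈ Nm (R : Subgroup G), x * n⁻¹ ∈ V → ρ * n * ρ⁻¹ * n⁻¹ ∈ Ce V) :
    (R : Subgroup G) ≤ Ce V := by
  have e := Sylow.normalizer_sup_eq_top' R (N := (R : Subgroup G) ⊔ V) le_sup_left
  have hx' : x ∈ V ⊔ Nm (R : Subgroup G) := by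
    refine (show ⊤ ≤ _ from e.ge.trans (sup_le le_sup_right (sup_le (le_sup_of_le_right le_normalizer) le_sup_left)))
      (mem_top x)
  obtain ⟨v, hv, n, hn', e1⟩ := mem_sup_of_normal_left.1 hx'
  have hv' : x * n⁻¹ ∈ V := by rwa [← e1, mul_inv_cancel_right]
  let σ := QuotientGroup.mk' (Ce V)
  have hσ : Function.Surjective σ := QuotientGroup.mk'_surjective _
  have k1 : ∀ g, σ g = 1 ↔ g ∈ Ce V := fun g => QuotientGroup.eq_one_iff g
  have e2 : ((R.mapSurjective hσ : Sylow r _) : Subgroup _) = ((R : Subgroup G) ⊔ V).map σ := by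
    rw [Sylow.coe_mapSurjective, Subgroup.map_sup, (Subgroup.map_eq_bot_iff V).2 (fun g hg => (k1 g).2 (hc hg)), sup_bot_eq]
  have : ((R.mapSurjective hσ : Sylow r (G ⧸ Ce V)) : Subgroup (G ⧸ Ce V)).Normal := e2 ▸ hA.map σ hσ
  have k := cen hp h (y := σ x) (by
    obtain ⟨a, ha⟩ := hx
    exact ⟨a, by rw [← map_pow, ha, map_one]⟩) (top_of hn hσ) (R.mapSurjective hσ) (by
    rintro _ ⟨ρ, hρ, rfl⟩
    have a1 := (k1 _).2 (H ρ hρ n hn' hv')
    have a2 := (k1 _).2 (hc hv')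
    simp only [map_mul, map_inv] at a1 a2
    rw [mul_inv_eq_one.1 a2, ← mul_inv_eq_one, mul_inv_rev, ← mul_assoc]
    exact a1)
  rw [Sylow.coe_mapSurjective, Subgroup.map_eq_bot_iff] at k
  exact fun g hg => (k1 g).1 (k hg)

theorem syl_normal {s : ℕ} {H : Subgroup G} (P : Sylow s H) {D : Subgroup G} (hD : D.Normal) (hs : IsPGroup s D)
    (h : (P : Subgroup H).map H.subtype ≤ D) : (P : Subgroup H).Normal := by
  rw [← P.is_maximal' (hs.comap_subtype (K := H)) (map_le_iff_le_comap.1 h)]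
  exact hD.comap _

theorem nrm {K : Subgroup G} (h : ⊤ ≤ Nm K) : K.Normal := normalizer_eq_top_iff.1 (top_le_iff.1 h)

theorem nrm_Oq (s : ℕ) {K : Subgroup G} (h : K.Normal) : (Oq s K).Normal :=
  nrm ((normalizer_eq_top_iff.2 h).ge.trans (Nm_le_Nm_Oq s K))

end SolA

theorem solA {p q : ℕ} (hp : p.Prime) (hq : q.Prime) {x : G} (hx : PE p x)
    (hn : normalClosure ({x} : Set G) = ⊤) (V : Subgroup G) [V.Normal] (hV : IsPGroup q V)
    (hc : V ≤ Ce V) (hmin : ∀ U : Subgroup G, U.Normal → U ≤ V → U = ⊥ ∨ U = V)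
    (hg : Good p (⊤ : Subgroup (G ⧸ V)) (QuotientGroup.mk' V x)) (hno : ¬ Good p ⊤ x) :
    ∃ (r : ℕ) (R : Subgroup G) (ρ n : G), r.Prime ∧ r ≠ p ∧ r ≠ q ∧ IsPGroup r R ∧ ρ ∈ R ∧
      n ∈ Nm R ∧ x * n⁻¹ ∈ V ∧ ρ * n * ρ⁻¹ * n⁻¹ ∉ Ce V := by
  by_contra H
  apply hno
  obtain ⟨W, N, fr, hxN⟩ := hg
  let π := QuotientGroup.mk' V
  have hπ : Function.Surjective π := QuotientGroup.mk'_surjective _
  have kπ : π.ker = V := QuotientGroup.ker_mk' V
  obtain rfl : N = ⊤ := SolA.top_of hn hπ N (SolA.nrm fr.nn) hxN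
  have nW : W.Normal := SolA.nrm fr.nw
  have nW1 : (W.comap π).Normal := nW.comap π
  -- Sylow subgroups for primes other than `p` and `q` centralise `V`
  have c1 : ∀ r : ℕ, r.Prime → r ≠ p → r ≠ q → ∀ U : Subgroup G, IsPGroup r U → U ≤ Ce V := by
    intro r hr rp rq U hU
    have := Fact.mk hr
    obtain ⟨R, hR⟩ := hU.exists_le_sylow
    have e : Oq r ⊤ = (R : Subgroup G).map π :=
      (R.mapSurjective hπ).is_maximal' (Oq_pgroup hr ⊤) (fr.q_le hp hr rp (R.2.map π) le_top).2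
    have : ((R : Subgroup G) ⊔ V).Normal := by
      rw [← kπ, ← comap_map_eq, ← e]
      exact (SolA.nrm_Oq r inferInstance).comap π
    refine hR.trans (SolA.syl_le hp rp hx hn V hc R fun ρ hρ n h1 h2 => ?_)
    by_contra h3
    exact H ⟨r, R, ρ, n, hr, rp, rq, R.2, hρ, h1, h2, h3⟩
  have nB : Group.IsNilpotent ↥(W.comap π ⊓ Ce V) := by
    have := fr.nil
    refine Subgroup.isNilpotent_of_ker_le_center
      ((π.comp (W.comap π ⊓ Ce V).subtype).codRestrict W fun g => g.2.1) fun g hg => ?_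
    have : (g : G) ∈ V := kπ.le (congrArg Subtype.val hg)
    exact mem_center_iff.2 fun a => Subtype.ext (a.2.2 g this).symm
  have nil : Group.IsNilpotent (W.comap π) := by
    refine (Group.isNilpotent_of_finite_tfae.out 0 3).2 ?_
    intro s hs P
    have hP : IsPGroup s ((P : Subgroup (W.comap π)).map (W.comap π).subtype) := P.2.map _
    have le1 := map_subtype_le (H := W.comap π) (P : Subgroup (W.comap π))
    have le2 := map_le_iff_le_comap.2 le1
    by_cases sq : s = q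
    · subst sq
      exact SolA.syl_normal P ((SolA.nrm_Oq s nW).comap π)
        ((Oq_pgroup hq W).comap_of_ker_isPGroup π (kπ.symm ▸ hV))
        (map_le_iff_le_comap.1 (nil_le_Oq hq fr.nil (hP.map π) le2))
    refine SolA.syl_normal P (SolA.nrm_Oq s (K := W.comap π ⊓ Ce V) inferInstance) (Oq_pgroup hs.out _)
      (nil_le_Oq hs.out nB hP (le_inf le1 ?_))
    by_cases sp : s = p
    · subst sp
      refine le_trans ?_ (kπ.le.trans hc)
      rw [← Subgroup.map_eq_bot_iff]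
      obtain ⟨k, hk⟩ := (hP.map π).exists_card_eq
      refine eq_bot_of_card_eq _ (Nat.eq_one_of_dvd_coprimes (fr.cop.pow_right k) (card_dvd_of_le le2) hk.dvd)
    · exact c1 s hs.out sp sq _ hP
  obtain ⟨W', h⟩ := fr_of_nil hp (H := ⊤) (N := ⊤) le_top le_rfl (normalizer_eq_top_iff.2 nW1).ge le_normalizer nil
    fun g _ => by
      obtain ⟨k, hk⟩ := fr.pw (π g) (mem_top _)
      exact ⟨k, by rwa [mem_comap, map_pow]⟩
  exact ⟨W', ⊤, h, mem_top x⟩

end Cfsg.Agent.F2C
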