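import Cfsg.Agent.F2C.Defs
import Cfsg.Agent.F2C.Cop

set_option autoImplicit false

namespace Cfsg.Agent.F2C
open Subgroup

variable {G : Type*} [Group G] [Finite G]

namespace SolB

omit [Finite G] in
theorem mem_of_cop {K : Subgroup G} {g : G} {a b : ℕ} (hab : a.Coprime b) (ha : g ^ a ∈ K)
    (hb : g ^ b ∈ K) : g ∈ K := by
  have h := Nat.gcd_eq_gcd_ab a b
  rw [hab.gcd_eq_one] at h
  have e : g = (g ^ a) ^ (Nat.gcdA a b) * (g ^ b) ^ (Nat.gcdB a b) := by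
    rw [← zpow_natCast, ← zpow_natCast, ← zpow_mul, ← zpow_mul, ← zpow_add, ← h]
    simp
  rw [e]
  exact K.mul_mem (K.zpow_mem ha _) (K.zpow_mem hb _)

theorem conj_into {r : ℕ} (hr : r.Prime) {T A B : Subgroup G} (hA : IsPGroup r A)
    (hB : IsPGroup r B) (hBT : B ≤ T) (hAT : A ≤ T)
    (hmax : ∀ U : Subgroup G, IsPGroup r U → B ≤ U → U ≤ T → U ≤ B) :
    ∃ t ∈ T, ∀ a ∈ A, t * a * t⁻¹ ∈ B := by
  haveI := Fact.mk hr
  have hA' : IsPGroup r (A.subgroupOf T) := hA.comap_subtype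
  have hB' : IsPGroup r (B.subgroupOf T) := hB.comap_subtype
  obtain ⟨P, hP⟩ := hA'.exists_le_sylow
  obtain ⟨Q, hQ⟩ := hB'.exists_le_sylow
  obtain ⟨t, ht⟩ := MulAction.exists_smul_eq T P Q
  refine ⟨t, t.2, fun a ha => ?_⟩
  have hU : (Q : Subgroup T).map T.subtype ≤ B := by
    refine hmax _ (Q.isPGroup'.map _) ?_ (map_subtype_le _)
    intro b hb
    exact ⟨⟨b, hBT hb⟩, hQ (by simpa [mem_subgroupOf] using hb), rfl⟩
  have h1 : (⟨a, hAT ha⟩ : T) ∈ (P : Subgroup T) := hP (by simpa [mem_subgroupOf] using ha)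
  have h2 : t * ⟨a, hAT ha⟩ * t⁻¹ ∈ (Q : Subgroup T) := by
    rw [← ht, Sylow.coe_subgroup_smul]
    exact smul_mem_pointwise_smul _ _ _ h1
  exact hU ⟨_, h2, rfl⟩

omit [Finite G] in
theorem pg_zpowers {r k : ℕ} {g : G} (h : g ^ r ^ k = 1) : IsPGroup r (zpowers g) := by
  rintro ⟨_, i, rfl⟩
  refine ⟨k, Subtype.ext ?_⟩
  show (g ^ i) ^ r ^ k = 1
  rw [← zpow_natCast, ← zpow_mul, mul_comm, zpow_mul, zpow_natCast, h, one_zpow]

end SolB

open scoped commutatorElement in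
theorem solB1 {p q r : ℕ} (hp : p.Prime) (hq : q.Prime) (hr : r.Prime) (hrp : r ≠ p) (hrq : r ≠ q)
    (V : Subgroup G) [V.Normal] (hV : IsPGroup q V) (hc : V ≤ Ce V) {R₁ : Subgroup G} {x y ρ n : G}
    (hR : IsPGroup r R₁) (hρ : ρ ∈ R₁) (hn : n ∈ Nm R₁) (hle : R₁ ≤ gen n ρ) (hx : x * n⁻¹ ∈ V)
    (hy : y * ρ⁻¹ ∈ V) (h : Good p (gen x y) x) :
    ∃ w ∈ V, w⁻¹ * x * w * n⁻¹ ∈ V ⊓ Ce ⁅R₁, zpowers n⁆ ∧ w⁻¹ * y * w * ρ⁻¹ ∈ V ⊓ Ce ⁅R₁, zpowers n⁆ := by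
  haveI := Fact.mk hr
  haveI := Fact.mk hq
  have hVn : V.Normal := inferInstance
  obtain ⟨W, N, hF, hxN⟩ := h
  set R0 : Subgroup G := ⁅R₁, zpowers n⁆ with hR0
  set H : Subgroup G := gen x y with hH
  have hxH : x ∈ H := subset_closure (by simp)
  have hyH : y ∈ H := subset_closure (by simp)
  have hR0le : R0 ≤ R₁ := comm_le_left (by simpa using hn)
  have hR0p : IsPGroup r R0 := hR.to_le hR0le
  have hnN : n ∈ Nm R0 := Nm_inf_Nm_le_comm _ _ ⟨hn, le_normalizer (mem_zpowers n)⟩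
  have hρN : ρ ∈ Nm R0 := le_Nm_comm _ _ hρ
  have hNV : ∀ g : G, g ∈ Nm V := fun g => by
    rw [show Nm V = ⊤ from normalizer_eq_top V]; trivial
  set T : Subgroup G := R0 ⊔ V with hT
  have hVT : V ≤ T := le_sup_right
  have hRT : R0 ≤ T := le_sup_left
  have hxT : x ∈ Nm T := by
    have e : x = x * n⁻¹ * n := by group
    rw [e]
    exact (Nm T).mul_mem (le_normalizer (hVT hx)) (Nm_inf_Nm_le_sup _ _ ⟨hnN, hNV n⟩)
  have hyT : y ∈ Nm T := by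
    have e : y = y * ρ⁻¹ * ρ := by group
    rw [e]
    exact (Nm T).mul_mem (le_normalizer (hVT hy)) (Nm_inf_Nm_le_sup _ _ ⟨hρN, hNV ρ⟩)
  have hHT : H ≤ Nm T := by
    rw [hH, gen, closure_le]
    rintro g (rfl | rfl)
    · exact hxT
    · exact hyT
  set A : Subgroup G := Oq r H ⊓ T with hA
  have hAp : IsPGroup r A := (Oq_pgroup hr H).to_le inf_le_left
  have hHA : H ≤ Nm A := fun g hg => Nm_inf_Nm_le_inf _ _ ⟨le_Nm_Oq r H hg, hHT hg⟩
  have hdis : ∀ U : Subgroup G, IsPGroup r U → ∀ g ∈ U, g ∈ V → g = 1 := by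
    intro U hU g h1 h2
    exact disjoint_def.mp (IsPGroup.disjoint_of_ne r q hrq U V hU hV) h1 h2
  -- elements of `N ⊓ T`
  have hNT : ∀ g ∈ N, g ∈ T → g ∈ A ⊔ V := by
    intro g hgN hgT
    obtain ⟨s, hs, v, hv, e⟩ := mem_sup_of_normal_right.mp hgT
    obtain ⟨k, hk⟩ := hR0p ⟨s, hs⟩
    have hk' : s ^ r ^ k = 1 := by simpa using congrArg Subtype.val hk
    have h1 : g ^ r ^ k ∈ V := by
      rw [← QuotientGroup.eq_one_iff, ← e, QuotientGroup.mk_pow, QuotientGroup.mk_mul,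
        (QuotientGroup.eq_one_iff v).mpr hv, mul_one, ← QuotientGroup.mk_pow, hk']
      rfl
    obtain ⟨l, hl⟩ := hV ⟨_, h1⟩
    have hl' : (g ^ q ^ l) ^ r ^ k = 1 := by
      rw [← pow_mul, mul_comm, pow_mul]
      simpa using congrArg Subtype.val hl
    have h2 : g ^ q ^ l ∈ A := by
      refine ⟨?_, T.pow_mem hgT _⟩
      exact (hF.q_le hp hr hrp (SolB.pg_zpowers hl')
        (by simpa using N.pow_mem hgN _)).2 (mem_zpowers _)
    have hcop : (q ^ l).Coprime (r ^ k) :=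
      Nat.Coprime.pow _ _ ((Nat.coprime_primes hq hr).mpr hrq.symm)
    exact SolB.mem_of_cop hcop (mem_sup_left h2) (mem_sup_right h1)
  have hKH : gen n ρ ≤ H ⊔ V := by
    rw [gen, closure_le]
    rintro g (rfl | rfl)
    · have e : g = (x * g⁻¹)⁻¹ * x := by group
      rw [SetLike.mem_coe, e]
      exact (H ⊔ V).mul_mem (mem_sup_right (V.inv_mem hx)) (mem_sup_left hxH)
    · have e : g = (y * g⁻¹)⁻¹ * y := by group
      rw [SetLike.mem_coe, e]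
      exact (H ⊔ V).mul_mem (mem_sup_right (V.inv_mem hy)) (mem_sup_left hyH)
  have hxn : (x : G ⧸ V) = (n : G ⧸ V) := by
    rw [← mul_inv_eq_one, ← QuotientGroup.mk_inv, ← QuotientGroup.mk_mul, QuotientGroup.eq_one_iff]
    exact hx
  have hRA : R0 ≤ A ⊔ V := by
    rw [hR0, commutator_le]
    rintro s hs _ ⟨i, rfl⟩
    have hc0 : ⁅s, n ^ i⁆ ∈ R0 := commutator_mem_commutator hs (zpow_mem_zpowers n i)
    obtain ⟨a, ha, v, hv, e⟩ := mem_sup_of_normal_right.mp (hKH (hle hs))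
    have hsa : (s : G ⧸ V) = (a : G ⧸ V) := by
      rw [← e, QuotientGroup.mk_mul, (QuotientGroup.eq_one_iff v).mpr hv, mul_one]
    have h1 : ⁅a, x ^ i⁆⁻¹ * ⁅s, n ^ i⁆ ∈ V := by
      rw [← QuotientGroup.eq]
      simp only [commutatorElement_def, QuotientGroup.mk_mul, QuotientGroup.mk_inv,
        QuotientGroup.mk_zpow, hsa, hxn]
    have h2 : ⁅a, x ^ i⁆ ∈ N := by
      rw [commutatorElement_def]
      refine N.mul_mem ?_ (N.inv_mem (N.zpow_mem hxN i))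
      exact (mem_normalizer_iff.mp (hF.nn ha) _).mp (N.zpow_mem hxN i)
    have h3 : ⁅a, x ^ i⁆ ∈ T := by
      have e2 : ⁅a, x ^ i⁆ = ⁅s, n ^ i⁆ * (⁅a, x ^ i⁆⁻¹ * ⁅s, n ^ i⁆)⁻¹ := by group
      rw [e2]
      exact T.mul_mem (hRT hc0) (T.inv_mem (hVT h1))
    have e3 : ⁅s, n ^ i⁆ = ⁅a, x ^ i⁆ * (⁅a, x ^ i⁆⁻¹ * ⁅s, n ^ i⁆) := by group
    show ⁅s, n ^ i⁆ ∈ A ⊔ V
    rw [e3]
    exact (A ⊔ V).mul_mem (hNT _ h2 h3) (mem_sup_right h1)
  have hTA : T ≤ A ⊔ V := sup_le hRA le_sup_right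
  obtain ⟨t, ht, htA⟩ := SolB.conj_into hr hAp hR0p hRT inf_le_right (by
    intro U hU h1 h2 u hu
    obtain ⟨s, hs, v, hv, e⟩ := mem_sup_of_normal_right.mp (h2 hu)
    have : v = 1 := by
      refine hdis U hU v ?_ hv
      have e2 : v = s⁻¹ * u := by rw [← e]; group
      rw [e2]
      exact U.mul_mem (U.inv_mem (h1 hs)) hu
    rw [← e, this, mul_one]
    exact hs)
  obtain ⟨s, hs, u, hu, e⟩ := mem_sup_of_normal_right.mp ht
  have huA : ∀ a ∈ A, u * a * u⁻¹ ∈ R0 := by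
    intro a ha
    have e2 : u * a * u⁻¹ = s⁻¹ * (t * a * t⁻¹) * s := by rw [← e]; group
    rw [e2]
    exact R0.mul_mem (R0.mul_mem (R0.inv_mem hs) (htA a ha)) hs
  have hcj : cj u A = R0 := by
    apply le_antisymm
    · intro g hg
      have := huA _ (mem_cj.mp hg)
      simpa [mul_assoc] using this
    · intro b hb
      rw [mem_cj]
      have h1 : u⁻¹ * b * u ∈ T := T.mul_mem (T.mul_mem (T.inv_mem (hVT hu)) (hRT hb)) (hVT hu)
      obtain ⟨a, ha, v, hv, e2⟩ := mem_sup_of_normal_right.mp (hTA h1)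
      have h2 : u * v * u⁻¹ = 1 := by
        refine hdis R0 hR0p _ ?_ (hVn.conj_mem v hv u)
        have e3 : u * v * u⁻¹ = (u * a * u⁻¹)⁻¹ * b := by
          have : v = a⁻¹ * (u⁻¹ * b * u) := by rw [← e2]; group
          rw [this]; group
        rw [e3]
        exact R0.mul_mem (R0.inv_mem (huA a ha)) hb
      have h3 : v = 1 := by
        have : v = u⁻¹ * (u * v * u⁻¹) * u := by group
        rw [this, h2]; group
      rw [← e2, h3, mul_one]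
      exact ha
  have hconj : ∀ g ∈ H, u * g * u⁻¹ ∈ Nm R0 := by
    intro g hg
    rw [← hcj, ← cj_Nm]
    exact mem_cj_conj.mpr (hHA hg)
  have hVN : ∀ g ∈ V, g ∈ Nm R0 → g ∈ Ce R0 := by
    intro g hg hgN
    rw [mem_centralizer_iff]
    intro b hb
    have h1 : g * b * g⁻¹ * b⁻¹ = 1 := by
      refine hdis R0 hR0p _ (R0.mul_mem ((mem_normalizer_iff.mp hgN b).mp hb) (R0.inv_mem hb)) ?_
      have e2 : g * b * g⁻¹ * b⁻¹ = g * (b * g⁻¹ * b⁻¹) := by group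
      rw [e2]
      exact V.mul_mem hg (hVn.conj_mem _ (V.inv_mem hg) b)
    have e2 : g * b = g * b * g⁻¹ * b⁻¹ * (b * g) := by group
    rw [e2, h1, one_mul]
  have fin : ∀ g m : G, g ∈ H → m ∈ Nm R0 → g * m⁻¹ ∈ V →
      u⁻¹⁻¹ * g * u⁻¹ * m⁻¹ ∈ V ⊓ Ce R0 := by
    intro g m hg hm hgm
    have h1 : u⁻¹⁻¹ * g * u⁻¹ * m⁻¹ ∈ V := by
      have e2 : u⁻¹⁻¹ * g * u⁻¹ * m⁻¹ = u * (g * u⁻¹ * g⁻¹) * (g * m⁻¹) := by group
      rw [e2]
      exact V.mul_mem (V.mul_mem hu (hVn.conj_mem _ (V.inv_mem hu) g)) hgm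
    refine ⟨h1, hVN _ h1 ?_⟩
    rw [inv_inv]
    exact (Nm R0).mul_mem (hconj g hg) ((Nm R0).inv_mem hm)
  exact ⟨u⁻¹, V.inv_mem hu, fin x n hxH hnN hx, fin y ρ hyH hρN hy⟩

end Cfsg.Agent.F2C
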