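import Cfsg.Agent.F2C.Defs
import Cfsg.Agent.F2C.SolB

set_option autoImplicit false

namespace Cfsg.Agent.F2C
open Subgroup

variable {G : Type*} [Group G] [Finite G]


theorem solC {p q r : ℕ} (hp : p.Prime) (hq : q.Prime) (hr : r.Prime) (hrp : r ≠ p) (hrq : r ≠ q)
    (V : Subgroup G) [V.Normal] (hV : IsPGroup q V) (hc : V ≤ Ce V) {R : Subgroup G} {x ρ n : G}
    (hR : IsPGroup r R) (hρ : ρ ∈ R) (hn : n ∈ Nm R) (hx : x * n⁻¹ ∈ V)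
    (hnc : ρ * n * ρ⁻¹ * n⁻¹ ∉ Ce V) (h : ∀ y : G, Good p (gen x y) x) : False := by
  haveI := Fact.mk hq
  have hVn : V.Normal := inferInstance
  have cm : ∀ a ∈ V, ∀ b ∈ V, a * b = b * a := fun a ha b hb => mem_centralizer_iff.1 (hc hb) a ha
  have nK : n ∈ gen n ρ := subset_closure (by simp)
  have ρ1 : ρ ∈ R ⊓ gen n ρ := ⟨hρ, subset_closure (by simp)⟩
  have n1 : n ∈ Nm (R ⊓ gen n ρ) := Nm_inf_Nm_le_inf _ _ ⟨hn, le_normalizer nK⟩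
  have p1 : IsPGroup r ↥(R ⊓ gen n ρ) := hR.to_le inf_le_left
  have B := fun v (hv : v ∈ V) => solB1 hp hq hr hrp hrq V hV hc p1 ρ1 n1 inf_le_right hx (y := v * ρ)
    (by rwa [mul_inv_cancel_right]) (h _)
  have p0 : IsPGroup r ↥⁅R ⊓ gen n ρ, zpowers n⁆ := p1.to_le (comm_le_left (by simpa using n1))
  have n0 : n ∈ Nm ⁅R ⊓ gen n ρ, zpowers n⁆ := Nm_inf_Nm_le_comm _ _ ⟨n1, le_normalizer (mem_zpowers n)⟩
  have s0 : R ⊓ gen n ρ ≤ Nm ⁅R ⊓ gen n ρ, zpowers n⁆ := le_Nm_comm _ _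
  have c0 : ρ * n * ρ⁻¹ * n⁻¹ ∈ ⁅R ⊓ gen n ρ, zpowers n⁆ := commutator_mem_commutator ρ1 (mem_zpowers n)
  have g0 : ∀ T : Subgroup G, n ∈ T → (∀ s ∈ R ⊓ gen n ρ, ∀ t ∈ T, s * t * s⁻¹ ∈ T) →
      ⁅R ⊓ gen n ρ, zpowers n⁆ ≤ T := fun T h1 h2 => commutator_le.2 fun s hs t ht =>
    mul_mem (h2 s hs t (zpowers_le.2 h1 ht)) (inv_mem (zpowers_le.2 h1 ht))
  generalize ⁅R ⊓ gen n ρ, zpowers n⁆ = R0 at B p0 n0 s0 c0 g0
  have nv : ∀ g ∈ Nm R0, ∀ u ∈ V ⊓ Ce R0, g * u * g⁻¹ ∈ V ⊓ Ce R0 := fun g hg u hu =>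
    ⟨hVn.conj_mem u hu.1 g, mem_centralizer_iff.2 fun a ha => by
      have e := mem_centralizer_iff.1 hu.2 _ ((mem_normalizer_iff.1 (inv_mem hg) a).1 ha)
      calc a * (g * u * g⁻¹) = g * (g⁻¹ * a * g⁻¹⁻¹ * u) * g⁻¹ := by group
        _ = _ := by rw [e]; group⟩
  let ψ : V →* V := MonoidHom.mk' (fun w => ⟨(w : G)⁻¹ * (ρ * w * ρ⁻¹), mul_mem (inv_mem w.2) (hVn.conj_mem _ w.2 ρ)⟩)
    fun a b => Subtype.ext (by
      show ((a : G) * b)⁻¹ * (ρ * (a * b) * ρ⁻¹) = (a : G)⁻¹ * (ρ * a * ρ⁻¹) * ((b : G)⁻¹ * (ρ * b * ρ⁻¹))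
      rw [← mul_assoc ((a : G)⁻¹ * (ρ * a * ρ⁻¹)),
        cm _ (mul_mem (inv_mem a.2) (hVn.conj_mem _ a.2 ρ)) _ (inv_mem b.2)]
      group)
  haveI : ((V ⊓ Ce R0).subgroupOf V).Normal := ⟨fun a ha g => by
    rw [show g * a * g⁻¹ = a from Subtype.ext (by
      show (g : G) * a * (g : G)⁻¹ = a
      rw [cm _ g.2 _ a.2, mul_inv_cancel_right])]
    exact ha⟩
  have le : (V ⊓ Ce R0).subgroupOf V ≤ ((V ⊓ Ce R0).subgroupOf V).comap ψ := fun u hu =>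
    mul_mem (inv_mem (show (u : G) ∈ V ⊓ Ce R0 from hu)) (nv ρ (s0 ρ1) u hu)
  have B' : ∀ v : V, ∃ w : V, (w : G)⁻¹ * x * w * n⁻¹ ∈ V ⊓ Ce R0 ∧ v⁻¹ * ψ w ∈ (V ⊓ Ce R0).subgroupOf V := fun v => by
    obtain ⟨w, hw, h1, h2⟩ := B _ (inv_mem v.2)
    refine ⟨⟨w, hw⟩, h1, ?_⟩
    show (v : G)⁻¹ * (w⁻¹ * (ρ * w * ρ⁻¹)) ∈ V ⊓ Ce R0
    rw [← mul_assoc, cm _ (inv_mem v.2) _ (inv_mem hw)]
    simpa only [mul_assoc] using h2
  have inj : Function.Injective (QuotientGroup.map _ _ ψ le) := Finite.injective_iff_surjective.2 fun c => by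
    obtain ⟨v, rfl⟩ := QuotientGroup.mk_surjective c
    obtain ⟨w, -, h2⟩ := B' v
    exact ⟨w, (QuotientGroup.eq.2 h2).symm⟩
  have all : ∀ w ∈ V, w⁻¹ * x * w * n⁻¹ ∈ V ⊓ Ce R0 := fun w' hw' => by
    obtain ⟨w, h1, h2⟩ := B' (ψ ⟨w', hw'⟩)
    have e : ((⟨w', hw'⟩ : V) : V ⧸ (V ⊓ Ce R0).subgroupOf V) = w := inj (QuotientGroup.eq.2 h2)
    have u : w'⁻¹ * w ∈ V ⊓ Ce R0 := mem_subgroupOf.1 (QuotientGroup.eq.1 e)
    have := mul_mem (mul_mem u h1) (nv n n0 _ (inv_mem u))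
    convert this using 1
    group
  let T : Subgroup G :=
    { carrier := {g | g ∈ Nm R0 ∧ ∀ w ∈ V, w⁻¹ * (g * w * g⁻¹) ∈ V ⊓ Ce R0}
      one_mem' := ⟨one_mem _, fun w _ => by simp⟩
      mul_mem' := fun {a b} ha hb => ⟨mul_mem ha.1 hb.1, fun w hw => by
        have := mul_mem (ha.2 w hw) (nv a ha.1 _ (hb.2 w hw))
        convert this using 1
        group⟩
      inv_mem' := fun {a} ha => ⟨inv_mem ha.1, fun w hw => by
        have := inv_mem (nv _ (inv_mem ha.1) _ (ha.2 w hw))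
        convert this using 1
        group⟩ }
  have rT : R0 ≤ T := g0 T ⟨n0, fun w hw => by
      have v0 := all 1 (one_mem _)
      have := mul_mem (inv_mem v0) (all w hw)
      rw [inv_one, one_mul, mul_one, show w⁻¹ * x * w * n⁻¹ = w⁻¹ * (x * n⁻¹) * (n * w * n⁻¹) by group,
        cm _ (inv_mem hw) _ hx, mul_assoc (x * n⁻¹), inv_mul_cancel_left] at this
      exact this⟩ fun s hs t ht => ⟨mul_mem (mul_mem (s0 hs) ht.1) (inv_mem (s0 hs)), fun w hw => by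
      have := nv s (s0 hs) _ (ht.2 _ (hVn.conj_mem w hw s⁻¹))
      convert this using 1
      group⟩
  have e1 : ⁅⁅V, R0⁆, R0⁆ = ⊥ := commutator_eq_bot_iff_le_centralizer.2 (commutator_le.2 fun w hw g hg => by
    have : w⁻¹⁻¹ * (g * w⁻¹ * g⁻¹) ∈ Ce R0 := ((rT hg).2 _ (inv_mem hw)).2
    rwa [inv_inv, ← mul_assoc, ← mul_assoc] at this)
  obtain ⟨k, hk⟩ := IsPGroup.iff_card.1 hV
  rw [comm_comm hr p0 (hk ▸ ((Nat.coprime_primes hq hr).2 hrq.symm).pow_left k)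
    (by rw [show Nm V = ⊤ from normalizer_eq_top V]; exact le_top), commutator_comm] at e1
  exact hnc (commutator_eq_bot_iff_le_centralizer.1 e1 c0)

end Cfsg.Agent.F2C
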