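import Cfsg.Agent.F2C.Defs
import Cfsg.Agent.F2C.CtxB

set_option autoImplicit false

namespace Cfsg.Agent.F2C
open Subgroup

variable {G : Type*} [Group G] [Finite G]


theorem WW.exists_MW {q : ℕ} {E W : Subgroup G} (h : WW q E W) : ∃ W', MW q E W' ∧ W ≤ W' := by
  obtain ⟨M, hle, hM⟩ := exists_maximal_ge_of_wellFoundedGT (WW q E) W h
  exact ⟨M, ⟨hM.1, fun W' h1 h2 => le_antisymm (hM.2 h1 h2) h2⟩, hle⟩

theorem ti_grow {q : ℕ} (hq : q.Prime) {T W : Subgroup G} (hW : IsPGroup q W) (h : T < W) :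
    T < W ⊓ Nm T := by
  haveI := Fact.mk hq
  haveI := hW.isNilpotent
  have h1 : T.subgroupOf W < ⊤ := by
    rw [lt_top_iff_ne_top, Ne, subgroupOf_eq_top]
    exact h.not_ge
  obtain ⟨g, hg, hg'⟩ := SetLike.exists_of_lt (normalizerCondition_of_isNilpotent _ h1)
  rw [← subgroupOf_normalizer_eq h.le, mem_subgroupOf] at hg
  rw [mem_subgroupOf] at hg'
  exact lt_of_le_of_ne (le_inf h.le le_normalizer) fun e => hg' (e ▸ mem_inf.2 ⟨g.2, hg⟩)

theorem ti_key {p q : ℕ} {x : G} (c : Ctx p x) (hq : q.Prime) (hqp : q ≠ p) {S : Set G}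
    (hS : ∀ b ∈ S, IsConj x b) (hE : IsPGroup p (closure S))
    (hstar : ∀ R : Subgroup G, IsPGroup q R → closure S ≤ Nm R →
      ⁅R, closure S⁆ ⊓ Ce (closure S) ≤ Oq q (Ce (closure S)))
    {H : Subgroup G} (hH : H ≠ ⊤) (hEH : closure S ≤ H) :
    ∃ Y, WW q (closure S) Y ∧ ∀ W, WW q (closure S) W → W ⊓ H ≤ Y := by
  have hO : closure S ≤ Nm (Oq q H) := hEH.trans (le_Nm_Oq q H)
  have hD : IsPGroup q ↥⁅Oq q H, closure S⁆ := (Oq_pgroup hq H).to_le (comm_le_left hO)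
  have hBC : Oq q (Ce (closure S)) ⊓ H ≤ Ce (closure S) := inf_le_left.trans (Oq_le _ _)
  have hB : IsPGroup q ↥(Oq q (Ce (closure S)) ⊓ H) := (Oq_pgroup hq _).to_le inf_le_left
  have hBD : Oq q (Ce (closure S)) ⊓ H ≤ Nm ⁅Oq q H, closure S⁆ :=
    (le_inf (inf_le_right.trans (le_Nm_Oq q H)) (hBC.trans (Ce_le_Nm _))).trans
      (Nm_inf_Nm_le_comm _ _)
  refine ⟨(Oq q (Ce (closure S)) ⊓ H) ⊔ ⁅Oq q H, closure S⁆, ⟨pg_sup hq hB hD hBD, ?_, ?_⟩, ?_⟩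
  · exact (le_inf ((le_Ce_comm hBC).trans (Ce_le_Nm _))
      ((le_inf hO le_normalizer).trans (Nm_inf_Nm_le_comm _ _))).trans (Nm_inf_Nm_le_sup _ _)
  · intro y hy
    obtain ⟨hy1, hy2⟩ := mem_inf.1 hy
    rw [← SetLike.mem_coe, coe_mul_of_left_le_normalizer_right _ _ hBD] at hy1
    obtain ⟨b, hb, d, hd, rfl⟩ := hy1
    have hd' : d ∈ Ce (closure S) := by
      have := mul_mem (inv_mem (hBC hb)) hy2
      simpa using this
    exact mul_mem (mem_inf.1 hb).1 (hstar _ (Oq_pgroup hq H) hO (mem_inf.2 ⟨hd, hd'⟩))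
  · intro W hW u hu
    have hN : IsPGroup q ↥(W ⊓ H) := hW.1.to_le inf_le_left
    have hEN : closure S ≤ Nm (W ⊓ H) :=
      (le_inf hW.2.1 (hEH.trans le_normalizer)).trans (Nm_inf_Nm_le_inf _ _)
    have hc := cop_of_pg c.hp hq hqp hN
    obtain ⟨d, hd, e, he, rfl⟩ := decomp c.hp hE hc hEN hu
    have h1 : ⁅W ⊓ H, closure S⁆ ≤ ⁅Oq q H, closure S⁆ := by
      rw [← comm_comm c.hp hE hc hEN]
      exact commutator_mono (c.b1E hq hqp hS hH hEH hN inf_le_right hEN) le_rfl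
    obtain ⟨he1, he2⟩ := mem_inf.1 he
    obtain ⟨he3, he4⟩ := mem_inf.1 he1
    exact mul_mem (mem_sup_right (h1 hd))
      (mem_sup_left (mem_inf.2 ⟨hW.2.2 (mem_inf.2 ⟨he3, he2⟩), he4⟩))

theorem Ctx.ti {p q : ℕ} {x : G} (c : Ctx p x) (hq : q.Prime) (hqp : q ≠ p) {S : Set G}
    (hS : ∀ b ∈ S, IsConj x b) (hE : IsPGroup p (closure S))
    (hstar : ∀ R : Subgroup G, IsPGroup q R → closure S ≤ Nm R →
      ⁅R, closure S⁆ ⊓ Ce (closure S) ≤ Oq q (Ce (closure S)))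
    {W₁ W₂ : Subgroup G} (h1 : MW q (closure S) W₁) (h2 : MW q (closure S) W₂)
    (h : W₁ ⊓ W₂ ≠ ⊥) : W₁ = W₂ := by
  have key : ∀ T : Subgroup G, ∀ W₁ W₂ : Subgroup G, MW q (closure S) W₁ → MW q (closure S) W₂ →
      W₁ ⊓ W₂ = T → T ≠ ⊥ → W₁ = W₂ := by
    intro T
    induction T using WellFoundedGT.induction with
    | ind T ih =>
      intro W₁ W₂ h1 h2 e hT
      by_contra hne
      have l1 : T < W₁ := lt_of_le_of_ne (e ▸ inf_le_left) fun e' =>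
        hne (h1.2 W₂ h2.1 (by rw [← e', ← e]; exact inf_le_right)).symm
      have l2 : T < W₂ := lt_of_le_of_ne (e ▸ inf_le_right) fun e' =>
        hne (h2.2 W₁ h1.1 (by rw [← e', ← e]; exact inf_le_left))
      have hTq : IsPGroup q T := h1.1.1.to_le l1.le
      have hEH : closure S ≤ Nm T := by
        rw [← e]
        exact (le_inf h1.1.2.1 h2.1.2.1).trans (Nm_inf_Nm_le_inf _ _)
      obtain ⟨Y, hY, hY'⟩ := ti_key c hq hqp hS hE hstar (c.Nm_ne' hq hTq hT) hEH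
      obtain ⟨W₃, h3, hY3⟩ := hY.exists_MW
      have step : ∀ W, MW q (closure S) W → T < W → W = W₃ := fun W hW l => by
        have g : T < W ⊓ W₃ := (ti_grow hq hW.1.1 l).trans_le
          (le_inf inf_le_left ((hY' W hW.1).trans hY3))
        exact ih _ g W W₃ hW h3 rfl (ne_bot_of_gt g)
      exact hne ((step W₁ h1 l1).trans (step W₂ h2 l2).symm)
  exact key _ W₁ W₂ h1 h2 rfl h

end Cfsg.Agent.F2C
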