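import Cfsg.Agent.F2C.Defs
import Cfsg.Agent.F2C.Tr1
import Cfsg.Agent.H44.Cores

set_option autoImplicit false
set_option linter.unusedSectionVars false

namespace Cfsg.Agent.F2C
open Subgroup

variable {G : Type*} [Group G] [Finite G]

namespace Tr2

theorem pg_map {G' : Type*} [Group G'] {p : ℕ} (f : G →* G') {N : Subgroup G}
    (h : ∀ g ∈ N, ∃ k : ℕ, g ^ p ^ k ∈ f.ker) : IsPGroup p (N.map f) := by
  rintro ⟨_, g, hg, rfl⟩
  obtain ⟨k, hk⟩ := h g hg
  exact ⟨k, Subtype.ext (by simpa using hk)⟩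

theorem pw_comap {G' : Type*} [Group G'] {p : ℕ} (f : G →* G') {N : Subgroup G'} (h : IsPGroup p N) {g : G}
    (hg : f g ∈ N) : ∃ k : ℕ, g ^ p ^ k ∈ f.ker :=
  let ⟨k, hk⟩ := h ⟨_, hg⟩
  ⟨k, by simpa using congrArg Subtype.val hk⟩

theorem top_le {N : Subgroup G} (h : N.Normal) : (⊤ : Subgroup G) ≤ Nm N := (normalizer_eq_top N).ge

/-- the preimage of `O_p(H / W)` -/
theorem exists_N {p : ℕ} (hp : p.Prime) {H W : Subgroup G} (le : W ≤ H) (n : Nm H ≤ Nm W) :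
    ∃ N, W ≤ N ∧ N ≤ H ∧ Nm H ≤ Nm N ∧ (∀ g ∈ N, ∃ k : ℕ, g ^ p ^ k ∈ W) ∧
      ∀ N', N' ≤ H → H ≤ Nm N' → (∀ g ∈ N', ∃ k : ℕ, g ^ p ^ k ∈ W) → N' ≤ N := by
  have : (W.subgroupOf (Nm H)).Normal := (normal_subgroupOf_iff_le_normalizer (le.trans le_normalizer)).2 n
  have : (H.subgroupOf (Nm H)).Normal := (normal_subgroupOf_iff_le_normalizer le_normalizer).2 le_rfl
  set π := QuotientGroup.mk' (W.subgroupOf (Nm H)) with hπ
  have hk : π.ker = W.subgroupOf (Nm H) := QuotientGroup.ker_mk' _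
  have : ((H.subgroupOf (Nm H)).map π).Normal := Normal.map inferInstance π (QuotientGroup.mk'_surjective _)
  have : (Oq p ((H.subgroupOf (Nm H)).map π)).Normal := H44.pCoreOf_normal _
  refine ⟨((Oq p ((H.subgroupOf (Nm H)).map π)).comap π).map (Nm H).subtype, fun w hw => ?_, ?_, ?_, ?_, ?_⟩
  · refine ⟨⟨w, le_normalizer (le hw)⟩, ?_, rfl⟩
    have : (⟨w, le_normalizer (le hw)⟩ : Nm H) ∈ π.ker := hk.ge hw
    rw [SetLike.mem_coe, mem_comap, MonoidHom.mem_ker.1 this]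
    exact one_mem _
  · rintro _ ⟨g, hg, rfl⟩
    have : g ∈ ((H.subgroupOf (Nm H)).map π).comap π := comap_mono (Oq_le p _) hg
    rw [comap_map_eq, hk, sup_eq_left.2 (fun _ h => le h)] at this
    exact this
  · refine le_trans ?_ (le_normalizer_map _)
    rw [normalizer_eq_top, ← MonoidHom.range_eq_map, range_subtype]
  · rintro _ ⟨g, hg, rfl⟩
    obtain ⟨k, e⟩ := pw_comap π (Oq_pgroup hp _) hg
    exact ⟨k, by rw [hk] at e; exact e⟩
  · intro N' h1 h2 h3 b hb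
    have : (N'.subgroupOf (Nm H)).map π ≤ Oq p ((H.subgroupOf (Nm H)).map π) :=
      le_Oq (pg_map π fun g hg => (h3 g hg).imp fun _ e => hk.ge e) (map_mono fun _ h => h1 h)
        ((map_mono ((comap_mono h2).trans (le_normalizer_comap _))).trans (le_normalizer_map _))
    exact ⟨⟨b, le_normalizer (h1 hb)⟩, this ⟨_, hb, rfl⟩, rfl⟩

end Tr2

open Tr2

theorem exists_univ {p : ℕ} (hp : p.Prime) (H : Subgroup G) :
    ∃ W N, Fr p H W N ∧ Nm H ≤ Nm W ∧ Nm H ≤ Nm N ∧ ∀ b : G, Good p H b → b ∈ N := by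
  have n : Nm H ≤ Nm ((fittingSubgroup H).map H.subtype ⊓ (pPrimeCore p H).map H.subtype) :=
    (le_inf (H44.normalizer_le_normalizer_fittingOf H) (H44.normalizer_le_normalizer_pPrimeCoreOf H)).trans
      (Nm_inf_Nm_le_inf _ _)
  obtain ⟨N, h1, h2, h3, h4, h5⟩ := exists_N hp (inf_le_left.trans (H44.fittingOf_le H)) n
  have := H44.fittingOf_isNilpotent H
  refine ⟨_, N, ⟨h1, h2, le_normalizer.trans n, le_normalizer.trans h3,
    Group.nilpotent_of_mulEquiv (subgroupOfEquivOfLe inf_le_left),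
    (H44.pPrimeCoreOf_coprime H).coprime_dvd_left (card_dvd_of_le inf_le_right), h4⟩, n, h3, ?_⟩
  rintro b ⟨W', N', f, hb⟩
  refine h5 N' f.nh f.nn (fun g hg => ?_) hb
  obtain ⟨k, hk⟩ := f.pw g hg
  exact ⟨k, H44.le_fittingOf (f.wn.trans f.nh) f.nw f.nil hk, H44.le_pPrimeCoreOf (f.wn.trans f.nh) f.nw f.cop hk⟩

theorem Good.of_normal {p : ℕ} (hp : p.Prime) {N : Subgroup G} (hN : N.Normal) {x : G}
    (h : Good p N x) : Good p ⊤ x :=
  let ⟨W, M, f, h1, h2, h3⟩ := exists_univ hp N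
  ⟨W, M, ⟨f.wn, le_top, (top_le hN).trans h1, (top_le hN).trans h2, f.nil, f.cop, f.pw⟩, h3 x h⟩

theorem good_iff {p : ℕ} (hp : p.Prime) [(Cfsg.fittingSubgroup G).Normal] {x : G} (hx : PE p x) :
    x ∈ (Cfsg.fittingSubgroup (G ⧸ Cfsg.fittingSubgroup G)).comap
      (QuotientGroup.mk' (Cfsg.fittingSubgroup G)) ↔ Good p ⊤ x := by
  have := Fact.mk hp
  set π := QuotientGroup.mk' (Cfsg.fittingSubgroup G) with hπ
  have hk : π.ker = Cfsg.fittingSubgroup G := QuotientGroup.ker_mk' _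
  constructor
  · intro h
    have hz : IsPGroup p ((zpowers x).map π) := pg_map π (by
      rintro _ ⟨i, rfl⟩
      obtain ⟨k, e⟩ := hx
      refine ⟨k, ?_⟩
      have : (x ^ i) ^ p ^ k = 1 := by
        rw [← zpow_natCast, ← zpow_mul, mul_comm, zpow_mul, zpow_natCast, e, one_zpow]
      simp only [this, one_mem])
    have hm := nil_le_Oq hp H44.fitting_isNilpotent hz (map_le_iff_le_comap.2 ((zpowers_le).2 h))
      ⟨x, mem_zpowers x, rfl⟩
    have : (Oq p (Cfsg.fittingSubgroup (G ⧸ Cfsg.fittingSubgroup G))).Normal := H44.pCoreOf_normal _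
    obtain ⟨W, f⟩ := fr_of_nil hp (H := ⊤) (W := Cfsg.fittingSubgroup G)
      (N := (Oq p (Cfsg.fittingSubgroup (G ⧸ Cfsg.fittingSubgroup G))).comap π) (hk.ge.trans (ker_le_comap π _)) le_top
      (top_le ‹_›) (top_le inferInstance) H44.fitting_isNilpotent fun g hg =>
        (pw_comap π (Oq_pgroup hp _) hg).imp fun _ e => hk.le e
    exact ⟨W, _, f, hm⟩
  · rintro ⟨W, N, f, hm⟩
    have nW : W.Normal := normalizer_eq_top_iff.1 (top_le_iff.1 f.nw)
    have nN : N.Normal := normalizer_eq_top_iff.1 (top_le_iff.1 f.nn)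
    have hz : IsPGroup p (N.map π) := pg_map π fun g hg =>
      (f.pw g hg).imp fun _ e => hk.ge (H44.le_fitting nW f.nil e)
    exact H44.le_fitting (nN.map π (QuotientGroup.mk'_surjective _)) hz.isNilpotent ⟨x, hm, rfl⟩

end Cfsg.Agent.F2C
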