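import Cfsg.Agent.F2C.Defs
import Cfsg.Agent.F2C.TI
import Cfsg.Agent.S3816

set_option autoImplicit false

namespace Cfsg.Agent.F2C
open Subgroup

variable {G : Type*} [Group G] [Finite G]


theorem Ctx.star_odd {p q : ℕ} {x : G} (c : Ctx p x) (hp2 : p ≠ 2) (hq : q.Prime) (hqp : q ≠ p)
    {R : Subgroup G} (hR : IsPGroup q R) (hn : x ∈ Nm R) :
    ⁅R, zpowers x⁆ ⊓ Cx x ≤ Oq q (Cx x) := by
  haveI : Fact p.Prime := ⟨c.hp⟩
  haveI : Fact q.Prime := ⟨hq⟩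
  have zn : zpowers x ≤ Nm R := (zpowers_le).2 hn
  have cop := cop_of_pg c.hp hq hqp hR
  set α : MulAut R := R.normalizerMonoidHom ⟨x, hn⟩ with hα
  have ap : ∀ (i : ℕ) (h : R), ((α ^ i) h : G) = x ^ i * h * (x ^ i)⁻¹ := fun i h => by
    rw [hα, ← map_pow]; rfl
  have a1 : ∀ h : R, (α h : G) = x * h * x⁻¹ := fun h => by simpa using ap 1 h
  have od : orderOf α ∣ p := orderOf_dvd_of_pow_eq_one (MulEquiv.ext fun h => Subtype.ext (by
    rw [ap, ← c.ord, pow_orderOf_eq_one]; simp))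
  rcases (Nat.dvd_prime c.hp).1 od with o | o
  · rw [orderOf_eq_one_iff] at o
    rw [comm_eq_bot_iff.2 fun r hr => mem_Cx.2 ?_, bot_inf_eq]
    · exact bot_le
    · have := a1 ⟨r, hr⟩
      rw [o] at this
      exact eq_mul_inv_iff_mul_eq.1 this
  haveI := hR.isNilpotent
  have key := Cfsg.Agent.S3816.result hp2 cop α o
  rintro t ⟨t1, t2⟩
  have m1 : ⁅R, zpowers x⁆ ≤ (closure {c : R | ∃ h : R, ∃ i : ℕ, c = h⁻¹ * (α ^ i) h}).map R.subtype := by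
    refine commutator_le.2 fun r hr y hy => ?_
    obtain ⟨i, rfl⟩ := (mem_powers_iff_mem_zpowers.2 hy : y ∈ Submonoid.powers x)
    refine ⟨_, subset_closure ⟨⟨r, hr⟩⁻¹, i, rfl⟩, ?_⟩
    simp [ap, commutatorElement_def, mul_assoc]
  obtain ⟨t, ht, rfl⟩ := m1 t1
  have fx : ∀ s : R, s ∈ (α : R →* R).eqLocus (MonoidHom.id R) ↔ (s : G) ∈ Cx x := fun s => by
    rw [mem_Cx, eq_comm, ← mul_inv_eq_iff_eq_mul, ← a1]
    exact Subtype.ext_iff
  have m2 : t ∈ ⨆ h : R, closure {c : R | ∃ i : ℕ, c = h⁻¹ * (α ^ i) h} ⊓ (α : R →* R).eqLocus (MonoidHom.id R) := by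
    rw [← key]; exact ⟨ht, (fx t).2 t2⟩
  refine (iSup_le fun h => ?_ : _ ≤ (Oq q (Cx x)).comap R.subtype) m2
  rintro s ⟨s1, s2⟩
  obtain ⟨a, -, a2, a3⟩ := prep c.hp cop c.ord hn (h⁻¹).2
  rw [← a3] at a2
  have s3 : (s : G) ∈ gen x (a * x * a⁻¹) := by
    refine ((closure_le ((gen x (a * x * a⁻¹)).comap R.subtype)).2 ?_) s1
    rintro _ ⟨i, rfl⟩
    have : ((h⁻¹ * (α ^ i) h : R) : G) = (a * x * a⁻¹) ^ i * (x ^ i)⁻¹ := by
      rw [a3, conj_pow, coe_mul, ap]; simp [mul_assoc]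
    show ((h⁻¹ * (α ^ i) h : R) : G) ∈ gen x (a * x * a⁻¹)
    rw [this]
    exact mul_mem (pow_mem (subset_closure (by simp)) _) (inv_mem (pow_mem (subset_closure (by simp)) _))
  refine bs hq ((fx s).1 s2) fun e he => ?_
  obtain ⟨k1, -, k3⟩ := ctrick he a2
  have m : (s : G) ∈ Oq q (gen x (a * e)) :=
    c.gen_le hq hqp (U := gen x (a * x * a⁻¹) ⊓ R) (c.two _) (IsConj.refl x) (isConj_iff.2 ⟨a, rfl⟩)
      (subset_closure (by simp)) k1 (hR.to_le inf_le_right) inf_le_left ⟨s3, s.2⟩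
  refine (Oq_pgroup hq (gen x (a * e))).to_le ((closure_le _).2 ?_)
  rintro _ (rfl | rfl)
  · exact m
  · exact (mem_normalizer_iff.1 (le_Nm_Oq q _ k3) _).1 m

theorem Ctx.u1_odd {p q : ℕ} {x : G} (c : Ctx p x) (hp2 : p ≠ 2) (hq : q.Prime) (hqp : q ≠ p)
    {D₁ D₂ : Subgroup G} (h1 : QQ q x D₁) (h2 : QQ q x D₂) (h : D₁ ⊓ D₂ ≠ ⊥) :
    IsPGroup q ↥(D₁ ⊔ D₂) := by
  haveI : Fact p.Prime := ⟨c.hp⟩
  have e : closure ({x} : Set G) = zpowers x := (zpowers_eq_closure x).symm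
  have st : ∀ R : Subgroup G, IsPGroup q R → closure ({x} : Set G) ≤ Nm R →
      ⁅R, closure ({x} : Set G)⁆ ⊓ Ce (closure ({x} : Set G)) ≤ Oq q (Ce (closure ({x} : Set G))) := fun R hR hn => by
    rw [e, Ce_zpowers]
    exact c.star_odd hp2 hq hqp hR (hn (subset_closure rfl))
  have w : ∀ {D : Subgroup G}, QQ q x D → WW q (closure ({x} : Set G)) D := fun {D} hD => by
    have n : closure ({x} : Set G) ≤ Nm D := by rw [e]; exact zpowers_le.2 hD.2.1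
    refine ⟨hD.1, n, ?_⟩
    have := st D hD.1 n
    rwa [show ⁅D, closure ({x} : Set G)⁆ = D by rw [e]; exact hD.2.2] at this
  obtain ⟨W₁, m1, l1⟩ := (w h1).exists_MW
  obtain ⟨W₂, m2, l2⟩ := (w h2).exists_MW
  have := c.ti hq hqp (S := {x}) (fun b hb => hb ▸ IsConj.refl x)
    (by rw [e]; exact IsPGroup.of_card (n := 1) (by rw [Nat.card_zpowers, c.ord, pow_one])) st m1 m2
    fun z => h (le_bot_iff.1 (z ▸ inf_le_inf l1 l2))
  exact m1.1.1.to_le (sup_le l1 (this ▸ l2))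

end Cfsg.Agent.F2C
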